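import Cfsg.Agent.Lib.Char.Degree
import Cfsg.Agent.Lib.Char.Kernel

/-!
# When all constituents are linear
-/

set_option autoImplicit false

open Module
open scoped ComplexConjugate commutatorElement

namespace Cfsg.Agent.Lib.Char

universe u v

variable {G : Type u} [Group G] [Finite G]

/-- If all irreducible constituents are linear, the commutator subgroup is in the kernel. -/
theorem commutator_apply_of_linear_constituents {φ : G → ℂ} (hφ : IsCharacter G φ)
    (h : ∀ [Fintype G] (χ : IrrCharacter G), classInner φ (χ : G → ℂ) ≠ 0 → (χ : G → ℂ) 1 = 1) :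
    ∀ g ∈ commutator G, φ g = φ 1 := by
  have := Fintype.ofFinite G
  intro g hg
  rw [eq_sum_classInner_smul (isClassFunction_of_isCharacter hφ)]
  simp only [Finset.sum_apply, Pi.smul_apply, smul_eq_mul]
  refine Finset.sum_congr rfl fun χ _ => ?_
  by_cases hc : classInner φ (χ : G → ℂ) = 0
  · rw [hc, zero_mul, zero_mul]
  · obtain ⟨l, hl⟩ := exists_hom_of_degree_one (isCharacter_of_isIrr χ.2) (h χ hc)
    have hk : l g = 1 := MonoidHom.mem_ker.mp (Abelianization.commutator_subset_ker l hg)
    rw [hl, hl, hk, map_one]

/-- A faithful representation with only linear constituents forces an abelian group. -/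
theorem comm_of_linear_constituents {V : Type v} [AddCommGroup V] [Module ℂ V]
    [FiniteDimensional ℂ V] (ρ : Representation ℂ G V) (hf : Function.Injective ρ)
    (h : ∀ [Fintype G] (χ : IrrCharacter G), classInner ρ.character (χ : G → ℂ) ≠ 0 →
      (χ : G → ℂ) 1 = 1) (a b : G) : a * b = b * a := by
  have hk := commutator_apply_of_linear_constituents (isCharacter_character ρ) h
    (a * b * (b * a)⁻¹) (by
      rw [show a * b * (b * a)⁻¹ = ⁅a, b⁆ by rw [commutatorElement_def]; group]
      exact Subgroup.commutator_mem_commutator (Subgroup.mem_top a) (Subgroup.mem_top b))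
  rw [Representation.char_one, character_eq_degree_iff] at hk
  exact mul_inv_eq_one.mp (hf (hk.trans (map_one ρ).symm))

end Cfsg.Agent.Lib.Char
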