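import Cfsg.Agent.Lib.Char.Wreath
import Cfsg.Agent.Lib.Char.Scalar
import Cfsg.Agent.Lib.CharClifford.FullyRamified
import Mathlib.Analysis.SpecialFunctions.Complex.CircleAddChar
import Mathlib.NumberTheory.LegendreSymbol.AddCharacter
import Mathlib.RingTheory.RootsOfUnity.Complex
import Mathlib.Data.Nat.Squarefree

/-!
# Groups of central type containing a given solvable group modulo the centre

If `H` has a faithful character that is fully ramified over its centre, so has a quotient of the
fibre product of `H ≀ C_p` with a Heisenberg group of order `p³` over `C_p`; modulo the centre it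
contains `(H / Z(H)) ≀ C_p`.
-/

set_option autoImplicit false
set_option linter.unusedSectionVars false
set_option linter.style.haveILetI false

open scoped ComplexConjugate

namespace Cfsg.Agent.Lib.Char.CentralType

open Cfsg

universe u

/-- A faithful character, fully ramified over the centre. -/
structure IsCT (H : Type u) [Group H] (χ : H → ℂ) : Prop where
  irr : IsIrrCharacter H χ
  faith : ∀ h : H, χ h = χ 1 → h = 1
  sq : charDegree χ ^ 2 = (Subgroup.center H).index

variable {H : Type u} [Group H] [Finite H] {χ : H → ℂ}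

theorem deg_ne {G : Type u} [Group G] [Finite G] {φ : G → ℂ} (hφ : IsIrrCharacter G φ) :
    φ 1 ≠ 0 :=
  haveI := Fintype.ofFinite G
  irr_degree_ne_zero hφ

/-- The central character. -/
noncomputable def cenLam (hχ : IsIrrCharacter H χ) : Subgroup.center H →* ℂˣ :=
  MonoidHom.toHomUnits
    { toFun := fun z => χ (z : H) / χ 1
      map_one' := by
        rw [OneMemClass.coe_one, div_self (deg_ne hχ)]
      map_mul' := fun z w => by
        have h := (apply_mul_of_norm_eq (isCharacter_of_isIrr hχ)
          (norm_char_of_mem_center hχ z.2) (w : H)).1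
        have h0 := deg_ne hχ
        rw [Subgroup.coe_mul]
        field_simp
        exact h }

theorem apply_center (hχ : IsIrrCharacter H χ) (z : Subgroup.center H) :
    χ (z : H) = (cenLam hχ z : ℂ) * χ 1 := by
  show χ (z : H) = χ (z : H) / χ 1 * χ 1
  rw [div_mul_cancel₀ _ (deg_ne hχ)]

theorem cenLam_injective (h : IsCT H χ) : Function.Injective (cenLam h.irr) := by
  rw [injective_iff_map_eq_one]
  intro z hz
  refine Subtype.ext (h.faith _ ?_)
  rw [apply_center h.irr, hz, Units.val_one, one_mul]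

theorem isIrr_cenLam (hχ : IsIrrCharacter H χ) :
    IsIrrCharacter (Subgroup.center H) fun z => (cenLam hχ z : ℂ) :=
  isIrrCharacter_linear _

theorem vanish (h : IsCT H χ) {x : H} (hx : x ∉ Subgroup.center H) : χ x = 0 := by
  haveI := Fintype.ofFinite H
  haveI := Fintype.ofFinite (Subgroup.center H)
  exact CharClifford.FullyRamified.Ram.vanish (Z := Subgroup.center H) (θ := fun z => (cenLam h.irr z : ℂ))
    ⟨isIrr_cenLam h.irr, h.irr, charDegree χ, h.sq, fun z => by
      rw [apply_center h.irr, apply_one_eq_charDegree (isCharacter_of_isIrr h.irr), mul_comm]⟩ hx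

/-- The group `ℤ/p`, written multiplicatively. -/
abbrev Cp (p : ℕ) := Multiplicative (ZMod p)

/-- The fibre product of `H ≀ C_p` with a Heisenberg group. -/
@[ext]
structure Tw (H : Type u) [Group H] (p : ℕ) where
  /-- The wreath product part. -/
  w : H ≀ᵣ Cp p
  /-- The second coordinate. -/
  b : ZMod p
  /-- The central coordinate. -/
  c : ZMod p

variable {p : ℕ}

/-- The coordinate in `ℤ/p` of the wreath product part. -/
def aOf (w : H ≀ᵣ Cp p) : ZMod p := Multiplicative.toAdd w.right

omit [Finite H] in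
theorem aOf_one : aOf (1 : H ≀ᵣ Cp p) = 0 := rfl

omit [Finite H] in
theorem aOf_mul (v w : H ≀ᵣ Cp p) : aOf (v * w) = aOf v + aOf w := rfl

omit [Finite H] in
theorem aOf_inv (v : H ≀ᵣ Cp p) : aOf v⁻¹ = -aOf v := rfl

instance : Group (Tw H p) where
  mul x y := ⟨x.w * y.w, x.b + y.b, x.c + y.c + aOf x.w * y.b⟩
  one := ⟨1, 0, 0⟩
  inv x := ⟨x.w⁻¹, -x.b, -x.c + aOf x.w * x.b⟩
  mul_assoc x y z := by
    apply Tw.ext
    · exact mul_assoc x.w y.w z.w
    · exact add_assoc x.b y.b z.b
    · show x.c + y.c + aOf x.w * y.b + z.c + aOf (x.w * y.w) * z.b =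
        x.c + (y.c + z.c + aOf y.w * z.b) + aOf x.w * (y.b + z.b)
      rw [aOf_mul]; ring
  one_mul x := by
    apply Tw.ext
    · exact one_mul x.w
    · exact zero_add x.b
    · show 0 + x.c + aOf (1 : H ≀ᵣ Cp p) * x.b = x.c
      rw [aOf_one]; ring
  mul_one x := by
    apply Tw.ext
    · exact mul_one x.w
    · exact add_zero x.b
    · show x.c + 0 + aOf x.w * 0 = x.c
      ring
  inv_mul_cancel x := by
    apply Tw.ext
    · exact inv_mul_cancel x.w
    · exact neg_add_cancel x.b
    · show -x.c + aOf x.w * x.b + x.c + aOf x.w⁻¹ * x.b = 0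
      rw [aOf_inv]; ring

omit [Finite H] in
theorem mul_w (x y : Tw H p) : (x * y).w = x.w * y.w := rfl
omit [Finite H] in
theorem mul_b (x y : Tw H p) : (x * y).b = x.b + y.b := rfl
omit [Finite H] in
theorem mul_c (x y : Tw H p) : (x * y).c = x.c + y.c + aOf x.w * y.b := rfl
omit [Finite H] in
theorem inv_w (x : Tw H p) : x⁻¹.w = x.w⁻¹ := rfl
omit [Finite H] in
theorem inv_b (x : Tw H p) : x⁻¹.b = -x.b := rfl
omit [Finite H] in
theorem inv_c (x : Tw H p) : x⁻¹.c = -x.c + aOf x.w * x.b := rfl

/-- The coordinates of an element. -/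
def twEquiv (H : Type u) [Group H] (p : ℕ) : Tw H p ≃ (H ≀ᵣ Cp p) × ZMod p × ZMod p where
  toFun x := (x.w, x.b, x.c)
  invFun y := ⟨y.1, y.2.1, y.2.2⟩
  left_inv _ := rfl
  right_inv _ := rfl

variable [Fact p.Prime]

instance : Finite (Tw H p) := Finite.of_equiv _ (twEquiv H p).symm

theorem card_tw : Nat.card (Tw H p) = Nat.card H ^ p * p ^ 3 := by
  rw [Nat.card_congr (twEquiv H p), Nat.card_prod, Nat.card_prod, RegularWreathProduct.card,
    Nat.card_zmod, show Nat.card (Cp p) = p from Nat.card_zmod p]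
  ring

/-- The elements whose wreath product part lies in the base group. -/
def bSub (H : Type u) [Group H] (p : ℕ) : Subgroup (Tw H p) where
  carrier := {x | x.w.right = 1}
  mul_mem' {x y} hx hy := by
    show (x.w * y.w).right = 1
    rw [RegularWreathProduct.mul_right, show x.w.right = 1 from hx,
      show y.w.right = 1 from hy, one_mul]
  one_mem' := rfl
  inv_mem' {x} hx := by
    show x.w⁻¹.right = 1
    rw [RegularWreathProduct.inv_right, show x.w.right = 1 from hx, inv_one]

instance : (bSub H p).Normal := ⟨fun x hx y => by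
  show (y.w * x.w * y.w⁻¹).right = 1
  simp [show x.w.right = 1 from hx]⟩

omit [Finite H] in
theorem aOf_of_mem {x : Tw H p} (hx : x ∈ bSub H p) : aOf x.w = 0 := by
  rw [aOf, show x.w.right = 1 from hx]; rfl

/-- The projection of the base part to the product. -/
def bProj : bSub H p →* (Cp p → H) where
  toFun x := (x : Tw H p).w.left
  map_one' := rfl
  map_mul' x y := by
    funext k
    show ((x : Tw H p).w * (y : Tw H p).w).left k = _
    simp [show (x : Tw H p).w.right = 1 from x.2]

/-- The standard additive character on the central coordinate. -/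
noncomputable def cChar (H : Type u) [Group H] (p : ℕ) [Fact p.Prime] : bSub H p →* ℂˣ :=
  MonoidHom.toHomUnits
    { toFun := fun x => ZMod.stdAddChar (x : Tw H p).c
      map_one' := AddChar.map_zero_eq_one _
      map_mul' := fun x y => by
        show ZMod.stdAddChar ((x : Tw H p).c + (y : Tw H p).c +
          aOf (x : Tw H p).w * (y : Tw H p).b) = _
        rw [aOf_of_mem x.2, zero_mul, add_zero, AddChar.map_add_eq_mul] }

theorem coe_cChar (x : bSub H p) : (cChar H p x : ℂ) = ZMod.stdAddChar (x : Tw H p).c := rfl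

variable (χ) in
/-- The character of the base part. -/
noncomputable def bFun : bSub H p → ℂ := fun x =>
  (∏ q, χ ((x : Tw H p).w.left q)) * ZMod.stdAddChar (x : Tw H p).c

theorem isCharacter_bFun (hχ : IsCharacter H χ) : IsCharacter (bSub H p) (bFun χ) :=
  isCharacter_mul (χ := fun x : bSub H p => ∏ q, χ ((x : Tw H p).w.left q))
    (ψ := fun x : bSub H p => (cChar H p x : ℂ))
    (isCharacter_comp (isCharacter_prodFun (fun _ : Cp p => χ) fun _ => hχ) bProj)
    (isCharacter_of_isIrr (isIrrCharacter_linear (cChar H p)))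

variable [Fintype (Tw H p)]

variable (χ) in
/-- The induced character. -/
noncomputable def theta : Tw H p → ℂ := indFun (bSub H p) (bFun χ)

theorem isCharacter_theta (hχ : IsCharacter H χ) : IsCharacter (Tw H p) (theta χ) :=
  isCharacter_indFun _ (isCharacter_bFun hχ)

theorem theta_of_not_mem {x : Tw H p} (hx : x ∉ bSub H p) : theta χ x = 0 :=
  indFun_apply_of_not_mem _ _ hx

theorem card_bSub : Nat.card (bSub H p) = Nat.card H ^ p * p ^ 2 := by
  rw [Nat.card_congr
    ({ toFun := fun x => ((x : Tw H p).w.left, (x : Tw H p).b, (x : Tw H p).c)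
       invFun := fun y => ⟨⟨⟨y.1, 1⟩, y.2.1, y.2.2⟩, rfl⟩
       left_inv := fun x => Subtype.ext (Tw.ext (RegularWreathProduct.ext rfl x.2.symm) rfl rfl)
       right_inv := fun y => rfl } : bSub H p ≃ (Cp p → H) × ZMod p × ZMod p),
    Nat.card_prod, Nat.card_prod, Nat.card_fun, Nat.card_zmod,
    show Nat.card (Cp p) = p from Nat.card_zmod p, sq]

theorem theta_of_mem (hχ : IsClassFunction H χ) {x : Tw H p} (hx : x ∈ bSub H p) :
    theta χ x = if x.b = 0 then
      (p : ℂ) * (∏ q, χ (x.w.left q)) * ZMod.stdAddChar x.c else 0 := by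
  classical
  haveI := Fintype.ofFinite H
  haveI := Fintype.ofFinite (H ≀ᵣ Cp p)
  have key : ∀ y : Tw H p, extendByZero (bSub H p) (bFun χ) (y⁻¹ * x * y) =
      (∏ q, χ (x.w.left q)) * ZMod.stdAddChar x.c * ZMod.stdAddChar (aOf y.w * -x.b) := by
    intro y
    have hm : y⁻¹ * x * y ∈ bSub H p := by
      simpa using (inferInstance : (bSub H p).Normal).conj_mem x hx y⁻¹
    rw [extendByZero_mem _ _ hm]
    simp only [bFun]
    rw [mul_assoc _ (ZMod.stdAddChar x.c), ← AddChar.map_add_eq_mul]
    congr 1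
    · refine Fintype.prod_equiv (Equiv.mulLeft y.w.right) _ _ fun q => ?_
      have hl : (y⁻¹ * x * y).w.left q =
          (y.w.left (y.w.right * q))⁻¹ * x.w.left (y.w.right * q) *
            ((y.w.left (y.w.right * q))⁻¹)⁻¹ := by
        simp [mul_w, inv_w, show x.w.right = 1 from hx]
      rw [hl, hχ]
      rfl
    · congr 1
      simp only [mul_c, mul_w, inv_w, inv_c, aOf_mul, aOf_inv, aOf_of_mem hx, mul_b, inv_b]
      ring
  have hsum : ∑ y : Tw H p, ZMod.stdAddChar (aOf y.w * -x.b) =
      (Nat.card H : ℂ) ^ p * (p : ℂ) ^ 2 * (if x.b = 0 then (p : ℂ) else 0) := by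
    rw [← Equiv.sum_comp (twEquiv H p).symm, Fintype.sum_prod_type]
    simp only [twEquiv, Equiv.coe_fn_symm_mk, Finset.sum_const, Finset.card_univ,
      Fintype.card_prod, ZMod.card, nsmul_eq_mul, ← Finset.mul_sum]
    rw [← Equiv.sum_comp (RegularWreathProduct.equivProd H (Cp p)).symm, Fintype.sum_prod_type]
    simp only [RegularWreathProduct.equivProd, Equiv.coe_fn_symm_mk, aOf, Finset.sum_const,
      Finset.card_univ, nsmul_eq_mul]
    rw [Fintype.sum_equiv Multiplicative.toAdd (fun s : Cp p =>
        ZMod.stdAddChar (Multiplicative.toAdd s * -x.b))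
      (fun a : ZMod p => ZMod.stdAddChar (a * -x.b)) (fun s => rfl),
      AddChar.sum_mulShift _ (ZMod.isPrimitive_stdAddChar p)]
    simp only [neg_eq_zero, ZMod.card, Fintype.card_fun, ← Nat.card_eq_fintype_card, Nat.card_fun,
      Nat.card_zmod,
      show Nat.card (Cp p) = p from Nat.card_zmod p]
    split_ifs <;> push_cast <;> ring
  simp only [theta, indFun, key, ← Finset.mul_sum, hsum, card_bSub, Nat.cast_mul, Nat.cast_pow]
  have h1 : (Nat.card H : ℂ) ≠ 0 := card_ne_zero_complex H
  have h2 : (p : ℂ) ≠ 0 := Nat.cast_ne_zero.2 (Fact.out : p.Prime).ne_zero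
  split_ifs
  · field_simp
  · simp

/-- The preimage of the centre. -/
def zSub (H : Type u) [Group H] (p : ℕ) : Subgroup (Tw H p) where
  carrier := {x | x.w.right = 1 ∧ x.b = 0 ∧ ∀ q, x.w.left q ∈ Subgroup.center H}
  mul_mem' {x y} hx hy := by
    refine ⟨?_, ?_, fun q => ?_⟩
    · simp [mul_w, hx.1, hy.1]
    · simp [mul_b, hx.2.1, hy.2.1]
    · simpa [mul_w] using mul_mem (hx.2.2 q) (hy.2.2 _)
  one_mem' := ⟨rfl, rfl, fun _ => one_mem _⟩
  inv_mem' {x} hx := by
    refine ⟨?_, ?_, fun q => ?_⟩
    · simp [inv_w, hx.1]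
    · simp [inv_b, hx.2.1]
    · simpa [inv_w] using inv_mem (hx.2.2 _)

theorem zSub_le : zSub H p ≤ bSub H p := fun _ hx => hx.1

/-- The linear character on the preimage of the centre. -/
noncomputable def nu (hχ : IsIrrCharacter H χ) : zSub H p →* ℂˣ :=
  (MonoidHom.mk' (fun x : zSub H p => ∏ q, cenLam hχ ⟨(x : Tw H p).w.left q, x.2.2.2 q⟩) fun x y => by
    rw [← Finset.prod_mul_distrib]
    refine Finset.prod_congr rfl fun q _ => ?_
    rw [← map_mul]
    refine congrArg _ (Subtype.ext ?_)
    show ((x : Tw H p).w * (y : Tw H p).w).left q = _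
    simp [x.2.1]) * (cChar H p).comp (Subgroup.inclusion zSub_le)

theorem coe_nu (hχ : IsIrrCharacter H χ) (x : zSub H p) :
    (nu hχ x : ℂ) = (∏ q, (cenLam hχ ⟨(x : Tw H p).w.left q, x.2.2.2 q⟩ : ℂ)) *
      ZMod.stdAddChar (x : Tw H p).c := by
  simp [nu, coe_cChar]

theorem theta_zSub (h : IsCT H χ) (x : zSub H p) :
    theta χ (x : Tw H p) = ((p * charDegree χ ^ p : ℕ) : ℂ) * (nu h.irr x : ℂ) := by
  rw [theta_of_mem (isClassFunction_of_isIrr h.irr) (zSub_le x.2), if_pos x.2.2.1, coe_nu]
  rw [Finset.prod_congr rfl fun q _ =>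
    apply_center h.irr ⟨(x : Tw H p).w.left q, x.2.2.2 q⟩, Finset.prod_mul_distrib,
    Finset.prod_const, Finset.card_univ, ← Nat.card_eq_fintype_card,
    show Nat.card (Cp p) = p from Nat.card_zmod p,
    apply_one_eq_charDegree (isCharacter_of_isIrr h.irr)]
  push_cast
  ring

theorem theta_of_not_zSub (h : IsCT H χ) {x : Tw H p} (hx : x ∉ zSub H p) : theta χ x = 0 := by
  by_cases hb : x ∈ bSub H p
  · rw [theta_of_mem (isClassFunction_of_isIrr h.irr) hb]
    split_ifs with h0
    · have : ¬ ∀ q, x.w.left q ∈ Subgroup.center H := fun hc => hx ⟨hb, h0, hc⟩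
      push Not at this
      obtain ⟨q, hq⟩ := this
      rw [Finset.prod_eq_zero (Finset.mem_univ q) (vanish h hq), mul_zero, zero_mul]
    · rfl
  · exact theta_of_not_mem hb

theorem card_zSub : Nat.card (zSub H p) = Nat.card (Subgroup.center H) ^ p * p := by
  rw [Nat.card_congr
    ({ toFun := fun x => (fun q => ⟨(x : Tw H p).w.left q, x.2.2.2 q⟩, (x : Tw H p).c)
       invFun := fun y => ⟨⟨⟨fun q => y.1 q, 1⟩, 0, y.2⟩, rfl, rfl, fun q => (y.1 q).2⟩
       left_inv := fun x => Subtype.ext
        (Tw.ext (RegularWreathProduct.ext rfl x.2.1.symm) x.2.2.1.symm rfl)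
       right_inv := fun y => rfl } : zSub H p ≃ (Cp p → Subgroup.center H) × ZMod p),
    Nat.card_prod, Nat.card_fun, Nat.card_zmod, show Nat.card (Cp p) = p from Nat.card_zmod p]

theorem index_zSub (h : IsCT H χ) :
    (zSub H p).index = (p * charDegree χ ^ p) ^ 2 := by
  have h1 := Subgroup.index_mul_card (zSub H p)
  rw [card_tw, card_zSub, ← Subgroup.index_mul_card (Subgroup.center H), ← h.sq] at h1
  refine Nat.eq_of_mul_eq_mul_right (m := Nat.card (Subgroup.center H) ^ p * p)
    (Nat.mul_pos (pow_pos Nat.card_pos _) (Fact.out : p.Prime).pos) ?_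
  rw [h1, mul_pow (charDegree χ ^ 2), ← pow_mul, mul_pow p, ← pow_mul, mul_comm p 2]
  ring

theorem theta_one (h : IsCT H χ) : theta χ (1 : Tw H p) = ((p * charDegree χ ^ p : ℕ) : ℂ) := by
  have := theta_zSub h (1 : zSub H p)
  rwa [map_one, Units.val_one, mul_one, OneMemClass.coe_one] at this

theorem isIrr_theta (h : IsCT H χ) : IsIrrCharacter (Tw H p) (theta χ) := by
  classical
  haveI := Fintype.ofFinite (zSub H p)
  refine isIrrCharacter_of_norm_one (isCharacter_theta (isCharacter_of_isIrr h.irr)) ?_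
  rw [classInner, ← Finset.sum_filter_add_sum_filter_not Finset.univ (fun x => x ∈ zSub H p),
    Finset.sum_eq_zero (s := Finset.univ.filter fun x => x ∉ zSub H p) fun x hx => by
      rw [theta_of_not_zSub h (Finset.mem_filter.1 hx).2, zero_mul],
    add_zero, Finset.sum_subtype (p := fun x => x ∈ zSub H p) _ (fun x => by simp)]
  have hval : ∀ x : zSub H p, theta χ (x : Tw H p) * conj (theta χ (x : Tw H p)) =
      (((p * charDegree χ ^ p) ^ 2 : ℕ) : ℂ) := fun x => by
    rw [theta_zSub h, map_mul, map_natCast, mul_mul_mul_comm, linear_conj_mul (nu h.irr), mul_one,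
      Nat.cast_pow, sq]
  refine (congrArg _ (Finset.sum_congr rfl fun x _ => hval x)).trans ?_
  rw [
    Finset.sum_const, Finset.card_univ, nsmul_eq_mul, ← index_zSub h, ← Nat.cast_mul,
    ← Nat.card_eq_fintype_card, mul_comm (Nat.card (zSub H p)), Subgroup.index_mul_card,
    inv_mul_cancel₀ (card_ne_zero_complex _)]

theorem theta_eq_one_iff (h : IsCT H χ) {x : Tw H p} :
    theta χ x = theta χ (1 : Tw H p) ↔ ∃ hx : x ∈ zSub H p, nu h.irr ⟨x, hx⟩ = 1 := by
  have h0 : ((p * charDegree χ ^ p : ℕ) : ℂ) ≠ 0 := by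
    rw [← theta_one h]; exact deg_ne (isIrr_theta h)
  rw [theta_one h]
  constructor
  · intro he
    by_cases hx : x ∈ zSub H p
    · refine ⟨hx, Units.ext ?_⟩
      rw [theta_zSub h ⟨x, hx⟩] at he
      exact (mul_right_eq_self₀.1 he).resolve_right h0
    · rw [theta_of_not_zSub h hx] at he
      exact absurd he.symm h0
  · rintro ⟨hx, he⟩
    rw [theta_zSub h ⟨x, hx⟩, he, Units.val_one, mul_one]

/-- The wreath product of the central quotient, with one more cyclic factor. -/
def twProj (H : Type u) [Group H] (p : ℕ) [Fact p.Prime] :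
    Tw H p →* (((H ⧸ Subgroup.center H) ≀ᵣ Cp p) × Cp p) :=
  MonoidHom.mk' (fun x => (⟨fun q => (x.w.left q : H ⧸ Subgroup.center H), x.w.right⟩,
    Multiplicative.ofAdd x.b)) fun _ _ => rfl

theorem twProj_surjective : Function.Surjective (twProj H p) := fun y =>
  ⟨⟨⟨fun q => (y.1.left q).out, y.1.right⟩, Multiplicative.toAdd y.2, 0⟩, Prod.ext
    (RegularWreathProduct.ext (funext fun q => QuotientGroup.out_eq' (y.1.left q)) rfl) rfl⟩

theorem twProj_ker : (twProj H p).ker = zSub H p := by
  ext x
  rw [MonoidHom.mem_ker]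
  constructor
  · intro he
    refine ⟨congrArg (fun y : ((H ⧸ Subgroup.center H) ≀ᵣ Cp p) × Cp p => y.1.right) he,
      congrArg (fun y : ((H ⧸ Subgroup.center H) ≀ᵣ Cp p) × Cp p => Multiplicative.toAdd y.2) he,
      fun q => ?_⟩
    exact (QuotientGroup.eq_one_iff _).1 (congrFun
      (congrArg (fun y : ((H ⧸ Subgroup.center H) ≀ᵣ Cp p) × Cp p => y.1.left) he) q)
  · rintro ⟨h1, h2, h3⟩
    refine Prod.ext (RegularWreathProduct.ext (funext fun q => ?_) h1) ?_
    · exact (QuotientGroup.eq_one_iff _).2 (h3 q)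
    · show Multiplicative.ofAdd x.b = 1
      rw [h2]; rfl

/-- One step of the construction. -/
theorem exists_step (h : IsCT H χ) (hsq : Squarefree (Nat.card (Subgroup.center H))) :
    ∃ (H' : Type u) (_ : Group H') (_ : Finite H') (χ' : H' → ℂ), IsCT H' χ' ∧
      Squarefree (Nat.card (Subgroup.center H')) ∧
      Nat.card (Subgroup.center H') = Nat.lcm (Nat.card (Subgroup.center H)) p ∧
      Nat.card H' = Nat.card (Subgroup.center H') * (p * charDegree χ ^ p) ^ 2 ∧
      ∃ f : ((H ⧸ Subgroup.center H) ≀ᵣ Cp p) →* H' ⧸ Subgroup.center H', Function.Injective f := by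
  classical
  have hirr := isIrr_theta (p := p) h
  have hch := isCharacter_of_isIrr hirr
  set K := charKer (theta (p := p) χ) with hK
  haveI : K.Normal := charKer_normal hch
  obtain ⟨χ', hχ', he⟩ := exists_irr_deflation hirr K fun x hx => (mem_charKer hch).1 hx
  haveI : (zSub H p).Normal := twProj_ker (H := H) (p := p) ▸ MonoidHom.normal_ker _
  set mk := QuotientGroup.mk' K
  have hKZ : K ≤ zSub H p := fun x hx => ((theta_eq_one_iff h).1 ((mem_charKer hch).1 hx)).1
  have hcenter : Subgroup.center (Tw H p ⧸ K) = (zSub H p).map mk := by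
    refine le_antisymm (fun y hy => ?_) ?_
    · obtain ⟨x, rfl⟩ := QuotientGroup.mk'_surjective K y
      refine ⟨x, by_contra fun hx => ?_, rfl⟩
      have hn := norm_char_of_mem_center hχ' hy
      rw [QuotientGroup.mk'_apply, he, theta_of_not_zSub h hx, norm_zero] at hn
      exact deg_ne hχ' (norm_eq_zero.1 hn.symm)
    · rintro _ ⟨z, hz, rfl⟩
      refine Subgroup.mem_center_iff.2 fun y => ?_
      obtain ⟨x, rfl⟩ := QuotientGroup.mk'_surjective K y
      rw [← map_mul, ← map_mul]
      refine (QuotientGroup.eq).2 ((mem_charKer hch).2 ((theta_eq_one_iff h).2 ?_))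
      have hzc : x⁻¹ * z * x ∈ zSub H p := by
        simpa using (inferInstance : (zSub H p).Normal).conj_mem z hz x⁻¹
      have h1 : (x * z)⁻¹ * (z * x) = z⁻¹ * (x⁻¹ * z * x) := by group
      refine ⟨h1 ▸ mul_mem (inv_mem hz) hzc, ?_⟩
      have h2 : nu h.irr ⟨x⁻¹ * z * x, hzc⟩ = nu h.irr ⟨z, hz⟩ := by
        refine Units.ext (mul_left_cancel₀ (a := ((p * charDegree χ ^ p : ℕ) : ℂ)) ?_ ?_)
        · rw [← theta_one h]; exact deg_ne hirr
        · rw [← theta_zSub h, ← theta_zSub h]
          simpa using isClassFunction_of_isIrr hirr z x⁻¹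
      rw [show (⟨(x * z)⁻¹ * (z * x), _⟩ : zSub H p) = ⟨z, hz⟩⁻¹ * ⟨x⁻¹ * z * x, hzc⟩ from
        Subtype.ext h1, map_mul, map_inv, h2, inv_mul_cancel]
  have hcard : Nat.card (Subgroup.center (Tw H p ⧸ K)) = Nat.lcm (Nat.card (Subgroup.center H)) p := by
    set g := mk.comp (zSub H p).subtype with hg
    have hker : g.ker = (nu h.irr).ker := by
      ext x
      rw [MonoidHom.mem_ker, MonoidHom.mem_ker, hg, MonoidHom.comp_apply, QuotientGroup.mk'_apply,
        QuotientGroup.eq_one_iff, hK, mem_charKer hch, theta_eq_one_iff h]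
      exact ⟨fun ⟨_, hx⟩ => hx, fun hx => ⟨x.2, hx⟩⟩
    have h1 : Nat.card (Subgroup.center (Tw H p ⧸ K)) = Nat.card (nu (p := p) h.irr).range := by
      rw [hcenter, ← Subgroup.index_ker, ← hker, Subgroup.index_ker, hg, MonoidHom.range_comp,
        Subgroup.range_subtype]
    rw [h1]
    set n := Nat.lcm (Nat.card (Subgroup.center H)) p with hn
    haveI : NeZero n := ⟨Nat.lcm_ne_zero Nat.card_pos.ne' (Fact.out : p.Prime).ne_zero⟩
    refine Nat.dvd_antisymm ?_ ?_
    · refine (Subgroup.card_dvd_of_le (K := rootsOfUnity n ℂ) ?_).trans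
        (Complex.card_rootsOfUnity n).dvd
      rintro _ ⟨x, rfl⟩
      rw [mem_rootsOfUnity]
      refine Units.ext ?_
      rw [Units.val_pow_eq_pow_val, coe_nu, mul_pow, Units.val_one, ← Finset.prod_pow,
        ← AddChar.map_nsmul_eq_pow, nsmul_eq_mul,
        ((ZMod.natCast_eq_zero_iff _ _).2 (Nat.dvd_lcm_right _ _) : (n : ZMod p) = 0),
        zero_mul, AddChar.map_zero_eq_one, mul_one]
      refine Finset.prod_eq_one fun q _ => ?_
      rw [← Units.val_pow_eq_pow_val, ← map_pow, show (⟨(x : Tw H p).w.left q, x.2.2.2 q⟩ :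
        Subgroup.center H) ^ n = 1 from orderOf_dvd_iff_pow_eq_one.1
          ((orderOf_dvd_natCard _).trans (Nat.dvd_lcm_left _ _)), map_one, Units.val_one]
    · refine Nat.lcm_dvd ?_ ?_
      · let ι : Subgroup.center H →* zSub H p := MonoidHom.mk' (fun z =>
          ⟨⟨⟨fun q => if q = 1 then (z : H) else 1, 1⟩, 0, 0⟩, rfl, rfl, fun q => by
            show (if q = 1 then (z : H) else 1) ∈ _
            split_ifs
            · exact z.2
            · exact one_mem _⟩) fun a b => Subtype.ext (Tw.ext (RegularWreathProduct.ext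
              (funext fun q => by simp [mul_w]; split_ifs <;> simp) (one_mul 1).symm)
              (add_zero 0).symm (by simp [mul_c, aOf]))
        have hι : ∀ z, nu h.irr (ι z) = cenLam h.irr z := fun z => by
          refine Units.ext ?_
          rw [coe_nu, Finset.prod_eq_single (1 : Cp p) (fun q _ hq => by
              simp only [ι, MonoidHom.mk'_apply, if_neg hq]
              exact congrArg Units.val (map_one (cenLam h.irr)))
            (fun hn => absurd (Finset.mem_univ _) hn)]
          simp [ι]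
        have hinj : Function.Injective ((nu h.irr).comp ι) := fun a b hab => by
          simp only [MonoidHom.comp_apply, hι] at hab
          exact cenLam_injective h hab
        refine (dvd_of_eq (Nat.card_congr (MonoidHom.ofInjective hinj).toEquiv)).trans
          (Subgroup.card_dvd_of_le ?_)
        rintro _ ⟨z, rfl⟩
        exact ⟨ι z, rfl⟩
      · let t : zSub H p := ⟨⟨1, 0, 1⟩, rfl, rfl, fun q => one_mem _⟩
        have ht : (nu h.irr t : ℂ) = ZMod.stdAddChar (1 : ZMod p) := by
          rw [coe_nu, Finset.prod_eq_one fun q _ => ?_, one_mul]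
          exact congrArg Units.val (map_one (cenLam h.irr))
        have hord : orderOf (nu h.irr t) = p := by
          refine orderOf_eq_prime (Units.ext ?_) fun hc => ?_
          · rw [Units.val_pow_eq_pow_val, ht, ← AddChar.map_nsmul_eq_pow, nsmul_one,
              ZMod.natCast_self, AddChar.map_zero_eq_one, Units.val_one]
          · have h2 : ZMod.stdAddChar (1 : ZMod p) = ZMod.stdAddChar (0 : ZMod p) := by
              rw [← ht, hc, Units.val_one, AddChar.map_zero_eq_one]
            exact one_ne_zero (ZMod.injective_stdAddChar h2)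
        exact (dvd_of_eq hord.symm).trans (Subgroup.orderOf_dvd_natCard _ ⟨t, rfl⟩)
  have hdeg : χ' 1 = ((p * charDegree χ ^ p : ℕ) : ℂ) := by
    rw [← theta_one h]; exact he 1
  have hindex : (Subgroup.center (Tw H p ⧸ K)).index = (p * charDegree χ ^ p) ^ 2 := by
    rw [hcenter, Subgroup.index_map_eq _ (QuotientGroup.mk'_surjective K)
      (by rw [QuotientGroup.ker_mk']; exact hKZ), index_zSub h]
  refine ⟨Tw H p ⧸ K, inferInstance, inferInstance, χ', ⟨hχ', fun y hy => ?_, ?_⟩, ?_, hcard, ?_, ?_⟩
  · obtain ⟨x, rfl⟩ := QuotientGroup.mk'_surjective K y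
    rw [QuotientGroup.mk'_apply, he, hdeg, ← theta_one h] at hy
    exact (QuotientGroup.eq_one_iff x).2 ((mem_charKer hch).2 hy)
  · rw [hindex, charDegree_eq_of_apply_one hdeg]
  · rw [hcard, Nat.squarefree_iff_factorization_le_one
      (Nat.lcm_ne_zero Nat.card_pos.ne' (Fact.out : p.Prime).ne_zero)]
    intro r
    rw [Nat.factorization_lcm Nat.card_pos.ne' (Fact.out : p.Prime).ne_zero, Finsupp.sup_apply,
      sup_le_iff]
    exact ⟨Squarefree.natFactorization_le_one r hsq,
      Squarefree.natFactorization_le_one r (Fact.out : p.Prime).squarefree⟩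
  · rw [← hindex, mul_comm, Subgroup.index_mul_card]
  · set F := (QuotientGroup.mk' (Subgroup.center (Tw H p ⧸ K))).comp mk with hF
    have hFs : Function.Surjective F :=
      (QuotientGroup.mk'_surjective _).comp (QuotientGroup.mk'_surjective K)
    have hFker : F.ker = (twProj H p).ker := by
      rw [twProj_ker, hF, ← MonoidHom.comap_ker, QuotientGroup.ker_mk', hcenter,
        Subgroup.comap_map_eq_self]
      rw [QuotientGroup.ker_mk']; exact hKZ
    let e : (((H ⧸ Subgroup.center H) ≀ᵣ Cp p) × Cp p) ≃*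
        (Tw H p ⧸ K) ⧸ Subgroup.center (Tw H p ⧸ K) :=
      ((QuotientGroup.quotientKerEquivOfSurjective (twProj H p) twProj_surjective).symm.trans
        (QuotientGroup.quotientMulEquivOfEq hFker.symm)).trans
        (QuotientGroup.quotientKerEquivOfSurjective F hFs)
    refine ⟨e.toMonoidHom.comp (MonoidHom.inl _ _), e.injective.comp ?_⟩
    exact fun a b hab => congrArg Prod.fst hab

/-- Solvable groups embed in central quotients of groups of central type. -/
theorem exists_central_type (n : ℕ) : ∀ {G : Type u} [Group G] [Finite G], Nat.card G ≤ n →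
    Group.IsSolvable G → ∃ (H : Type u) (_ : Group H) (_ : Finite H) (χ : H → ℂ), IsCT H χ ∧
      Squarefree (Nat.card (Subgroup.center H)) ∧
      (∃ f : G →* H ⧸ Subgroup.center H, Function.Injective f) ∧
      ∀ r : ℕ, r.Prime → ((r ∣ Nat.card H ↔ r ∣ Nat.card G) ∧
        (r ∣ Nat.card (Subgroup.center H) ↔ r ∣ Nat.card G)) := by
  classical
  induction n with
  | zero =>
    intro G _ _ h _
    exact absurd h (Nat.not_le.2 Nat.card_pos)
  | succ n ih =>
    intro G _ _ hcard hs
    haveI := hs
    by_cases hnt : Nontrivial G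
    · haveI := hnt
      obtain ⟨K, hK, hprime⟩ :=
        Blichfeldt.exists_normal_prime_index (Group.IsSolvable.commutator_lt_top_of_nontrivial G).ne
      haveI := hK
      haveI := Fact.mk hprime
      set p := K.index with hp
      have hKG : Nat.card K * p = Nat.card G := by rw [mul_comm, hp, Subgroup.index_mul_card]
      obtain ⟨H, iH, fH, χ, hct, hsq, ⟨e, he⟩, hpr⟩ := ih (G := K) (by
        have h2 : Nat.card K * 2 ≤ Nat.card K * p := Nat.mul_le_mul_left _ hprime.two_le
        have h3 : 0 < Nat.card K := Nat.card_pos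
        omega) inferInstance
      haveI := Fintype.ofFinite (Tw H p)
      obtain ⟨H', iH', fH', χ', hct', hsq', hz', hc', f, hf⟩ := exists_step (p := p) hct hsq
      haveI : IsCyclic (G ⧸ K) := isCyclic_of_prime_card (Subgroup.index_eq_card K).symm
      obtain ⟨ec⟩ : Nonempty ((G ⧸ K) ≃* Cp p) := ⟨mulEquivOfCyclicCardEq (by
        rw [← Subgroup.index_eq_card, show Nat.card (Cp p) = p from Nat.card_zmod p])⟩
      refine ⟨H', iH', fH', χ', hct', hsq', ⟨(f.comp
        (RegularWreathProduct.congr (MulEquiv.refl (H ⧸ Subgroup.center H)) ec).toMonoidHom).comp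
          (kkEmb K e), (hf.comp (RegularWreathProduct.congr (MulEquiv.refl _) ec).injective).comp
            (kkEmb_injective K he)⟩, fun r hr => ?_⟩
      have hz : r ∣ Nat.card (Subgroup.center H') ↔ r ∣ Nat.card G := by
        rw [hz', ← hKG, hr.dvd_mul, ← (hpr r hr).2]
        exact ⟨fun h => hr.dvd_mul.1 (h.trans (Nat.lcm_dvd_mul _ _)), fun h =>
          h.elim (fun h => h.trans (Nat.dvd_lcm_left _ _)) fun h => h.trans (Nat.dvd_lcm_right _ _)⟩
      refine ⟨⟨fun h => ?_, fun h => ?_⟩, hz⟩
      · rw [hc', hr.dvd_mul] at h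
        rcases h with h | h
        · exact hz.1 h
        · rw [← hKG, hr.dvd_mul]
          rcases hr.dvd_mul.1 (hr.dvd_of_dvd_pow h) with h | h
          · exact Or.inr h
          · refine Or.inl ((hpr r hr).1.1 ?_)
            refine (hr.dvd_of_dvd_pow h).trans ((dvd_pow_self _ two_ne_zero).trans ?_)
            rw [hct.sq]
            exact Subgroup.index_dvd_card _
      · rw [hc']
        exact (hz.2 h).trans (Dvd.intro _ rfl)
    · haveI := not_nontrivial_iff_subsingleton.1 hnt
      refine ⟨PUnit.{u + 1}, inferInstance, inferInstance, fun _ => 1,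
        ⟨isIrrCharacter_one, fun h _ => Subsingleton.elim h 1, ?_⟩, ?_, ?_, fun r hr => ?_⟩
      · rw [charDegree_one, one_pow, eq_comm, Subgroup.index_eq_one]
        exact Subsingleton.elim _ _
      · rw [Nat.card_unique]; exact squarefree_one
      · exact ⟨1, fun a b _ => Subsingleton.elim a b⟩
      · have h1 : Nat.card (Subgroup.center PUnit.{u + 1}) = 1 := Nat.card_unique
        rw [h1, Nat.card_unique (α := PUnit.{u + 1}), Nat.card_unique (α := G)]
        exact ⟨Iff.rfl, Iff.rfl⟩

end Cfsg.Agent.Lib.Char.CentralType
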