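import Cfsg.Agent.Lib.Char.Burnside
import Cfsg.Agent.Lib.Char.Clifford
import Cfsg.Agent.Lib.Char.Degree
import Cfsg.Agent.Lib.Char.Scalar
import Cfsg.Agent.Lib.Char.SmallDegrees

/-!
A group all of whose irreducible character degrees involve only two primes is solvable.
-/

set_option autoImplicit false
set_option linter.unusedSectionVars false
set_option linter.style.haveILetI false

namespace Cfsg.Agent.Lib.Char.DegreePrimesTwo

open Cfsg Cfsg.Agent.Lib Cfsg.Agent.Lib.Char

universe u

/-- In a non-abelian simple group some irreducible degree has a prime divisor outside any two given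
primes. -/
theorem simple_exists {G : Type u} [Group G] [Finite G] [IsSimpleGroup G]
    (hG : ¬ IsMulCommutative G) {p q : ℕ} (hp : p.Prime) (hq : q.Prime) :
    ∃ χ : IrrCharacter G, ∃ r : ℕ, r.Prime ∧ r ∣ charDegree (χ : G → ℂ) ∧ r ≠ p ∧ r ≠ q := by
  classical
  haveI := Fintype.ofFinite G
  haveI := Fact.mk hp
  by_contra hc
  push Not at hc
  -- an element whose class size is prime to `p`
  obtain ⟨x, hx1, hxi⟩ : ∃ x : G, x ≠ 1 ∧ ¬ p ∣ (Subgroup.centralizer ({x} : Set G)).index := by
    by_cases hpd : p ∣ Nat.card G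
    · obtain ⟨P⟩ : Nonempty (Sylow p G) := inferInstance
      haveI : Nontrivial (P : Subgroup G) :=
        (Subgroup.nontrivial_iff_ne_bot _).mpr (P.ne_bot_of_dvd_card hpd)
      haveI := P.2.center_nontrivial
      obtain ⟨⟨x, hx⟩, hx1⟩ := exists_ne (1 : Subgroup.center (P : Subgroup G))
      have hle : (P : Subgroup G) ≤ Subgroup.centralizer ({(x : G)} : Set G) := fun y hy => by
        rw [Subgroup.mem_centralizer_singleton_iff]
        exact congrArg Subtype.val (Subgroup.mem_center_iff.mp hx ⟨y, hy⟩)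
      exact ⟨x, fun e => hx1 (Subtype.ext (Subtype.ext e)),
        fun h => P.not_dvd_index (h.trans (Subgroup.index_dvd_of_le hle))⟩
    · obtain ⟨x, hx⟩ := exists_ne (1 : G)
      exact ⟨x, hx, fun h => hpd (h.trans (Subgroup.index_dvd_card _))⟩
  let one : IrrCharacter G := ⟨fun _ => 1, isIrrCharacter_one⟩
  have key : ∀ χ : IrrCharacter G, χ ≠ one → ¬ q ∣ charDegree (χ : G → ℂ) →
      (χ : G → ℂ) x = 0 := by
    intro χ hne hqd
    have hχc := isCharacter_of_isIrr χ.2
    have h1 : (χ : G → ℂ) ≠ fun _ => 1 := fun e => hne (Subtype.ext e)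
    have hcop : Nat.Coprime (charDegree (χ : G → ℂ))
        (Subgroup.centralizer ({x} : Set G)).index := by
      refine Nat.coprime_of_dvd fun r hr hrd hri => ?_
      by_cases hrp : r = p
      · exact hxi (hrp ▸ hri)
      · exact hqd (hc χ r hr hrd hrp ▸ hrd)
    rcases char_eq_zero_or_norm_eq χ.2 (apply_one_eq_charDegree hχc) x hcop with h | h
    · exact h
    exfalso
    have hnorm : ‖(χ : G → ℂ) x‖ = ‖(χ : G → ℂ) 1‖ := by
      rw [h, apply_one_eq_charDegree hχc, Complex.norm_natCast]
    have hd0 : (χ : G → ℂ) 1 ≠ 0 := irr_degree_ne_zero χ.2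
    have hcen : x ∈ Subgroup.center G := Subgroup.mem_center_iff.2 fun g => by
      have h2 := (apply_mul_of_norm_eq hχc hnorm (g * x⁻¹ * g⁻¹)).1
      rw [isClassFunction_of_isIrr χ.2 x⁻¹ g] at h2
      have h3 := (apply_mul_of_norm_eq hχc hnorm x⁻¹).1
      rw [mul_inv_cancel] at h3
      rw [← h3] at h2
      have h4 := SmallDegrees.faithful_of_simple χ.2 h1 (mul_right_cancel₀ hd0 h2)
      have h5 : x * g * x⁻¹ * g⁻¹ = 1 := by rw [← h4]; group
      have h6 : x * g = g * x := by
        rw [mul_inv_eq_one, mul_inv_eq_iff_eq_mul] at h5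
        exact h5
      exact h6.symm
    rcases (inferInstance : (Subgroup.center G).Normal).eq_bot_or_eq_top with e | e
    · exact hx1 (by rwa [e, Subgroup.mem_bot] at hcen)
    · exact hG (Subgroup.center_eq_top_iff.1 e)
  have h := sum_degree_mul (G := G) x
  rw [if_neg hx1, ← Finset.add_sum_erase _ _ (Finset.mem_univ one)] at h
  simp only [one, mul_one] at h
  have hdiv : IsIntegral ℤ ((∑ χ ∈ Finset.univ.erase one,
      (χ : G → ℂ) 1 * (χ : G → ℂ) x) / (q : ℂ)) := by
    rw [Finset.sum_div]
    refine IsIntegral.sum _ fun χ hχ => ?_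
    by_cases hqd : q ∣ charDegree (χ : G → ℂ)
    · obtain ⟨d, hd⟩ := hqd
      rw [apply_one_eq_charDegree (isCharacter_of_isIrr χ.2), hd, Nat.cast_mul, mul_assoc,
        mul_div_cancel_left₀ _ (Nat.cast_ne_zero.mpr hq.ne_zero)]
      exact (isIntegral_algebraMap (x := (d : ℤ))).mul (char_isIntegral (isCharacter_of_isIrr χ.2) x)
    · rw [key χ (Finset.mem_erase.mp hχ).1 hqd]
      simpa using isIntegral_zero
  rw [show (∑ χ ∈ Finset.univ.erase one, (χ : G → ℂ) 1 * (χ : G → ℂ) x) = -1 by
    linear_combination h] at hdiv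
  have h1 : IsIntegral ℤ (((1 : ℕ) : ℂ) / (q : ℂ)) := by simpa [neg_div] using hdiv.neg
  exact hq.not_dvd_one (dvd_of_isIntegral_div hq.ne_zero h1)

/-- If every prime dividing an irreducible degree is one of two given primes, the group is
solvable. -/
theorem isSolvable {p q : ℕ} (hp : p.Prime) (hq : q.Prime) :
    ∀ (n : ℕ) (G : Type u) [Group G] [Finite G], Nat.card G = n →
      (∀ χ : IrrCharacter G, ∀ r : ℕ, r.Prime → r ∣ charDegree (χ : G → ℂ) → r = p ∨ r = q) →
      Group.IsSolvable G := by
  intro n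
  induction n using Nat.strong_induction_on with
  | _ n ih =>
    intro G _ _ hn h
    haveI := Fintype.ofFinite G
    by_cases hN1 : ∃ M : Subgroup G, M.Normal ∧ M ≠ ⊥ ∧ M ≠ ⊤
    · obtain ⟨M, hM, hbot, htop⟩ := hN1
      haveI := hM
      haveI := Fintype.ofFinite M
      have hMlt : Nat.card M < n := by
        rw [← hn]
        exact lt_of_le_of_ne (Subgroup.card_le_card_group M)
          (fun e => htop (Subgroup.eq_top_of_card_eq M e))
      have hQlt : Nat.card (G ⧸ M) < n := by
        rw [← hn, Subgroup.card_eq_card_quotient_mul_card_subgroup M]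
        exact lt_mul_of_one_lt_right Nat.card_pos
          (Nat.one_lt_iff_ne_zero_and_ne_one.mpr ⟨Nat.card_pos.ne',
            fun e => hbot (Subgroup.eq_bot_of_card_eq M e)⟩)
      have : Group.IsSolvable M := ih _ hMlt M rfl fun θ r hr hrd => by
        obtain ⟨χ, hχ⟩ := exists_irr_over M θ.2
        obtain ⟨m, hm⟩ := classInner_natCast
          (isCharacter_restrict (isCharacter_of_isIrr χ.2) M) (isCharacter_of_isIrr θ.2)
        have hdeg := clifford_degree M χ.2 θ.2 hχ
        rw [hm, apply_one_eq_charDegree (isCharacter_of_isIrr χ.2),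
          apply_one_eq_charDegree (isCharacter_of_isIrr θ.2)] at hdeg
        have hnat : charDegree (χ : G → ℂ) =
            m * (inertia M (θ : ↥M → ℂ)).index * charDegree (θ : ↥M → ℂ) := by exact_mod_cast hdeg
        exact h χ r hr (hrd.trans (hnat ▸ Dvd.intro_left _ rfl))
      have : Group.IsSolvable (G ⧸ M) := by
        haveI := Fintype.ofFinite (G ⧸ M)
        refine ih _ hQlt (G ⧸ M) rfl fun ψ r hr hrd => ?_
        refine h (inflateEquiv M ψ).1 r hr ?_
        have e : charDegree ((inflateEquiv M ψ).1 : G → ℂ) = charDegree (ψ : G ⧸ M → ℂ) := by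
          unfold charDegree
          rw [inflateEquiv_apply, QuotientGroup.mk_one]
        rwa [e]
      exact Group.isSolvable_of_ker_le_range M.subtype (QuotientGroup.mk' M) (by simp)
    · push Not at hN1
      by_cases htriv : Nontrivial G
      swap
      · have : Subsingleton G := not_nontrivial_iff_subsingleton.mp htriv
        infer_instance
      haveI : IsSimpleGroup G := ⟨fun M hM => or_iff_not_imp_left.mpr (hN1 M hM)⟩
      by_cases hc : IsMulCommutative G
      · exact Group.isSolvable_of_comm fun a b => hc.is_comm.comm a b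
      · obtain ⟨χ, r, hr, hrd, hrp, hrq⟩ := simple_exists hc hp hq
        rcases h χ r hr hrd with e | e
        exacts [absurd e hrp, absurd e hrq]

end Cfsg.Agent.Lib.Char.DegreePrimesTwo
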