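import Cfsg.Agent.Lib.Char.PGroupFieldBound
import Cfsg.Agent.Lib.Char.Artin
import Cfsg.Agent.Lib.Hall.Basic

/-!
# An irreducible product of a faithful character with a Galois conjugate
-/

set_option autoImplicit false

open Module
open scoped ComplexConjugate

namespace Cfsg.Agent.Lib.Char.GaloisProduct

open Cfsg Cfsg.Agent.Lib Cfsg.Agent.Lib.Char

universe u

variable {G : Type u} [Group G] [Fintype G]

/-- A sum of two nonzero characters is not irreducible. -/
theorem not_isIrr_add {a b : G → ℂ} (ha : IsCharacter G a) (hb : IsCharacter G b)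
    (ha0 : a ≠ 0) (hb0 : b ≠ 0) : ¬ IsIrrCharacter G (a + b) := by
  intro h
  have h1 := classInner_irr_self h
  rw [classInner_add_left, classInner_add_right, classInner_add_right] at h1
  obtain ⟨i, hi⟩ := classInner_natCast ha ha
  obtain ⟨j, hj⟩ := classInner_natCast ha hb
  obtain ⟨k, hk⟩ := classInner_natCast hb ha
  obtain ⟨l, hl⟩ := classInner_natCast hb hb
  rw [hi, hj, hk, hl] at h1
  have h2 : i + j + (k + l) = 1 := by exact_mod_cast h1
  have hi0 : i ≠ 0 := fun e => ha0 (eq_zero_of_classInner_self a (by rw [hi, e, Nat.cast_zero]))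
  have hl0 : l ≠ 0 := fun e => hb0 (eq_zero_of_classInner_self b (by rw [hl, e, Nat.cast_zero]))
  omega

/-- If the product with a Galois conjugate is irreducible, abelian normal subgroups are
central. -/
theorem le_center_of_abelian {χ : G → ℂ} (hχ : IsIrrCharacter G χ)
    (hf : ∀ g : G, χ g = χ 1 → g = 1) (σ : ℂ ≃+* ℂ)
    (hirr : IsIrrCharacter G (fun g => χ g * σ (χ g)))
    (A : Subgroup G) [A.Normal] (hA : ∀ a ∈ A, ∀ b ∈ A, a * b = b * a) :
    A ≤ Subgroup.center G := by
  classical
  haveI : Fintype A := Fintype.ofFinite _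
  have hc := isCharacter_of_isIrr hχ
  obtain ⟨θ, hθ⟩ := exists_constituent (isCharacter_restrict hc A) (fun h => by
    have hh := congrFun h 1
    simp only [Subgroup.coe_one, Pi.zero_apply] at hh
    exact irr_degree_ne_zero hχ hh)
  by_cases htop : inertia A (θ : A → ℂ) = ⊤
  · obtain ⟨n, ρ, hρirr, rfl⟩ := hχ
    have := hρirr
    intro a ha
    rw [Subgroup.mem_center_iff]
    intro g
    have hcomm := commute_all_of_inertia_top ρ A θ hθ htop ha
      (fun x hx => by rw [← map_mul, ← map_mul, hA a ha x hx]) g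
    rw [← map_mul, ← map_mul] at hcomm
    have h2 : ρ ((g * a) * (a * g)⁻¹) = 1 := by
      rw [map_mul, ← hcomm, ← map_mul, mul_inv_cancel, map_one]
    have h1 := hf ((g * a) * (a * g)⁻¹)
      (show ρ.character _ = ρ.character 1 by simp only [Representation.character, h2, map_one])
    exact mul_inv_eq_one.1 h1
  exfalso
  obtain ⟨T, φ, hT, hφ, hind⟩ : ∃ (T : Subgroup G) (φ : T → ℂ), T ≠ ⊤ ∧
      IsIrrCharacter T φ ∧ indFun T φ = χ := by
    obtain ⟨φ, hφ, hind, -⟩ := exists_clifford_correspondent A hχ θ.2 hθ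
    exact ⟨_, φ, htop, hφ, hind⟩
  haveI : Fintype T := Fintype.ofFinite _
  have hφc := isCharacter_of_isIrr hφ
  have hσφ := CharGalois.isIrrCharacter_aut σ hφ
  have hψ := CharGalois.isIrrCharacter_aut σ hχ
  have hψind : indFun T (fun x => σ (φ x)) = fun g => σ (χ g) := by
    funext g
    rw [← PGroupFieldBound.aut_indFun σ T φ g, hind]
  let R : T → ℂ := fun x => σ (χ x) - σ (φ x)
  have hres := isCharacter_restrict (isCharacter_of_isIrr hψ) T
  have hR : IsCharacter T R := by
    rw [isCharacter_iff_natCast]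
    refine ⟨isClassFunction_sub (isClassFunction_of_isCharacter hres)
      (isClassFunction_of_isIrr hσφ), fun η => ?_⟩
    obtain ⟨m, hm⟩ := classInner_natCast hres (isCharacter_of_isIrr η.2)
    have he : classInner R (η : T → ℂ) =
        classInner (fun x : T => σ (χ x)) (η : T → ℂ) -
          classInner (fun x : T => σ (φ x)) (η : T → ℂ) :=
      classInner_sub_left (fun x : T => σ (χ x)) (fun x : T => σ (φ x)) _
    rw [he, hm, classInner_irr hσφ η.2]
    split_ifs with heq
    · refine ⟨m - 1, ?_⟩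
      have hm1 : m ≠ 0 := by
        intro h0
        rw [h0, Nat.cast_zero, ← heq, ← classInner_indFun_right T _ (isClassFunction_of_isIrr hψ),
          hψind, classInner_irr_self hψ] at hm
        exact one_ne_zero hm
      rw [Nat.cast_sub (Nat.one_le_iff_ne_zero.2 hm1), Nat.cast_one]
    · exact ⟨m, by rw [sub_zero]⟩
  have hidx : T.index ≠ 1 := fun h => hT (Subgroup.index_eq_one.1 h)
  have hχ1 : χ 1 = (T.index : ℂ) * φ 1 := by rw [← hind, indFun_one]
  have hR1 : R 1 ≠ 0 := by
    show σ (χ ((1 : T) : G)) - σ (φ 1) ≠ 0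
    rw [Subgroup.coe_one, hχ1, ← map_sub, ← sub_one_mul, map_ne_zero_iff σ σ.injective]
    exact mul_ne_zero (sub_ne_zero.2 (fun h => hidx (by exact_mod_cast h))) (irr_degree_ne_zero hφ)
  let a : G → ℂ := indFun T (fun x => φ x * σ (φ x))
  let b : G → ℂ := indFun T (fun x => φ x * R x)
  have hsum : a + b = fun g => χ g * σ (χ g) := by
    rw [← indFun_add, show ((fun x => φ x * σ (φ x)) + fun x => φ x * R x) =
        fun x : T => φ x * (fun g => σ (χ g)) (x : G) from funext fun x => by
          simp only [Pi.add_apply, R]; ring,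
      indFun_mul_restrict T φ (isClassFunction_of_isIrr hψ), hind]
    rfl
  rw [← hsum] at hirr
  refine not_isIrr_add (isCharacter_indFun T (isCharacter_mul hφc (isCharacter_of_isIrr hσφ)))
    (isCharacter_indFun T (isCharacter_mul hφc hR)) ?_ ?_ hirr
  · intro h
    have h1 := congrFun h 1
    rw [indFun_one] at h1
    exact mul_ne_zero (Nat.cast_ne_zero.2 Subgroup.index_ne_zero_of_finite)
      (mul_ne_zero (irr_degree_ne_zero hφ) (irr_degree_ne_zero hσφ)) h1
  · intro h
    have h1 := congrFun h 1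
    rw [indFun_one] at h1
    exact mul_ne_zero (Nat.cast_ne_zero.2 Subgroup.index_ne_zero_of_finite)
      (mul_ne_zero (irr_degree_ne_zero hφ) hR1) h1

/-- No normal subgroup is nonabelian of class two with all of the centre central in the group. -/
theorem not_class_two {χ : G → ℂ} (hχ : IsIrrCharacter G χ)
    (hf : ∀ g : G, χ g = χ 1 → g = 1) (σ : ℂ ≃+* ℂ) {k : ℕ} (hk : Nat.Coprime k (Nat.card G))
    (hσ : ∀ (φ : G → ℂ), IsCharacter G φ → ∀ g, σ (φ g) = φ (g ^ k))
    (hirr : IsIrrCharacter G (fun g => χ g * σ (χ g)))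
    (N : Subgroup G) [N.Normal] (hder : ∀ a ∈ N, ∀ b ∈ N, a * b * a⁻¹ * b⁻¹ ∈ Subgroup.center G)
    (hcen : ∀ a ∈ N, (∀ b ∈ N, a * b = b * a) → a ∈ Subgroup.center G) :
    N ≤ Subgroup.center G := by
  classical
  obtain ⟨n, ρ, hρirr, rfl⟩ := hχ
  have := hρirr
  have hχ' : IsIrrCharacter G ρ.character := ⟨n, ρ, hρirr, rfl⟩
  set χ := ρ.character with hχdef
  have hd : χ 1 ≠ 0 := irr_degree_ne_zero hχ'
  have hscal : ∀ z ∈ Subgroup.center G, ∃ c : ℂ, ρ z = c • 1 := fun z hz =>
    exists_scalar_of_commute_all ρ fun g => by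
      rw [← map_mul, ← map_mul, Subgroup.mem_center_iff.1 hz g]
  have hinj : ∀ g : G, ρ g = 1 → g = 1 := fun g hg => hf g
    (show ρ.character g = ρ.character 1 by simp only [Representation.character, hg, map_one])
  -- the character vanishes on `N` outside the centre
  have hvan : ∀ t ∈ N, t ∉ Subgroup.center G → χ t = 0 := by
    intro t ht htc
    obtain ⟨b, hb, hne⟩ : ∃ b ∈ N, t * b ≠ b * t := by
      by_contra hc
      push Not at hc
      exact htc (hcen t ht hc)
    set z := b * t * b⁻¹ * t⁻¹ with hz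
    obtain ⟨c, hc⟩ := hscal z (hder b hb t ht)
    have hc1 : c ≠ 1 := by
      intro h
      rw [h, one_smul] at hc
      have h1 := hinj z hc
      rw [hz, mul_inv_eq_one, mul_inv_eq_iff_eq_mul] at h1
      exact hne h1.symm
    have h1 : χ (z * t) = c * χ t := by
      show LinearMap.trace ℂ _ (ρ (z * t)) = c * LinearMap.trace ℂ _ (ρ t)
      rw [map_mul, hc, smul_mul_assoc, one_mul, map_smul, smul_eq_mul]
    rw [show z * t = b * t * b⁻¹ by rw [hz]; group, hχdef, ρ.char_conj] at h1
    by_contra h0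
    exact hc1 (mul_right_cancel₀ h0 (h1.symm.trans (one_mul _).symm))
  by_contra hNc
  -- representatives of `N` modulo the centre
  let Z : Subgroup N := (Subgroup.center G).subgroupOf N
  haveI : Fintype (N ⧸ Z) := Fintype.ofFinite _
  let r : N ⧸ Z → G := fun q => ((Quotient.out q : N) : G)
  have hrN : ∀ q, r q ∈ N := fun q => (Quotient.out q : N).2
  have hrinj : ∀ p q, (r p)⁻¹ * r q ∈ Subgroup.center G → p = q := by
    intro p q h
    rw [← QuotientGroup.out_eq' p, ← QuotientGroup.out_eq' q, QuotientGroup.eq,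
      Subgroup.mem_subgroupOf]
    exact h
  have htr : ∀ p q, LinearMap.trace ℂ (Fin n → ℂ) (ρ (r p)⁻¹ * ρ (r q)) =
      if p = q then χ 1 else 0 := by
    intro p q
    rw [← map_mul]
    split_ifs with h
    · rw [h, inv_mul_cancel]
      rfl
    · exact hvan _ (N.mul_mem (N.inv_mem (hrN p)) (hrN q)) (fun hc => h (hrinj p q hc))
  -- the span
  let v : N ⧸ Z → Module.End ℂ (Fin n → ℂ) := fun q => ρ (r q)
  let Φ : N ⧸ Z → Module.End ℂ (Fin n → ℂ) →ₗ[ℂ] ℂ := fun q =>
    (χ 1)⁻¹ • (LinearMap.trace ℂ (Fin n → ℂ)).comp (LinearMap.mulLeft ℂ (ρ (r q)⁻¹))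
  have hΦ : ∀ p q, Φ p (v q) = if p = q then 1 else 0 := by
    intro p q
    simp only [Φ, v, LinearMap.smul_apply, LinearMap.comp_apply, LinearMap.mulLeft_apply, htr,
      smul_eq_mul]
    split_ifs <;> simp [hd]
  have hli : LinearIndependent ℂ v := by
    rw [Fintype.linearIndependent_iff]
    intro f hfz q
    have h := congrArg (Φ q) hfz
    simpa [map_sum, hΦ] using h
  let W : Submodule ℂ (Module.End ℂ (Fin n → ℂ)) := Submodule.span ℂ (Set.range v)
  let L : Representation ℂ G (Module.End ℂ (Fin n → ℂ)) := Representation.linHom ρ ρ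
  have hL : ∀ g x, L g x = ρ g * x * ρ g⁻¹ := fun g x => by
    show ρ g ∘ₗ x ∘ₗ ρ g⁻¹ = _
    rw [mul_assoc]
    rfl
  have hvW : ∀ q, v q ∈ W := fun q => Submodule.subset_span ⟨q, rfl⟩
  have hLW : ∀ g, ∀ x ∈ W, L g x ∈ W := by
    intro g x hx
    induction hx using Submodule.span_induction with
    | mem y hy =>
      obtain ⟨q, rfl⟩ := hy
      have hm : g * r q * g⁻¹ ∈ N := (inferInstance : N.Normal).conj_mem _ (hrN q) g
      let q' : N ⧸ Z := QuotientGroup.mk ⟨_, hm⟩
      have hz : (r q')⁻¹ * (g * r q * g⁻¹) ∈ Subgroup.center G := by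
        have := QuotientGroup.eq.1 (QuotientGroup.out_eq' q')
        rwa [Subgroup.mem_subgroupOf] at this
      obtain ⟨c, hc⟩ := hscal _ hz
      have he : L g (v q) = c • v q' := by
        rw [hL]
        show ρ g * ρ (r q) * ρ g⁻¹ = c • ρ (r q')
        rw [← map_mul, ← map_mul, show g * r q * g⁻¹ = r q' * ((r q')⁻¹ * (g * r q * g⁻¹)) by group,
          map_mul, hc, mul_smul_comm, mul_one]
      rw [he]
      exact W.smul_mem c (hvW q')
    | zero => rw [map_zero]; exact W.zero_mem
    | add y z _ _ hy hz => rw [map_add]; exact W.add_mem hy hz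
    | smul a y _ hy => rw [map_smul]; exact W.smul_mem a hy
  let U : Subrepresentation L := ⟨W, fun g x hx => hLW g x hx⟩
  let B : Module.Basis (N ⧸ Z) ℂ W := Module.Basis.span hli
  have hB : ∀ q, ((B q : W) : Module.End ℂ (Fin n → ℂ)) = v q := fun q =>
    congrArg Subtype.val (Module.Basis.span_apply hli q)
  have hrepr : ∀ (x : W) q, B.repr x q = Φ q (x : Module.End ℂ (Fin n → ℂ)) := by
    intro x q
    have h : (x : Module.End ℂ (Fin n → ℂ)) = ∑ p, B.repr x p • v p := by
      conv_lhs => rw [← B.sum_repr x]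
      simp only [Submodule.coe_sum, Submodule.coe_smul, hB]
    rw [h, map_sum]
    simp [map_smul, hΦ]
  let P : G → ℂ := Representation.character (V := ↥U.toSubmodule) U.toRepresentation
  have hP : IsCharacter G P := isCharacter_character _
  have hPval : ∀ g, P g = (χ 1)⁻¹ * ∑ q : N ⧸ Z, χ ((r q)⁻¹ * (g * r q * g⁻¹)) := by
    intro g
    show LinearMap.trace ℂ W (U.toRepresentation g) = _
    rw [LinearMap.trace_eq_matrix_trace ℂ B, Matrix.trace, Finset.mul_sum]
    refine Finset.sum_congr rfl fun q _ => ?_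
    rw [Matrix.diag, LinearMap.toMatrix_apply, hrepr]
    show Φ q (L g ((B q : W) : Module.End ℂ (Fin n → ℂ))) = _
    rw [hB, hL]
    show (χ 1)⁻¹ • LinearMap.trace ℂ (Fin n → ℂ) (ρ (r q)⁻¹ * (ρ g * ρ (r q) * ρ g⁻¹)) = _
    rw [← map_mul, ← map_mul, ← map_mul, smul_eq_mul]
    rfl
  -- invariance under `σ`
  have hχσ : ∀ g, σ (χ g) = χ (g ^ k) := hσ χ (isCharacter_character ρ)
  have hσ1 : σ (χ 1) = χ 1 := by rw [hχσ, one_pow]
  have hσP : ∀ g, σ (P g) = P g := by
    intro g
    rw [hPval, map_mul, map_inv₀, hσ1, map_sum]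
    congr 1
    let pw : N ⧸ Z → N ⧸ Z := fun q => QuotientGroup.mk ((Quotient.out q : N) ^ k)
    have hkN : Nat.Coprime k (Nat.card N) :=
      hk.coprime_dvd_right (Subgroup.card_subgroup_dvd_card N)
    have hout : ∀ q, ∃ z ∈ Subgroup.center G, r (pw q) = r q ^ k * z := by
      intro q
      have := QuotientGroup.eq.1 (QuotientGroup.out_eq' (pw q)).symm
      rw [Subgroup.mem_subgroupOf] at this
      exact ⟨_, this, by simp [r]⟩
    have hroot : ∀ u ∈ N, u ^ k ∈ Subgroup.center G → u ∈ Subgroup.center G := by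
      intro u _ huk
      obtain ⟨j, hj⟩ : ∃ j : ℤ, (u ^ k) ^ j = u := by
        refine ⟨Nat.gcdA k (Nat.card G), ?_⟩
        have hbez := Nat.gcd_eq_gcd_ab k (Nat.card G)
        rw [hk.gcd_eq_one] at hbez
        calc (u ^ k) ^ Nat.gcdA k (Nat.card G) = u ^ ((k : ℤ) * Nat.gcdA k (Nat.card G)) := by
              rw [zpow_mul, zpow_natCast]
          _ = u ^ ((1 : ℤ) - (Nat.card G : ℤ) * Nat.gcdB k (Nat.card G)) := by
              congr 1
              push_cast at hbez
              linarith
          _ = u := by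
              rw [zpow_sub, zpow_one, zpow_mul, zpow_natCast, pow_card_eq_one', one_zpow, inv_one,
                mul_one]
      rw [← hj]
      exact Subgroup.zpow_mem _ huk j
    refine Fintype.sum_bijective pw ?_ _ _ fun q => ?_
    · refine Finite.injective_iff_bijective.1 fun p q h => ?_
      obtain ⟨zp, hzp, hp⟩ := hout p
      obtain ⟨zq, hzq, hq⟩ := hout q
      refine hrinj p q (hroot _ (N.mul_mem (N.inv_mem (hrN p)) (hrN q)) ?_)
      -- powers modulo the centre
      let π := QuotientGroup.mk' (Subgroup.center G)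
      have hπ : ∀ x, π x = 1 ↔ x ∈ Subgroup.center G := fun x => QuotientGroup.eq_one_iff x
      rw [← hπ, map_pow, map_mul, map_inv]
      have hcm : Commute (π (r p))⁻¹ (π (r q)) := by
        refine (Commute.inv_left ?_)
        show π (r p) * π (r q) = π (r q) * π (r p)
        rw [← mul_inv_eq_one, mul_inv_rev, ← map_mul, ← map_inv, ← map_inv, ← map_mul, ← map_mul,
          hπ]
        simpa [mul_assoc] using hder _ (hrN p) _ (hrN q)
      rw [hcm.mul_pow, inv_pow, inv_mul_eq_one, ← map_pow, ← map_pow]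
      have he : r p ^ k * zp = r q ^ k * zq := by rw [← hp, ← hq, h]
      calc π (r p ^ k) = π (r p ^ k * zp) := by rw [map_mul, (hπ zp).2 hzp, mul_one]
        _ = π (r q ^ k * zq) := by rw [he]
        _ = π (r q ^ k) := by rw [map_mul, (hπ zq).2 hzq, mul_one]
    · rw [hχσ]
      obtain ⟨zq, hzq, hq⟩ := hout q
      rw [hq]
      set x := r q with hx
      have hgz : g * (x ^ k * zq) * g⁻¹ = g * x ^ k * g⁻¹ * zq := by
        rw [mul_assoc g, mul_assoc (x ^ k), ← Subgroup.mem_center_iff.1 hzq g⁻¹]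
        simp [mul_assoc]
      rw [hgz]
      have e : (x ^ k * zq)⁻¹ * (g * x ^ k * g⁻¹ * zq) = (x ^ k)⁻¹ * (g * x * g⁻¹) ^ k := by
        rw [conj_pow]
        generalize x ^ k = a
        generalize g * a * g⁻¹ = b
        rw [mul_inv_rev, mul_assoc, ← mul_assoc a⁻¹, Subgroup.mem_center_iff.1 hzq (a⁻¹ * b),
          inv_mul_cancel_left]
      rw [e]
      set y := g * x * g⁻¹ with hy
      have hyN : y ∈ N := (inferInstance : N.Normal).conj_mem _ (hrN q) g
      by_cases hu : x⁻¹ * y ∈ Subgroup.center G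
      · have hy' : y = x * (x⁻¹ * y) := by group
        have hcm : Commute x (x⁻¹ * y) := Subgroup.mem_center_iff.1 hu x
        conv_rhs => rw [hy', hcm.mul_pow, inv_mul_cancel_left]
      · have hux : x⁻¹ * y ∈ N := N.mul_mem (N.inv_mem (hrN q)) hyN
        rw [hvan _ (N.pow_mem hux k) (fun h => hu (hroot _ hux h)), hvan _
          (N.mul_mem (N.inv_mem (N.pow_mem (hrN q) k)) (N.pow_mem hyN k))]
        intro h
        refine hu (hroot _ hux ?_)
        let π := QuotientGroup.mk' (Subgroup.center G)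
        have hπ : ∀ x, π x = 1 ↔ x ∈ Subgroup.center G := fun x => QuotientGroup.eq_one_iff x
        rw [← hπ] at h ⊢
        rw [map_mul, map_inv, map_pow, map_pow] at h
        rw [map_pow, map_mul, map_inv]
        have hcm : Commute (π x)⁻¹ (π y) := by
          refine (Commute.inv_left ?_)
          show π x * π y = π y * π x
          rw [← mul_inv_eq_one, mul_inv_rev, ← map_mul, ← map_inv, ← map_inv, ← map_mul, ← map_mul,
            hπ]
          simpa [mul_assoc] using hder _ (hrN q) _ hyN
        rw [hcm.mul_pow, inv_pow]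
        exact h
  -- the complement
  obtain ⟨U', hU'⟩ := exists_isCompl_subrep L U
  let R : G → ℂ := Representation.character (V := ↥U'.toSubmodule) U'.toRepresentation
  have hRc : IsCharacter G R := isCharacter_character _
  have hLsum : ∀ g, χ g * conj (χ g) = P g + R g := by
    intro g
    have h : L.character g = P g + R g := congrFun (character_isCompl L U U' hU') g
    rw [← h]
    show _ = (Representation.linHom ρ ρ).character g
    rw [Representation.char_linHom, char_inv (isCharacter_character ρ) g, mul_comm]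
  have h1 := classInner_irr_self hirr
  have hkey : classInner (fun g => χ g * σ (χ g)) (fun g => χ g * σ (χ g)) =
      classInner (P + R) (P + fun g => σ (R g)) := by
    simp only [classInner]
    congr 1
    refine Finset.sum_congr rfl fun g _ => ?_
    have hreal : conj (P g + σ (R g)) = P g + σ (R g) := by
      have h2 : P g + σ (R g) = σ (χ g) * conj (σ (χ g)) := by
        rw [← CharGalois.aut_conj_char σ (isCharacter_character ρ) g, ← map_mul, hLsum, map_add, hσP]
      rw [h2, map_mul, Complex.conj_conj, mul_comm]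
    simp only [Pi.add_apply]
    rw [hreal, ← hLsum, show P g + σ (R g) = σ (χ g) * conj (σ (χ g)) by
      rw [← CharGalois.aut_conj_char σ (isCharacter_character ρ) g, ← map_mul, hLsum, map_add, hσP]]
    rw [map_mul]
    ring
  have hσR : IsCharacter G (fun g => σ (R g)) := CharGalois.isCharacter_aut σ hRc
  obtain ⟨i, hi⟩ := classInner_natCast hP hP
  obtain ⟨j, hj⟩ := classInner_natCast hP hσR
  obtain ⟨l, hl⟩ := classInner_natCast hRc hP
  obtain ⟨o, ho⟩ := classInner_natCast hRc hσR
  rw [hkey, classInner_add_left, classInner_add_right, classInner_add_right, hi, hj, hl, ho] at h1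
  have h2 : i + j + (l + o) = 1 := by exact_mod_cast h1
  have hcard : 1 < Fintype.card (N ⧸ Z) := by
    rw [← Nat.card_eq_fintype_card]
    refine lt_of_le_of_ne Nat.card_pos fun h => hNc ?_
    exact Subgroup.subgroupOf_eq_top.1 (Subgroup.index_eq_one.1 h.symm)
  have hP1 : P 1 = (Fintype.card (N ⧸ Z) : ℂ) := by
    have h1' : P 1 = (finrank ℂ W : ℂ) := by
      show LinearMap.trace ℂ W (U.toRepresentation 1) = _
      rw [map_one]
      haveI : Module.Free ℂ W := Module.Free.of_basis B
      haveI : Module.Finite ℂ W := Module.Finite.of_basis B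
      exact LinearMap.trace_one ℂ W
    rw [h1', Module.finrank_eq_card_basis B]
  -- `P` has a fixed vector
  have hone : (1 : Module.End ℂ (Fin n → ℂ)) ∈ W := by
    obtain ⟨c, hc⟩ := hscal (r (QuotientGroup.mk 1)) (by
      have := QuotientGroup.eq.1 (QuotientGroup.out_eq' (QuotientGroup.mk (1 : N) : N ⧸ Z))
      rw [mul_one, inv_mem_iff, Subgroup.mem_subgroupOf] at this
      exact this)
    have hc0 : c ≠ 0 := by
      intro h
      rw [h, zero_smul] at hc
      have h3 := hΦ (QuotientGroup.mk 1) (QuotientGroup.mk 1)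
      simp only [v, hc, map_zero] at h3
      simp at h3
    have : (1 : Module.End ℂ (Fin n → ℂ)) = c⁻¹ • v (QuotientGroup.mk 1) := by
      show _ = c⁻¹ • ρ _
      rw [hc, inv_smul_smul₀ hc0]
    rw [this]
    exact W.smul_mem _ (hvW _)
  have hi0 : classInner P (fun _ : G => (1 : ℂ)) ≠ 0 := by
    have he : classInner P (fun _ : G => (1 : ℂ)) =
        (finrank ℂ (Representation.invariants (V := ↥U.toSubmodule) U.toRepresentation) : ℂ) := by
      rw [← Representation.card_inv_mul_sum_char_eq_finrank]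
      simp [classInner, P]
    rw [he, Nat.cast_ne_zero]
    intro h0
    replace h0 := (Submodule.finrank_eq_zero (R := ℂ) (M := ↥W)
      (S := Representation.invariants (V := ↥U.toSubmodule) U.toRepresentation)).1 h0
    have hmem : (⟨1, hone⟩ : W) ∈ Representation.invariants (V := ↥U.toSubmodule) U.toRepresentation := fun g =>
      Subtype.ext (show L g 1 = 1 by rw [hL, mul_one, ← map_mul, mul_inv_cancel, map_one])
    rw [h0, Submodule.mem_bot] at hmem
    have hn0 : n ≠ 0 := by
      intro hn
      apply hd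
      show χ 1 = 0
      rw [hχdef, Representation.char_one, Module.finrank_fin_fun, hn, Nat.cast_zero]
    have h4 := congrArg (fun x : W => LinearMap.trace ℂ _ (x : Module.End ℂ (Fin n → ℂ))) hmem
    simp only [Submodule.coe_zero, map_zero, LinearMap.trace_one, Module.finrank_fin_fun,
      Nat.cast_eq_zero] at h4
    exact hn0 h4
  have hPirr : IsIrrCharacter G P := by
    refine isIrrCharacter_of_norm_one hP ?_
    have hi1 : i ≠ 0 := fun e => by
      have h0 := eq_zero_of_classInner_self P (by rw [hi, e, Nat.cast_zero])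
      exact hi0 (by rw [h0, classInner_zero_left])
    rw [hi, show i = 1 by omega, Nat.cast_one]
  have hP' : P = fun _ : G => (1 : ℂ) := by
    by_contra hne
    exact hi0 (classInner_irr_ne hPirr isIrrCharacter_one hne)
  rw [hP'] at hP1
  have : Fintype.card (N ⧸ Z) = 1 := by
    have h' : (Fintype.card (N ⧸ Z) : ℂ) = 1 := hP1.symm
    exact_mod_cast h'
  omega

/-- If `χ χ^σ` is irreducible for a faithful `χ`, the Fitting subgroup is the centre. -/
theorem fitting_eq_center {χ : G → ℂ} (hχ : IsIrrCharacter G χ)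
    (hf : ∀ g : G, χ g = χ 1 → g = 1) (σ : ℂ ≃+* ℂ) {k : ℕ} (hk : Nat.Coprime k (Nat.card G))
    (hσ : ∀ (φ : G → ℂ), IsCharacter G φ → ∀ g, σ (φ g) = φ (g ^ k))
    (hirr : IsIrrCharacter G (fun g => χ g * σ (χ g))) :
    fittingSubgroup G = Subgroup.center G := by
  classical
  have hle : Subgroup.center G ≤ fittingSubgroup G :=
    le_sSup ⟨inferInstance, ⟨⟨1, by
      rw [Subgroup.upperCentralSeries_one, eq_top_iff]
      intro x _
      rw [Subgroup.mem_center_iff]
      exact fun y => Subtype.ext (Subgroup.mem_center_iff.1 x.2 y)⟩⟩⟩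
  refine le_antisymm ?_ hle
  set F := fittingSubgroup G with hF
  haveI hFn : F.Normal := Subgroup.sSup_normal _ fun N hN => hN.1
  haveI : Group.IsNilpotent F := Hall.fittingSubgroup_isNilpotent
  let π := QuotientGroup.mk' (Subgroup.center G)
  let C : Subgroup G := F ⊓ (Subgroup.centralizer ((F.map π : Subgroup _) : Set _)).comap π
  haveI : (F.map π).Normal := Subgroup.Normal.map hFn π (QuotientGroup.mk'_surjective _)
  haveI : C.Normal := Subgroup.normal_inf_normal _ _
  have hder : ∀ a ∈ C, ∀ b ∈ C, a * b * a⁻¹ * b⁻¹ ∈ Subgroup.center G := by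
    intro a ha b hb
    rw [← QuotientGroup.eq_one_iff]
    show π (a * b * a⁻¹ * b⁻¹) = 1
    have h := Subgroup.mem_centralizer_iff.1 ha.2 (π b) ⟨b, hb.1, rfl⟩
    rw [map_mul, map_mul, map_mul, map_inv, map_inv, ← h]
    group
  have hcen : ∀ a ∈ C, (∀ b ∈ C, a * b = b * a) → a ∈ Subgroup.center G := by
    intro a ha hab
    let A : Subgroup G := C ⊓ Subgroup.centralizer (C : Set G)
    haveI : A.Normal := Subgroup.normal_inf_normal _ _
    exact le_center_of_abelian hχ hf σ hirr A
      (fun x hx y hy => (Subgroup.mem_centralizer_iff.1 hy.2 x hx.1)) 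
      ⟨ha, Subgroup.mem_centralizer_iff.2 fun b hb => (hab b hb).symm⟩
  have hC := not_class_two hχ hf σ hk hσ hirr C hder hcen
  intro x hx
  by_contra hxc
  haveI : Group.IsNilpotent (F.map π) := by
    have hsurj : Function.Surjective (π.subgroupMap F) := π.subgroupMap_surjective F
    exact Group.nilpotent_of_surjective _ hsurj
  haveI : Nontrivial (F.map π) := ⟨⟨⟨π x, x, hx, rfl⟩, 1, fun h =>
    hxc ((QuotientGroup.eq_one_iff x).1 (congrArg Subtype.val h))⟩⟩
  obtain ⟨⟨⟨_, y, hy, rfl⟩, hyc⟩, hy1⟩ :=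
    Subgroup.ne_bot_iff_exists_ne_one.1 (Group.IsNilpotent.center_ne_bot (F.map π))
  have hyC : y ∈ C := ⟨hy, Subgroup.mem_centralizer_iff.2 fun w hw =>
    congrArg Subtype.val (Subgroup.mem_center_iff.1 hyc ⟨w, hw⟩)⟩
  exact hy1 (Subtype.ext (Subtype.ext ((QuotientGroup.eq_one_iff y).2 (hC hyC))))

end Cfsg.Agent.Lib.Char.GaloisProduct
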