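import Cfsg.Agent.Lib.Char.OddIndexReal
import Cfsg.Agent.Lib.Char.Degree
import Cfsg.Agent.Lib.Char.Integral
import Mathlib.GroupTheory.Perm.Cycle.Type

/-!
# A character of defect zero or of even degree

Products of conjugates of an involution `t` are counted modulo an odd prime `p` by rotating the
factors; without a character of defect zero the count is divisible by `p`.
-/

set_option autoImplicit false
set_option linter.style.haveILetI false

open scoped ComplexConjugate

namespace Cfsg.Agent.Lib.Char.OddCentralizerDefectZero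

open Cfsg Cfsg.Agent.Lib.Char

universe u

variable {G : Type u} [Group G] [Fintype G]

/-- The tuples whose images have product `g`. -/
abbrev Tup (s : G → G) (n : ℕ) (g : G) : Type u :=
  {v : List.Vector G n // (v.toList.map s).prod = g}

theorem card_tup_succ (s : G → G) (n : ℕ) (g : G) :
    Nat.card (Tup s (n + 1) g) = ∑ x : G, Nat.card (Tup s n ((s x)⁻¹ * g)) := by
  classical
  let e : Tup s (n + 1) g ≃ Σ x : G, Tup s n ((s x)⁻¹ * g) :=
    { toFun := fun v => ⟨v.1.head, v.1.tail, by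
        have h := v.2
        rw [← v.1.cons_head_tail, List.Vector.toList_cons, List.map_cons, List.prod_cons] at h
        rw [eq_inv_mul_iff_mul_eq, h]⟩
      invFun := fun z => ⟨z.1 ::ᵥ z.2.1, by
        rw [List.Vector.toList_cons, List.map_cons, List.prod_cons, z.2.2, mul_inv_cancel_left]⟩
      left_inv := fun v => Subtype.ext v.1.cons_head_tail
      right_inv := fun z => by
        rcases z with ⟨x, v, hv⟩
        exact Sigma.subtype_ext (List.Vector.head_cons x v) (List.Vector.tail_cons x v) }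
  rw [Nat.card_congr e, Nat.card_sigma]

theorem card_tup_formula (t : G) (n : ℕ) : ∀ g : G,
    (Nat.card (Tup (fun x => x * t * x⁻¹ * t) n g) : ℂ) = (Nat.card G : ℂ)⁻¹ *
      ∑ χ : IrrCharacter G, (χ : G → ℂ) 1 *
        ((Nat.card G : ℂ) * (χ : G → ℂ) t / (χ : G → ℂ) 1) ^ n * (χ : G → ℂ) (t ^ n * g⁻¹) := by
  classical
  induction n with
  | zero =>
    intro g
    have hl : Nat.card (Tup (fun x => x * t * x⁻¹ * t) 0 g) = if g = 1 then 1 else 0 := by
      split_ifs with h
      · subst h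
        haveI : Subsingleton (Tup (fun x => x * t * x⁻¹ * t) 0 (1 : G)) :=
          ⟨fun a b => Subtype.ext (a.1.eq_nil.trans b.1.eq_nil.symm)⟩
        haveI : Nonempty (Tup (fun x => x * t * x⁻¹ * t) 0 (1 : G)) :=
          ⟨⟨List.Vector.nil, rfl⟩⟩
        exact Nat.card_of_subsingleton (Classical.arbitrary _)
      · haveI : IsEmpty (Tup (fun x => x * t * x⁻¹ * t) 0 g) :=
          ⟨fun v => h (by have := v.2; rw [v.1.eq_nil] at this; exact this.symm)⟩
        exact Nat.card_of_isEmpty
    rw [hl]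
    simp only [pow_zero, mul_one, one_mul]
    have h := sum_irr_mul_conj (1 : G) g
    have e : ∑ χ : IrrCharacter G, (χ : G → ℂ) 1 * (χ : G → ℂ) g⁻¹ =
        ∑ χ : IrrCharacter G, (χ : G → ℂ) 1 * conj ((χ : G → ℂ) g) :=
      Finset.sum_congr rfl fun χ _ => by rw [char_inv (isCharacter_of_isIrr χ.2)]
    rw [e, h]
    by_cases hg : g = 1
    · subst hg
      rw [if_pos rfl, if_pos (IsConj.refl 1),
        show (Finset.univ.filter fun x : G => IsConj x 1) = {1} by ext; simp]
      simp [card_ne_zero_complex G]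
    · rw [if_neg hg, if_neg fun hc => hg ?_]
      · simp
      · obtain ⟨c, hc⟩ := isConj_iff.1 hc
        rw [← hc, mul_one, mul_inv_cancel]
  | succ n ih =>
    intro g
    rw [card_tup_succ]
    push_cast
    simp only [ih, ← Finset.mul_sum]
    congr 1
    rw [Finset.sum_comm]
    refine Finset.sum_congr rfl fun χ _ => ?_
    rw [← Finset.mul_sum, pow_succ, mul_assoc, mul_assoc ((χ : G → ℂ) 1)]
    congr 1
    have h1 := irr_degree_ne_zero χ.2
    have hk := OddIndexReal.mul_apply_eq χ.2 t (t * (t ^ n * g⁻¹))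
    have he : ∑ x : G, (χ : G → ℂ) (t ^ n * ((x * t * x⁻¹ * t)⁻¹ * g)⁻¹) =
        ∑ x : G, (χ : G → ℂ) (x * t * x⁻¹ * (t * (t ^ n * g⁻¹))) := by
      refine Finset.sum_congr rfl fun x _ => ?_
      rw [mul_inv_rev, inv_inv, ← mul_assoc]
      have hcf := isClassFunction_of_isIrr χ.2 (x * t * x⁻¹ * (t * (t ^ n * g⁻¹))) ((x * t * x⁻¹ * t)⁻¹)
      rw [← hcf]
      congr 1
      group
    rw [he, pow_succ' t n, mul_assoc t, mul_assoc _ ((Nat.card G : ℂ) * _ / _)]
    congr 1
    field_simp
    linear_combination -hk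

/-- Modulo a prime, only the constant tuples count. -/
theorem card_tup_modEq (s : G → G) {p : ℕ} [hp : Fact p.Prime] :
    Nat.card (Tup s p 1) ≡ Nat.card {x : G // s x ^ p = 1} [MOD p] := by
  classical
  let σ : Function.End (Tup s p 1) := fun v =>
    ⟨⟨v.1.1.rotate 1, (v.1.1.length_rotate 1).trans v.1.2⟩, by
      show ((v.1.1.rotate 1).map s).prod = 1
      rw [List.map_rotate]
      exact List.prod_rotate_eq_one_of_prod_eq_one v.2 1⟩
  have hiter : ∀ (k : ℕ) (v : Tup s p 1), ((σ ^ k) v).1.1 = v.1.1.rotate k := by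
    intro k
    induction k with
    | zero => intro v; exact (v.1.1.rotate_zero).symm
    | succ k ih =>
      intro v
      rw [pow_succ]
      show ((σ ^ k) (σ v)).1.1 = _
      rw [ih]
      show (v.1.1.rotate 1).rotate k = _
      rw [List.rotate_rotate, add_comm]
  have hσ : σ ^ p ^ 1 = 1 := funext fun v => Subtype.ext (Subtype.ext (by
    rw [hiter, pow_one]
    show v.1.1.rotate p = v.1.1
    exact (congrArg v.1.1.rotate v.1.2.symm).trans (List.rotate_length _)))
  have h := Equiv.Perm.card_fixedPoints_modEq hσ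
  rw [← Nat.card_eq_fintype_card, ← Nat.card_eq_fintype_card] at h
  refine h.trans (congrArg (· % p) ?_)
  refine (Nat.card_congr (Equiv.ofBijective (fun x : {x : G // s x ^ p = 1} =>
    (⟨⟨⟨List.replicate p x.1, List.length_replicate⟩, by
      show ((List.replicate p x.1).map s).prod = 1
      rw [List.map_replicate, List.prod_replicate]; exact x.2⟩,
      Subtype.ext (Subtype.ext (List.rotate_replicate x.1 p 1))⟩ : Function.fixedPoints σ)) ⟨?_, ?_⟩)).symm
  · intro a b hab
    have h1 : List.replicate p a.1 = List.replicate p b.1 :=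
      congrArg (fun z : Function.fixedPoints σ => z.1.1.1) hab
    refine Subtype.ext ?_
    exact (List.replicate_inj.1 h1).2.resolve_left hp.out.ne_zero
  · rintro ⟨v, hv⟩
    have h1 : v.1.1.rotate 1 = v.1.1 := congrArg (fun z : Tup s p 1 => z.1.1) hv
    obtain ⟨a, ha⟩ := List.rotate_one_eq_self_iff_eq_replicate.1 h1
    have ha' : v.1.1 = List.replicate p a := by rw [ha]; simp [v.1.2]
    refine ⟨⟨a, ?_⟩, Subtype.ext (Subtype.ext (Subtype.ext ha'.symm))⟩
    have h2 : (v.1.1.map s).prod = 1 := v.2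
    rwa [ha', List.map_replicate, List.prod_replicate] at h2

/-- If all degrees are odd and an element has centraliser of odd order, it is not real. -/
theorem not_real_of_odd (hdeg : ∀ χ : IrrCharacter G, Odd (charDegree (χ : G → ℂ))) {x : G}
    (hx : x ≠ 1) (hC : Odd (Nat.card (Subgroup.centralizer ({x} : Set G)))) : ¬ IsConj x x⁻¹ := by
  classical
  intro hreal
  -- the sum of the values is twice an integer, and the sum of their squares is odd
  have hzero : ∑ χ : IrrCharacter G, (χ : G → ℂ) 1 * (χ : G → ℂ) x = 0 := by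
    simpa [hx] using sum_degree_mul (G := G) x
  choose d hd using fun χ : IrrCharacter G => (hdeg χ)
  have hint : ∀ χ : IrrCharacter G, IsIntegral ℤ ((χ : G → ℂ) x) := fun χ =>
    char_isIntegral (isCharacter_of_isIrr χ.2) x
  let β : ℂ := -∑ χ : IrrCharacter G, (d χ : ℂ) * (χ : G → ℂ) x
  have hβ : IsIntegral ℤ β :=
    (IsIntegral.sum _ fun χ _ => isIntegral_algebraMap.mul (hint χ)).neg
  have hsum : ∑ χ : IrrCharacter G, (χ : G → ℂ) x = 2 * β := by
    have e : ∀ χ : IrrCharacter G, (χ : G → ℂ) 1 * (χ : G → ℂ) x =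
        (χ : G → ℂ) x + 2 * ((d χ : ℂ) * (χ : G → ℂ) x) := by
      intro χ
      rw [apply_one_eq_charDegree (isCharacter_of_isIrr χ.2), hd χ]
      push_cast
      ring
    rw [Finset.sum_congr rfl fun χ _ => e χ, Finset.sum_add_distrib, ← Finset.mul_sum] at hzero
    simp only [β, mul_neg]
    linear_combination hzero
  -- cross terms are even
  have hcross : ∀ s : Finset (IrrCharacter G), ∃ γ : ℂ, IsIntegral ℤ γ ∧
      (∑ χ ∈ s, (χ : G → ℂ) x) ^ 2 = ∑ χ ∈ s, (χ : G → ℂ) x ^ 2 + 2 * γ := by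
    intro s
    induction s using Finset.induction_on with
    | empty => exact ⟨0, isIntegral_zero, by simp⟩
    | @insert a s ha ih =>
      obtain ⟨γ, hγ, e⟩ := ih
      refine ⟨γ + (a : G → ℂ) x * ∑ χ ∈ s, (χ : G → ℂ) x,
        hγ.add ((hint a).mul (IsIntegral.sum _ fun χ _ => hint χ)), ?_⟩
      rw [Finset.sum_insert ha, Finset.sum_insert ha]
      linear_combination e
  obtain ⟨γ, hγ, e⟩ := hcross Finset.univ
  have hsq : ∑ χ : IrrCharacter G, (χ : G → ℂ) x ^ 2 =
      (Nat.card (Subgroup.centralizer ({x} : Set G)) : ℂ) := by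
    obtain ⟨c, hc⟩ := isConj_iff.1 hreal
    have h := sum_irr_mul_conj x x
    rw [if_pos (IsConj.refl x)] at h
    have e : ∀ χ : IrrCharacter G, (χ : G → ℂ) x * conj ((χ : G → ℂ) x) = (χ : G → ℂ) x ^ 2 := by
      intro χ
      rw [← char_inv (isCharacter_of_isIrr χ.2), ← hc, isClassFunction_of_isIrr χ.2, sq]
    rw [Finset.sum_congr rfl fun χ _ => e χ] at h
    rw [h, card_conjClass_eq_index, eq_comm, eq_div_iff (Nat.cast_ne_zero.2 Subgroup.index_ne_zero_of_finite),
      ← Nat.cast_mul, Subgroup.card_mul_index]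
  rw [hsum, hsq] at e
  obtain ⟨m, hm⟩ := hC
  rw [hm] at e
  push_cast at e
  have h2 : ((1 / 2 : ℚ) : ℂ) = 2 * β ^ 2 - γ - (m : ℂ) := by
    push_cast
    linear_combination (-1 / 2 : ℂ) * e
  have hint2 : IsIntegral ℤ ((1 / 2 : ℚ) : ℂ) := by
    rw [h2]
    exact (((isIntegral_algebraMap (x := (2 : ℤ))).mul (hβ.pow 2)).sub hγ).sub
      (isIntegral_algebraMap (x := (m : ℤ)))
  obtain ⟨z, hz⟩ := exists_int_of_isIntegral hint2
  have h3 : (2 * z : ℚ) = 1 := by rw [← hz]; norm_num
  have h4 : 2 * z = 1 := by exact_mod_cast h3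
  omega

/-- Odd centralizers of `p`-elements force a defect zero character or an even degree. -/
theorem exists_defect_zero_or_even {p : ℕ} [hp : Fact p.Prime] (hp2 : p ≠ 2)
    (hpG : p ∣ Nat.card G) (h2G : 2 ∣ Nat.card G)
    (hC : ∀ g : G, g ≠ 1 → (∃ k : ℕ, orderOf g = p ^ k) →
      Odd (Nat.card (Subgroup.centralizer ({g} : Set G)))) :
    (∃ χ : IrrCharacter G, (charDegree (χ : G → ℂ)).factorization p = (Nat.card G).factorization p) ∨
      ∃ χ : IrrCharacter G, Even (charDegree (χ : G → ℂ)) := by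
  classical
  by_contra hcon
  push Not at hcon
  obtain ⟨hdz, heven⟩ := hcon
  have hodd : ∀ χ : IrrCharacter G, Odd (charDegree (χ : G → ℂ)) := fun χ =>
    Nat.not_even_iff_odd.1 (heven χ)
  obtain ⟨t, ht⟩ := exists_prime_orderOf_dvd_card' (G := G) 2 h2G
  have ht2 : t * t = 1 := by rw [← sq, ← ht, pow_orderOf_eq_one]
  have htp : t ^ p = t := by
    obtain ⟨j, hj⟩ := hp.out.odd_of_ne_two hp2
    rw [hj, pow_succ, pow_mul, sq, ht2, one_pow, one_mul]
  -- an involution centralises no nontrivial `p`-element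
  have hpC : ¬ p ∣ Nat.card (Subgroup.centralizer ({t} : Set G)) := by
    intro hdvd
    obtain ⟨x, hx⟩ := exists_prime_orderOf_dvd_card' (G := Subgroup.centralizer ({t} : Set G)) p hdvd
    have hx' : orderOf (x : G) = p := by rw [Subgroup.orderOf_coe, hx]
    have hx1 : (x : G) ≠ 1 := fun h => by
      rw [h, orderOf_one] at hx'
      exact hp.out.ne_one hx'.symm
    have ho := hC x hx1 ⟨1, by rw [pow_one, hx']⟩
    have htC : t ∈ Subgroup.centralizer ({(x : G)} : Set G) :=
      Subgroup.mem_centralizer_singleton_iff.2 (Subgroup.mem_centralizer_singleton_iff.1 x.2).symm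
    have hd := orderOf_dvd_natCard (⟨t, htC⟩ : Subgroup.centralizer ({(x : G)} : Set G))
    rw [← Subgroup.orderOf_coe, ht] at hd
    exact Nat.not_even_iff_odd.2 ho (even_iff_two_dvd.2 hd)
  let s : G → G := fun x => x * t * x⁻¹ * t
  have hfix : Nat.card {x : G // s x ^ p = 1} =
      Nat.card (Subgroup.centralizer ({t} : Set G)) := by
    refine Nat.card_congr (Equiv.subtypeEquivRight fun x => ?_)
    rw [Subgroup.mem_centralizer_singleton_iff]
    constructor
    · intro hx
      by_contra hne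
      have hs1 : s x ≠ 1 := fun h1 => hne (by
        have h2 : x * t * x⁻¹ = t⁻¹ := eq_inv_of_mul_eq_one_left h1
        rw [inv_eq_of_mul_eq_one_right ht2, mul_inv_eq_iff_eq_mul] at h2
        exact h2)
      have ho : orderOf (s x) = p := orderOf_eq_prime hx hs1
      refine not_real_of_odd hodd hs1 (hC _ hs1 ⟨1, by rw [pow_one, ho]⟩) (isConj_iff.2 ⟨t, ?_⟩)
      show t * (x * t * x⁻¹ * t) * t⁻¹ = (x * t * x⁻¹ * t)⁻¹
      rw [mul_inv_rev, mul_inv_rev, mul_inv_rev, inv_inv, inv_eq_of_mul_eq_one_right ht2]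
      simp only [mul_assoc, ht2, mul_one]
    · intro hx
      show (x * t * x⁻¹ * t) ^ p = 1
      rw [hx, mul_inv_cancel_right, ht2, one_pow]
  -- without defect zero the count is divisible by `p`
  have hdvd : ∃ z : ℂ, IsIntegral ℤ z ∧ (Nat.card (Tup s p 1) : ℂ) = (p : ℂ) * z := by
    choose e he using fun χ : IrrCharacter G => charDegree_dvd_card χ.2
    have hep : ∀ χ, p ∣ e χ := by
      intro χ
      by_contra hne
      apply hdz χ
      have hd0 : charDegree (χ : G → ℂ) ≠ 0 := (charDegree_pos χ.2).ne'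
      have he0 : e χ ≠ 0 := fun h => Nat.card_pos.ne' (by rw [he χ, h, mul_zero])
      rw [he χ, Nat.factorization_mul hd0 he0, Finsupp.add_apply,
        Nat.factorization_eq_zero_of_not_dvd hne, add_zero]
    choose f hf using hep
    obtain ⟨q, hq⟩ : ∃ q, p = q + 2 := ⟨p - 2, by have := hp.out.two_le; omega⟩
    refine ⟨∑ χ : IrrCharacter G, (f χ : ℂ) * (e χ : ℂ) ^ q * (χ : G → ℂ) t ^ (p + 1),
      IsIntegral.sum _ fun χ _ => ((isIntegral_algebraMap (x := (f χ : ℤ))).mul
        ((isIntegral_algebraMap (x := (e χ : ℤ))).pow q)).mul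
        ((char_isIntegral (isCharacter_of_isIrr χ.2) t).pow _), ?_⟩
    rw [card_tup_formula, Finset.mul_sum, Finset.mul_sum]
    refine Finset.sum_congr rfl fun χ _ => ?_
    rw [inv_one, mul_one, htp]
    have h1 := irr_degree_ne_zero χ.2
    have hG : (Nat.card G : ℂ) = (χ : G → ℂ) 1 * (e χ : ℂ) := by
      rw [apply_one_eq_charDegree (isCharacter_of_isIrr χ.2), ← Nat.cast_mul, ← he χ]
    have hpe : (p : ℂ) * (f χ : ℂ) = (e χ : ℂ) := by rw [← Nat.cast_mul, ← hf χ]
    have he1 : (e χ : ℂ) ≠ 0 := by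
      intro h
      rw [h, mul_zero] at hG
      exact card_ne_zero_complex G hG
    rw [show (p : ℂ) * ((f χ : ℂ) * (e χ : ℂ) ^ q * (χ : G → ℂ) t ^ (p + 1)) =
      (p : ℂ) * (f χ : ℂ) * (e χ : ℂ) ^ q * (χ : G → ℂ) t ^ (p + 1) by ring, hpe, hG,
      mul_div_assoc, show (χ : G → ℂ) 1 * (e χ : ℂ) * ((χ : G → ℂ) t / (χ : G → ℂ) 1) =
        (e χ : ℂ) * (χ : G → ℂ) t by field_simp, mul_pow, hq]
    field_simp
    ring
  obtain ⟨z, hz, hN⟩ := hdvd
  have hNd : p ∣ Nat.card (Tup s p 1) := by
    refine dvd_of_isIntegral_div hp.out.ne_zero ?_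
    rw [hN, mul_div_cancel_left₀ _ (Nat.cast_ne_zero.2 hp.out.ne_zero)]
    exact hz
  have hmod := card_tup_modEq s (p := p)
  rw [hfix] at hmod
  exact hpC ((Nat.ModEq.dvd_iff hmod dvd_rfl).1 hNd)

end Cfsg.Agent.Lib.Char.OddCentralizerDefectZero
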