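import Cfsg.Agent.Lib.Glauberman.CoprimeDegree
import Cfsg.Agent.Lib.Struct4.Basic
import Cfsg.Agent.Lib.Char.Ito

/-!
# Groups with a normal `p`-complement and one character of degree divisible by `p`
-/

set_option autoImplicit false
set_option linter.style.haveILetI false

open scoped Pointwise

namespace Cfsg.Agent.Lib.Char.OnePDegree

open Cfsg Cfsg.Agent.Lib Cfsg.Agent.Lib.Char

universe u

variable {G : Type u} [Group G] [Finite G] {p : ℕ}

/-- In a `p`-group, a nonabelian group has an irreducible character of degree divisible by `p`. -/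
theorem exists_dvd_degree {H : Type u} [Group H] [Finite H] (hp : p.Prime) (hH : IsPGroup p H)
    (hne : ¬ ∀ a b : H, a * b = b * a) :
    ∃ η : IrrCharacter H, p ∣ charDegree (η : H → ℂ) := by
  classical
  by_contra hc
  push Not at hc
  apply hne
  intro a b
  have hk : a * b * (b * a)⁻¹ = 1 := by
    refine eq_one_of_forall_irr fun η => ?_
    haveI : Fact p.Prime := ⟨hp⟩
    obtain ⟨k, hk⟩ := IsPGroup.iff_card.1 hH
    have h1 : (η : H → ℂ) 1 = 1 := by
      refine (charDegree_eq_one_iff η.2).1 (Nat.Coprime.eq_one_of_dvd ?_ (charDegree_dvd_card η.2))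
      rw [hk]
      exact (((hp.coprime_iff_not_dvd).2 (hc η)).symm).pow_right k
    obtain ⟨l, hl⟩ := exists_hom_of_degree_one (isCharacter_of_isIrr η.2) h1
    rw [hl, h1, map_mul, map_inv, map_mul, map_mul, mul_comm (l b) (l a), mul_inv_cancel,
      Units.val_one]
  exact mul_inv_eq_one.1 hk

variable [Fact p.Prime]

/-- Elements of `N(P)` conjugate in `G` are conjugate in `N(P)`, when `N(P)` centralises `P`. -/
theorem isConj_of_isConj (P : Sylow p G)
    (hcent : ∀ n ∈ Subgroup.normalizer ((P : Subgroup G) : Set G), ∀ x ∈ (P : Subgroup G),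
      n * x = x * n)
    {a b : Subgroup.normalizer ((P : Subgroup G) : Set G)} (h : IsConj (a : G) (b : G)) :
    IsConj a b := by
  obtain ⟨g, hg⟩ := isConj_iff.1 h
  set C : Subgroup G := Subgroup.centralizer ({(b : G)} : Set G) with hC
  have hPC : (P : Subgroup G) ≤ C := fun x hx =>
    Subgroup.mem_centralizer_singleton_iff.2 (hcent _ b.2 x hx).symm
  have hgPC : ((g • P : Sylow p G) : Subgroup G) ≤ C := by
    intro y hy
    rw [Sylow.coe_subgroup_smul, Subgroup.mem_pointwise_smul_iff_inv_smul_mem] at hy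
    refine Subgroup.mem_centralizer_singleton_iff.2 ?_
    have h1 := hcent _ a.2 _ hy
    simp only [MulAut.smul_def, MulAut.conj_inv_apply] at h1
    rw [← hg]
    calc y * (g * a * g⁻¹) = g * ((g⁻¹ * y * g) * a) * g⁻¹ := by group
      _ = g * ((a : G) * (g⁻¹ * y * g)) * g⁻¹ := by rw [h1]
      _ = g * a * g⁻¹ * y := by group
  obtain ⟨c, hc⟩ := MulAction.exists_smul_eq C ((g • P).subtype hgPC) (P.subtype hPC)
  rw [Sylow.smul_subtype] at hc
  have hc' : ((c : G) * g) • P = P := by
    rw [mul_smul]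
    exact Sylow.subtype_injective hc
  refine isConj_iff.2 ⟨⟨(c : G) * g, Sylow.smul_eq_iff_mem_normalizer.1 hc'⟩, Subtype.ext ?_⟩
  show (c : G) * g * a * ((c : G) * g)⁻¹ = b
  calc (c : G) * g * a * ((c : G) * g)⁻¹ = (c : G) * (g * a * g⁻¹) * (c : G)⁻¹ := by group
    _ = b := by rw [hg, Subgroup.mem_centralizer_singleton_iff.1 c.2, mul_inv_cancel_right]

/-- The classes of size prime to `p` are the classes of `N(P)`, when it centralises `P`. -/
theorem card_classes_coprime (P : Sylow p G)
    (hcent : ∀ n ∈ Subgroup.normalizer ((P : Subgroup G) : Set G), ∀ x ∈ (P : Subgroup G),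
      n * x = x * n) :
    Nat.card {C : ConjClasses G // ¬ p ∣ Nat.card C.carrier} =
      Nat.card (ConjClasses (Subgroup.normalizer ((P : Subgroup G) : Set G))) := by
  classical
  haveI : Fintype G := Fintype.ofFinite G
  set NP := Subgroup.normalizer ((P : Subgroup G) : Set G) with hNP
  have hsize : ∀ g : G, Nat.card (ConjClasses.mk g).carrier =
      (Subgroup.centralizer ({g} : Set G)).index := by
    intro g
    rw [← card_conjClass_eq_index, ← Fintype.card_subtype, ← Nat.card_eq_fintype_card]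
    exact Nat.card_congr (Equiv.subtypeEquivRight fun x => by
      rw [ConjClasses.mem_carrier_iff_mk_eq, ConjClasses.mk_eq_mk_iff_isConj])
  have hgood : ∀ a : NP, ¬ p ∣ Nat.card (ConjClasses.mk (a : G)).carrier := by
    intro a h
    rw [hsize] at h
    exact P.not_dvd_index (h.trans (Subgroup.index_dvd_of_le fun x hx =>
      Subgroup.mem_centralizer_singleton_iff.2 (hcent _ a.2 x hx).symm))
  let f : ConjClasses NP → {C : ConjClasses G // ¬ p ∣ Nat.card C.carrier} := fun c =>
    ⟨ConjClasses.map NP.subtype c, by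
      obtain ⟨c, rfl⟩ := ConjClasses.mk_surjective c
      exact hgood c⟩
  refine (Nat.card_congr (Equiv.ofBijective f ⟨fun c d h => ?_, fun C => ?_⟩)).symm
  · obtain ⟨c, rfl⟩ := ConjClasses.mk_surjective c
    obtain ⟨d, rfl⟩ := ConjClasses.mk_surjective d
    exact ConjClasses.mk_eq_mk_iff_isConj.2
      (isConj_of_isConj P hcent (ConjClasses.mk_eq_mk_iff_isConj.1 (congrArg Subtype.val h)))
  · obtain ⟨C, hC⟩ := C
    obtain ⟨g, rfl⟩ := ConjClasses.mk_surjective C
    rw [hsize] at hC
    obtain ⟨Q⟩ : Nonempty (Sylow p (Subgroup.centralizer ({g} : Set G))) := inferInstance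
    have hQ : IsPGroup p ((Q : Subgroup _).map (Subgroup.centralizer ({g} : Set G)).subtype) :=
      Q.2.map _
    obtain ⟨R, hR⟩ := hQ.exists_le_sylow
    have hcard : Nat.card R = Nat.card ((Q : Subgroup _).map
        (Subgroup.centralizer ({g} : Set G)).subtype) := by
      rw [Subgroup.card_map_of_injective (Subgroup.subtype_injective _),
        Sylow.card_eq_multiplicity, Sylow.card_eq_multiplicity,
        ← (Subgroup.centralizer ({g} : Set G)).card_mul_index,
        Nat.factorization_mul Nat.card_pos.ne' Subgroup.index_ne_zero_of_finite,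
        Finsupp.add_apply, Nat.factorization_eq_zero_of_not_dvd hC, add_zero]
    have hReq : (R : Subgroup G) =
        (Q : Subgroup _).map (Subgroup.centralizer ({g} : Set G)).subtype :=
      (Subgroup.eq_of_le_of_card_ge hR hcard.le).symm
    obtain ⟨x, hx⟩ := MulAction.exists_smul_eq G R P
    have hmem : x * g * x⁻¹ ∈ NP := by
      have hcP : ∀ y ∈ (P : Subgroup G), y * (x * g * x⁻¹) = x * g * x⁻¹ * y := by
        intro y hy
        rw [← hx, Sylow.coe_subgroup_smul, Subgroup.mem_pointwise_smul_iff_inv_smul_mem,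
          hReq] at hy
        obtain ⟨q, -, hq⟩ := hy
        simp only [MulAut.smul_def, MulAut.conj_inv_apply, Subgroup.coe_subtype] at hq
        have hqg := Subgroup.mem_centralizer_singleton_iff.1 q.2
        rw [hq] at hqg
        calc y * (x * g * x⁻¹) = x * (x⁻¹ * y * x * g) * x⁻¹ := by group
          _ = x * (g * (x⁻¹ * y * x)) * x⁻¹ := by rw [hqg]
          _ = x * g * x⁻¹ * y := by group
      refine Subgroup.mem_normalizer_iff.2 fun y => ⟨fun hy => ?_, fun hy => ?_⟩
      · rw [← hcP y hy, mul_inv_cancel_right]; exact hy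
      · have h2 : y = x * g * x⁻¹ * y * (x * g * x⁻¹)⁻¹ := by
          have h1 := hcP _ hy
          apply mul_left_cancel (a := x * g * x⁻¹)
          rw [← h1, inv_mul_cancel_right]
        rw [h2]
        exact hy
    exact ⟨ConjClasses.mk ⟨_, hmem⟩, Subtype.ext (ConjClasses.mk_eq_mk_iff_isConj.2
      (isConj_iff.2 ⟨x, rfl⟩).symm)⟩

/-- A group with a normal `p`-complement, not nilpotent, with exactly one irreducible character
of degree divisible by `p`, has exactly one class of size divisible by `p`. -/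
theorem card_classes_dvd (hnil : ¬ Group.IsNilpotent G) (N : Subgroup G) [N.Normal]
    (hN : (Nat.card N).Coprime p) (hidx : ∃ k : ℕ, N.index = p ^ k)
    (hone : Nat.card {χ : IrrCharacter G // p ∣ charDegree (χ : G → ℂ)} = 1) :
    Nat.card {C : ConjClasses G // p ∣ Nat.card C.carrier} = 1 := by
  classical
  haveI : Fintype G := Fintype.ofFinite G
  haveI : Fintype N := Fintype.ofFinite N
  have hp : p.Prime := Fact.out
  obtain ⟨k, hk⟩ := hidx
  obtain ⟨P⟩ : Nonempty (Sylow p G) := inferInstance
  have hpN : ¬ p ∣ Nat.card N := hp.coprime_iff_not_dvd.1 hN.symm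
  have hPcard : Nat.card (P : Subgroup G) = p ^ k := by
    rw [Sylow.card_eq_multiplicity, ← N.card_mul_index,
      Nat.factorization_mul Nat.card_pos.ne' Subgroup.index_ne_zero_of_finite, Finsupp.add_apply,
      Nat.factorization_eq_zero_of_not_dvd hpN, zero_add, hk, hp.factorization_pow, Finsupp.single_eq_same]
  have hcop : (Nat.card N).Coprime (Nat.card (P : Subgroup G)) := by
    rw [hPcard]; exact hN.pow_right k
  have hinf : N ⊓ (P : Subgroup G) = ⊥ := Coprime.inf_eq_bot_of_coprime hcop
  have hsup : N ⊔ (P : Subgroup G) = ⊤ := by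
    refine Subgroup.eq_top_of_card_eq _ (le_antisymm (Subgroup.card_le_card_group _) ?_)
    refine Nat.le_of_dvd Nat.card_pos ?_
    rw [← N.card_mul_index, hk, ← hPcard]
    exact hcop.mul_dvd_of_dvd_of_dvd (Subgroup.card_dvd_of_le le_sup_left)
      (Subgroup.card_dvd_of_le le_sup_right)
  have hmem : ∀ g : G, ∃ n ∈ N, ∃ x ∈ (P : Subgroup G), n * x = g := fun g => by
    have hg : g ∈ N ⊔ (P : Subgroup G) := hsup ▸ Subgroup.mem_top g
    rwa [← SetLike.mem_coe, Subgroup.normal_mul, Set.mem_mul] at hg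
  -- the Sylow subgroup is abelian
  have hab : ∀ a ∈ (P : Subgroup G), ∀ b ∈ (P : Subgroup G), a * b = b * a := by
    by_contra hne
    let q : (P : Subgroup G) →* G ⧸ N := (QuotientGroup.mk' N).comp (P : Subgroup G).subtype
    have hq : Function.Injective q := (injective_iff_map_eq_one q).2 fun x hx => by
      have h3 : (x : G) ∈ N ⊓ (P : Subgroup G) := ⟨(QuotientGroup.eq_one_iff _).1 hx, x.2⟩
      rw [hinf, Subgroup.mem_bot] at h3
      exact Subtype.ext h3
    have hqs : Function.Surjective q := fun z => by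
      obtain ⟨g, rfl⟩ := QuotientGroup.mk'_surjective N z
      obtain ⟨n, hn, x, hx, rfl⟩ := hmem g
      exact ⟨⟨x, hx⟩, by simp [q, (QuotientGroup.eq_one_iff n).2 hn]⟩
    have hQ : IsPGroup p (G ⧸ N) := P.2.of_surjective q hqs
    obtain ⟨η, hη⟩ := exists_dvd_degree hp hQ (fun h => hne fun a ha b hb =>
      congrArg Subtype.val (hq (by rw [map_mul, map_mul, h]) :
        (⟨a, ha⟩ * ⟨b, hb⟩ : (P : Subgroup G)) = ⟨b, hb⟩ * ⟨a, ha⟩))
    let χ₀ : IrrCharacter G := ⟨fun g => (η : G ⧸ N → ℂ) (QuotientGroup.mk' N g),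
      isIrrCharacter_comp η.2 _ (QuotientGroup.mk'_surjective N)⟩
    have hχ₀ : p ∣ charDegree (χ₀ : G → ℂ) := by
      have : charDegree (χ₀ : G → ℂ) = charDegree (η : G ⧸ N → ℂ) := by
        rw [charDegree, charDegree]
        show ⌊((η : G ⧸ N → ℂ) (QuotientGroup.mk' N 1)).re⌋₊ = _
        rw [map_one]
      rwa [this]
    have huniq : ∀ χ : IrrCharacter G, p ∣ charDegree (χ : G → ℂ) → χ = χ₀ := by
      intro χ hχ
      haveI := (Nat.card_eq_one_iff_unique.1 hone).1
      exact congrArg Subtype.val (Subsingleton.elim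
        (⟨χ, hχ⟩ : {χ : IrrCharacter G // p ∣ charDegree (χ : G → ℂ)}) ⟨χ₀, hχ₀⟩)
    have hinv : ∀ θ : IrrCharacter N, inertia N (θ : N → ℂ) = ⊤ := by
      intro θ
      by_contra htop
      obtain ⟨χ, hχ⟩ := exists_irr_over N θ.2
      obtain ⟨m, hm⟩ := classInner_natCast (isCharacter_restrict (isCharacter_of_isIrr χ.2) N)
        (isCharacter_of_isIrr θ.2)
      have hd := clifford_degree N χ.2 θ.2 hχ
      rw [hm, apply_one_eq_charDegree (isCharacter_of_isIrr χ.2),
        apply_one_eq_charDegree (isCharacter_of_isIrr θ.2)] at hd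
      have hd' : charDegree (χ : G → ℂ) =
          m * (inertia N (θ : N → ℂ)).index * charDegree (θ : N → ℂ) := by exact_mod_cast hd
      have hpi : p ∣ (inertia N (θ : N → ℂ)).index := by
        have hdvd := Subgroup.index_dvd_of_le (le_inertia N (isClassFunction_of_isIrr θ.2))
        rw [hk] at hdvd
        obtain ⟨i, -, hi⟩ := (Nat.dvd_prime_pow hp).1 hdvd
        rcases Nat.eq_zero_or_pos i with rfl | hi0
        · exact absurd (Subgroup.index_eq_one.1 (by rw [hi, pow_zero])) htop
        · rw [hi]; exact dvd_pow_self p hi0.ne'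
      have hχp : p ∣ charDegree (χ : G → ℂ) := by
        rw [hd']; exact (hpi.mul_left m).mul_right _
      obtain rfl := huniq χ hχp
      apply htop
      rw [Subgroup.eq_top_iff']
      intro g
      rw [mem_inertia]
      by_contra hne'
      apply hχ
      have hres : (fun n : N => (χ₀ : G → ℂ) n) = (χ₀ : G → ℂ) 1 • fun _ : N => (1 : ℂ) := by
        funext n
        simp only [Pi.smul_apply, smul_eq_mul, mul_one]
        show (η : G ⧸ N → ℂ) (QuotientGroup.mk' N n) = (η : G ⧸ N → ℂ) (QuotientGroup.mk' N 1)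
        rw [map_one, show QuotientGroup.mk' N (n : G) = 1 from (QuotientGroup.eq_one_iff _).2 n.2]
      rw [hres, classInner_smul_left, classInner_irr_ne isIrrCharacter_one θ.2 fun h => hne' (by
        rw [← h]; rfl), mul_zero]
    -- so `P` centralises `N`
    have hnorm : ∀ s ∈ (P : Subgroup G), ∀ n ∈ N, s * n * s⁻¹ ∈ N := fun s _ n hn =>
      (inferInstance : N.Normal).conj_mem n hn s
    have hcover : ∀ n : N, ∃ x : N, x⁻¹ * n * x ∈
        Glauberman.fixed (Glauberman.conjHom hnorm) := by
      intro n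
      have hc : Glauberman.InvClass (Glauberman.conjHom hnorm) (ConjClasses.mk n) := by
        intro s m hm
        rw [← hm]
        refine ConjClasses.mk_eq_mk_iff_isConj.2 ((isConj_iff_forall_irr _ _).2 fun θ => ?_)
        have := congrFun ((mem_inertia N).1
          ((hinv θ).symm ▸ Subgroup.mem_top (s : G))) m
        rw [conjChar_apply] at this
        exact this
      obtain ⟨m, hm, hfix⟩ := Glauberman.exists_fixed_of_invClass P.2 hpN hc
      obtain ⟨x, hx⟩ := isConj_iff.1 (ConjClasses.mk_eq_mk_iff_isConj.1 hm).symm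
      exact ⟨x⁻¹, by rw [inv_inv]; rw [hx]; exact hfix⟩
    have hC : Glauberman.fixed (Glauberman.conjHom hnorm) = ⊤ := by
      by_contra hCt
      obtain ⟨n, hn⟩ := Struct4.exists_not_mem_conj _ hCt
      obtain ⟨x, hx⟩ := hcover n
      exact hn x hx
    have hcomm : ∀ s ∈ (P : Subgroup G), ∀ n ∈ N, s * n = n * s := by
      intro s hs n hn
      have h1 : (⟨n, hn⟩ : N) ∈ Glauberman.fixed (Glauberman.conjHom hnorm) := hC ▸ Subgroup.mem_top _
      have h2 := congrArg Subtype.val (h1 ⟨s, hs⟩)
      exact mul_inv_eq_iff_eq_mul.1 h2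
    -- then `G = N × P` and `N` has only one character
    let e : N × (P : Subgroup G) →* G :=
      { toFun := fun z => (z.1 : G) * (z.2 : G)
        map_one' := by simp
        map_mul' := fun z w => by
          show (z.1 : G) * w.1 * ((z.2 : G) * w.2) = (z.1 : G) * z.2 * ((w.1 : G) * w.2)
          rw [mul_assoc, mul_assoc, ← mul_assoc (w.1 : G), ← hcomm _ z.2.2 _ w.1.2, mul_assoc] }
    have he : Function.Bijective e := by
      refine ⟨(injective_iff_map_eq_one e).2 fun z hz => ?_, fun g => ?_⟩
      · have h1 : (z.1 : G) * (z.2 : G) = 1 := hz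
        have h2 : (z.2 : G) = (z.1 : G)⁻¹ := eq_inv_of_mul_eq_one_right h1
        have h3 : (z.2 : G) ∈ N ⊓ (P : Subgroup G) := ⟨h2 ▸ N.inv_mem z.1.2, z.2.2⟩
        rw [hinf, Subgroup.mem_bot] at h3
        rw [h3, mul_one] at h1
        exact Prod.ext (Subtype.ext h1) (Subtype.ext h3)
      · obtain ⟨n, hn, x, hx, rfl⟩ := hmem g
        exact ⟨(⟨n, hn⟩, ⟨x, hx⟩), rfl⟩
    let eG := MulEquiv.ofBijective e he
    have hNone : ∀ θ : IrrCharacter N, (θ : N → ℂ) = fun _ => 1 := by
      intro θ
      let ηP : ↥(P : Subgroup G) → ℂ := fun x : ↥(P : Subgroup G) => (η : G ⧸ N → ℂ) (q x)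
      have hirr : IsIrrCharacter G (fun g => (θ : N → ℂ) (eG.symm g).1 * ηP (eG.symm g).2) :=
        isIrrCharacter_comp (isIrrCharacter_prod θ.2 (isIrrCharacter_comp η.2 q hqs))
          eG.symm.toMonoidHom eG.symm.surjective
      have hdeg : charDegree (fun g => (θ : N → ℂ) (eG.symm g).1 * ηP (eG.symm g).2) =
          charDegree (θ : N → ℂ) * charDegree (η : G ⧸ N → ℂ) := by
        refine charDegree_eq_of_apply_one ?_
        show (θ : N → ℂ) (eG.symm 1).1 * (η : G ⧸ N → ℂ) (q (eG.symm 1).2) = _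
        rw [map_one, Prod.fst_one, Prod.snd_one, map_one, apply_one_eq_charDegree (isCharacter_of_isIrr θ.2),
          apply_one_eq_charDegree (isCharacter_of_isIrr η.2)]
        push_cast
        rfl
      have h1 := huniq ⟨_, hirr⟩ (by
        show p ∣ charDegree _
        rw [hdeg]; exact hη.mul_left _)
      funext n
      have h2 := congrFun (congrArg Subtype.val h1) (n : G)
      have hs : eG.symm (n : G) = (n, 1) := by
        rw [MulEquiv.symm_apply_eq]
        exact (mul_one _).symm
      have hη0 : (η : G ⧸ N → ℂ) 1 ≠ 0 := irr_degree_ne_zero (Fintype.ofFinite (G ⧸ N) |> fun _ => η.2)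
      change (θ : N → ℂ) (eG.symm n).1 * (η : G ⧸ N → ℂ) (q (eG.symm n).2) =
        (η : G ⧸ N → ℂ) (QuotientGroup.mk' N n) at h2
      rw [hs, map_one, show QuotientGroup.mk' N (n : G) = 1 from (QuotientGroup.eq_one_iff _).2 n.2]
        at h2
      exact mul_right_cancel₀ hη0 (h2.trans (one_mul _).symm)
    apply hnil
    have hN1 : N = ⊥ := (Subgroup.eq_bot_iff_forall N).2 fun n hn => by
      have := eq_one_of_forall_irr (g := (⟨n, hn⟩ : N)) fun θ => by rw [hNone θ]
      exact congrArg Subtype.val this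
    refine (IsPGroup.of_card (n := k) ?_ : IsPGroup p G).isNilpotent
    rw [← N.card_mul_index, hN1, Subgroup.card_bot, one_mul, ← hN1, hk]
  -- so `N(P)` centralises `P`
  have hcentr : ∀ n ∈ Subgroup.normalizer ((P : Subgroup G) : Set G), ∀ x ∈ (P : Subgroup G),
      n * x = x * n := by
    intro g hg x hx
    obtain ⟨n, hn, y, hy, rfl⟩ := hmem g
    have hnN : n ∈ Subgroup.normalizer ((P : Subgroup G) : Set G) := by
      have := mul_mem hg ((Subgroup.normalizer _).inv_mem
        (Subgroup.le_normalizer (H := (P : Subgroup G)) hy))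
      rwa [mul_inv_cancel_right] at this
    have hnx : n * x = x * n := by
      have h1 : n * x * n⁻¹ * x⁻¹ ∈ N ⊓ (P : Subgroup G) := by
        refine ⟨?_, Subgroup.mul_mem _ ((Subgroup.mem_normalizer_iff.1 hnN x).1 hx) ((P : Subgroup G).inv_mem hx)⟩
        rw [show n * x * n⁻¹ * x⁻¹ = n * (x * n⁻¹ * x⁻¹) by group]
        exact N.mul_mem hn ((inferInstance : N.Normal).conj_mem _ (N.inv_mem hn) x)
      rw [hinf, Subgroup.mem_bot, mul_inv_eq_one, mul_inv_eq_iff_eq_mul] at h1
      exact h1
    rw [mul_assoc, hab y hy x hx, ← mul_assoc, hnx, mul_assoc]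
  set NP := Subgroup.normalizer ((P : Subgroup G) : Set G) with hNP
  -- counting characters
  haveI : Fintype NP := Fintype.ofFinite _
  have hsolv : Group.IsSolvable (P : Subgroup G) := by
    haveI : Group.IsNilpotent (P : Subgroup G) := P.2.isNilpotent
    infer_instance
  have hcount := Glauberman.card_coprime_degree_eq N (P : Subgroup G) hsup hcop hsolv
  have hiff : ∀ d : ℕ, d.Coprime (Nat.card (P : Subgroup G)) ↔ ¬ p ∣ d ∨ k = 0 := by
    intro d
    rw [hPcard]
    rcases Nat.eq_zero_or_pos k with h0 | h0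
    · simp [h0]
    · rw [Nat.coprime_pow_right_iff h0, Nat.coprime_comm, hp.coprime_iff_not_dvd]
      exact ⟨Or.inl, fun h => h.elim id fun h => absurd h h0.ne'⟩
  have hk0 : k ≠ 0 := by
    intro h0
    obtain ⟨χ, hχ⟩ := (Nat.card_eq_one_iff_unique.1 hone).2
    refine hpN ?_
    rw [show N = ⊤ from Subgroup.index_eq_one.1 (by rw [hk, h0, pow_zero]), Subgroup.card_top]
    exact hχ.trans (charDegree_dvd_card χ.2)
  have hall : ∀ η : IrrCharacter NP, (charDegree (η : NP → ℂ)).Coprime (Nat.card (P : Subgroup G)) := by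
    intro η
    haveI : ((P : Subgroup G).subgroupOf NP).Normal := Subgroup.normal_in_normalizer
    haveI : Fintype ((P : Subgroup G).subgroupOf NP) := Fintype.ofFinite _
    have hdvd : charDegree (η : NP → ℂ) ∣ ((P : Subgroup G).subgroupOf NP).index :=
      Char.degree_dvd_index_of_abelian ((P : Subgroup G).subgroupOf NP) η.2
      (fun a ha b hb => Subtype.ext (hab _ (Subgroup.mem_subgroupOf.1 ha) _ (Subgroup.mem_subgroupOf.1 hb)))
    rw [hiff]
    left
    intro hd
    exact P.not_dvd_index (hd.trans (hdvd.trans (Subgroup.relIndex_dvd_index_of_le Subgroup.le_normalizer)))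
  rw [Nat.card_congr (Equiv.subtypeEquivRight fun (χ : IrrCharacter G) => hiff (charDegree (χ : G → ℂ))),
    Nat.card_congr (Equiv.subtypeUnivEquiv hall)] at hcount
  simp only [hk0, or_false] at hcount
  have hcls := card_classes_coprime P hcentr
  rw [card_irr_eq_card_conjClasses] at hcount
  haveI : Fintype (ConjClasses G) := Fintype.ofFinite _
  have hsum : Nat.card {C : ConjClasses G // p ∣ Nat.card C.carrier} +
      Nat.card {C : ConjClasses G // ¬ p ∣ Nat.card C.carrier} =
      Nat.card {χ : IrrCharacter G // p ∣ charDegree (χ : G → ℂ)} +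
      Nat.card {χ : IrrCharacter G // ¬ p ∣ charDegree (χ : G → ℂ)} := by
    rw [← Nat.card_sum, ← Nat.card_sum, Nat.card_congr (Equiv.sumCompl _),
      Nat.card_congr (Equiv.sumCompl _), card_irr_eq_card_conjClasses]
  rw [hcls, hone, hcount] at hsum
  exact Nat.add_right_cancel hsum

end Cfsg.Agent.Lib.Char.OnePDegree
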