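import Cfsg.Agent.Lib.Char.Monomial
import Cfsg.Agent.Lib.Char.Degree
import Cfsg.Agent.Lib.CharGalois
import Mathlib.FieldTheory.PrimitiveElement
import Mathlib.Algebra.Algebra.Hom.Rat
import Mathlib.GroupTheory.IndexNormal
import Mathlib.GroupTheory.GroupAction.Quotient

/-!
# The order of a `p`-group with a faithful irreducible character of given degree and field

The degree of the field of values is handled as the number of Galois conjugates.
-/

set_option autoImplicit false

open scoped ComplexConjugate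

namespace Cfsg.Agent.Lib.Char.PGroupFieldBound

open Cfsg Cfsg.Agent.Lib Cfsg.Agent.Lib.Char

universe u

/-- The Galois conjugates of a function. -/
def galOrb {X : Type u} (χ : X → ℂ) : Set (X → ℂ) :=
  Set.range fun σ : ℂ ≃+* ℂ => fun g => σ (χ g)

/-- The subgroup of automorphisms fixing every value of a function. -/
def galStab {X : Type u} (χ : X → ℂ) : Subgroup (ℂ ≃+* ℂ) where
  carrier := {σ | ∀ g, σ (χ g) = χ g}
  one_mem' _ := rfl
  mul_mem' {a b} ha hb g := by
    show a (b (χ g)) = χ g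
    rw [hb g, ha g]
  inv_mem' {a} ha g := by
    show a.symm (χ g) = χ g
    conv_lhs => rw [← ha g]
    exact a.symm_apply_apply _

theorem mem_galStab {X : Type u} {χ : X → ℂ} {σ : ℂ ≃+* ℂ} :
    σ ∈ galStab χ ↔ ∀ g, σ (χ g) = χ g := Iff.rfl

theorem symm_mul_mem {X : Type u} {χ : X → ℂ} {σ τ : ℂ ≃+* ℂ} :
    σ⁻¹ * τ ∈ galStab χ ↔ (fun g => σ (χ g)) = fun g => τ (χ g) := by
  rw [mem_galStab, funext_iff]
  refine forall_congr' fun g => ?_
  show σ.symm (τ (χ g)) = χ g ↔ _
  rw [RingEquiv.symm_apply_eq]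
  exact eq_comm

theorem ncard_galOrb {X : Type u} (χ : X → ℂ) : (galOrb χ).ncard = (galStab χ).index := by
  rw [← Nat.card_coe_set_eq, Subgroup.index]
  refine (Nat.card_congr (Equiv.ofBijective (Quotient.lift
    (fun σ : ℂ ≃+* ℂ => (⟨fun g => σ (χ g), σ, rfl⟩ : galOrb χ)) ?_) ⟨?_, ?_⟩)).symm
  · intro a b hab
    exact Subtype.ext (symm_mul_mem.1 (QuotientGroup.leftRel_apply.1 hab))
  · intro x y
    induction x using Quotient.inductionOn with
    | h a =>
      induction y using Quotient.inductionOn with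
      | h b =>
        intro h
        exact Quotient.sound (QuotientGroup.leftRel_apply.2
          (symm_mul_mem.2 (congrArg Subtype.val h)))
  · rintro ⟨_, σ, rfl⟩
    exact ⟨Quotient.mk _ σ, rfl⟩

/-- The number of conjugates of a primitive root of unity. -/
theorem index_galStab_root {n : ℕ} (hn : 0 < n) {ζ : ℂ} (hζ : IsPrimitiveRoot ζ n) :
    (galStab fun _ : Unit => ζ).index = n.totient := by
  rw [← ncard_galOrb, ← hζ.card_primitiveRoots]
  have h : galOrb (fun _ : Unit => ζ) =
      (fun μ : ℂ => fun _ : Unit => μ) '' (primitiveRoots n ℂ : Set ℂ) := by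
    ext f
    constructor
    · rintro ⟨σ, rfl⟩
      exact ⟨σ ζ, (mem_primitiveRoots hn).2 (hζ.map_of_injective σ.injective), rfl⟩
    · rintro ⟨μ, hμ, rfl⟩
      haveI : NeZero n := ⟨hn.ne'⟩
      have hμ' := (mem_primitiveRoots hn).1 hμ
      obtain ⟨k, -, rfl⟩ := hζ.eq_pow_of_pow_eq_one hμ'.pow_eq_one
      obtain ⟨σ, hσ⟩ := CharGalois.exists_aut_pow hn ((hζ.pow_iff_coprime hn k).1 hμ')
      exact ⟨σ, funext fun _ => hσ ζ hζ.pow_eq_one⟩
  rw [h, Set.ncard_image_of_injective _ (fun a b e => congrFun e ()), Set.ncard_coe_finset]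

variable {G : Type u} [Group G] [Finite G]

theorem galOrb_le_totient {χ : G → ℂ} (hχ : IsCharacter G χ) {N : ℕ} (hN : 0 < N)
    (h : ∀ g : G, g ^ N = 1) : (galOrb χ).ncard ∣ N.totient := by
  have hζ := Complex.isPrimitiveRoot_exp N hN.ne'
  generalize Complex.exp (2 * Real.pi * Complex.I / (N : ℂ)) = ζ at hζ
  rw [ncard_galOrb, ← index_galStab_root hN hζ]
  refine Subgroup.index_dvd_of_le fun σ hσ g => ?_
  obtain ⟨n, ρ, rfl⟩ := hχ
  obtain ⟨b, μ, h1, -, hc⟩ := exists_eigenbasis ρ g
  have hg := hc 1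
  rw [pow_one] at hg
  rw [hg, map_sum]
  refine Finset.sum_congr rfl fun i _ => ?_
  haveI : NeZero N := ⟨hN.ne'⟩
  have hμ : μ i ^ N = 1 := by
    obtain ⟨d, hd⟩ := orderOf_dvd_of_pow_eq_one (h g)
    rw [hd, pow_mul, h1 i, one_pow]
  obtain ⟨j, -, hj⟩ := hζ.eq_pow_of_pow_eq_one hμ
  rw [pow_one, ← hj, map_pow, (mem_galStab.1 hσ) ()]

theorem galOrb_ncard_pos {χ : G → ℂ} (hχ : IsCharacter G χ) : 0 < (galOrb χ).ncard := by
  have h := galOrb_le_totient hχ Nat.card_pos (fun g => pow_card_eq_one')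
  exact Nat.pos_of_dvd_of_pos h (Nat.totient_pos.2 Nat.card_pos)

/-- A faithful irreducible character of a nontrivial `p`-group has `(p - 1) p ^ t` conjugates. -/
theorem exists_galOrb_eq {p a : ℕ} (hp : p.Prime) (ha : 0 < a) (hG : Nat.card G = p ^ a)
    {χ : G → ℂ} (hχ : IsIrrCharacter G χ) (hf : ∀ g : G, χ g = χ 1 → g = 1) :
    ∃ t : ℕ, (galOrb χ).ncard = (p - 1) * p ^ t := by
  haveI : Fact p.Prime := ⟨hp⟩
  haveI : Fintype G := Fintype.ofFinite G
  have hP : IsPGroup p G := IsPGroup.of_card hG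
  haveI : Nontrivial G := Finite.one_lt_card_iff_nontrivial.1
    (hG ▸ Nat.one_lt_pow ha.ne' hp.one_lt)
  haveI : Nontrivial (Subgroup.center G) := hP.center_nontrivial
  obtain ⟨k, hk, hcard⟩ := ((hP.to_subgroup (Subgroup.center G)).nontrivial_iff_card).1 inferInstance
  obtain ⟨z, hz⟩ := exists_prime_orderOf_dvd_card' (G := Subgroup.center G) p
    (by rw [hcard]; exact dvd_pow_self p hk.ne')
  have hz' : orderOf (z : G) = p := by rw [Subgroup.orderOf_coe, hz]
  obtain ⟨n, ρ, hirr, hρ⟩ := hχ
  have := hirr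
  obtain ⟨c, hc⟩ := exists_scalar_of_commute_all ρ (z := (z : G)) fun g => by
    rw [← map_mul, ← map_mul, Subgroup.mem_center_iff.1 z.2 g]
  have hn0 : n ≠ 0 := by
    intro h0
    refine irr_degree_ne_zero (χ := χ) ⟨n, ρ, hirr, hρ⟩ ?_
    rw [← hρ, Representation.char_one, Module.finrank_fin_fun, h0, Nat.cast_zero]
  have hval : χ (z : G) = (n : ℂ) * c := by
    rw [← hρ, Representation.character, hc, map_smul, LinearMap.trace_one, Module.finrank_fin_fun,
      smul_eq_mul, mul_comm]
  haveI : Nonempty (Fin n) := ⟨⟨0, Nat.pos_of_ne_zero hn0⟩⟩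
  haveI : Nontrivial (Module.End ℂ (Fin n → ℂ)) := inferInstance
  have hcp : c ^ p = 1 := by
    have h := congrArg ρ (show (z : G) ^ p = 1 by rw [← hz', pow_orderOf_eq_one])
    rw [map_pow, hc, map_one, smul_pow, one_pow] at h
    have h' : c ^ p • (1 : Module.End ℂ (Fin n → ℂ)) = (1 : ℂ) • 1 := by rw [h, one_smul]
    exact smul_left_injective ℂ (one_ne_zero (α := Module.End ℂ (Fin n → ℂ))) h'
  have hc1 : c ≠ 1 := by
    rintro rfl
    have h1 : χ (z : G) = χ 1 := by
      rw [hval, mul_one, ← hρ, Representation.char_one, Module.finrank_fin_fun]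
    have := hf _ h1
    rw [this, orderOf_one] at hz'
    exact hp.ne_one hz'.symm
  have hprim : IsPrimitiveRoot c p := by
    rw [IsPrimitiveRoot.iff_orderOf]
    exact orderOf_eq_prime hcp hc1
  have hd : p - 1 ∣ (galOrb χ).ncard := by
    rw [ncard_galOrb, ← Nat.totient_prime hp, ← index_galStab_root hp.pos hprim]
    refine Subgroup.index_dvd_of_le fun σ hσ _ => ?_
    have h := (mem_galStab.1 hσ) (z : G)
    rw [hval, map_mul, map_natCast] at h
    exact mul_left_cancel₀ (Nat.cast_ne_zero.2 hn0) h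
  have hu : (galOrb χ).ncard ∣ (p - 1) * p ^ (a - 1) := by
    have h := galOrb_le_totient (isCharacter_of_isIrr (χ := χ) ⟨n, ρ, hirr, hρ⟩) (N := p ^ a)
      (pow_pos hp.pos a) (fun g => by rw [← hG]; exact pow_card_eq_one')
    rwa [Nat.totient_prime_pow hp ha, mul_comm] at h
  obtain ⟨r, hr⟩ := hd
  rw [hr] at hu
  obtain ⟨t, -, rfl⟩ := (Nat.dvd_prime_pow hp).1
    (Nat.dvd_of_mul_dvd_mul_left (Nat.sub_pos_of_lt hp.one_lt) hu)
  exact ⟨t, hr⟩

/-- The number of conjugates is unchanged by inflation. -/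
theorem ncard_galOrb_comp {X Y : Type u} {f : X → Y} (hf : Function.Surjective f) (ψ : Y → ℂ) :
    (galOrb (ψ ∘ f)).ncard = (galOrb ψ).ncard := by
  have h : galOrb (ψ ∘ f) = (fun φ : Y → ℂ => φ ∘ f) '' galOrb ψ := by
    rw [galOrb, galOrb, ← Set.range_comp]
    rfl
  rw [h, Set.ncard_image_of_injective _ hf.injective_comp_right]

omit [Finite G] in
/-- Field automorphisms commute with induction. -/
theorem aut_indFun [Fintype G] (σ : ℂ ≃+* ℂ) (H : Subgroup G) (θ : H → ℂ) (g : G) :
    σ (indFun H θ g) = indFun H (fun x => σ (θ x)) g := by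
  classical
  simp only [indFun, map_mul, map_inv₀, map_natCast, map_sum]
  congr 1
  refine Finset.sum_congr rfl fun x _ => ?_
  by_cases h : x⁻¹ * g * x ∈ H
  · rw [extendByZero_mem H θ h, extendByZero_mem H (fun x => σ (θ x)) h]
  · rw [extendByZero_not_mem H θ h, extendByZero_not_mem H (fun x => σ (θ x)) h, map_zero]

/-- A nonlinear irreducible character of a `p`-group is induced from a subgroup of index `p`. -/
theorem exists_index_p [Fintype G] {p a : ℕ} (hp : p.Prime) (hG : Nat.card G = p ^ a)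
    {χ : G → ℂ} (hχ : IsIrrCharacter G χ) (h1 : χ 1 ≠ 1) :
    ∃ (N : Subgroup G) (_ : N.Normal) (θ : N → ℂ), N.index = p ∧ IsIrrCharacter N θ ∧
      indFun N θ = χ := by
  classical
  haveI : Fact p.Prime := ⟨hp⟩
  haveI : Group.IsNilpotent G := (IsPGroup.of_card hG).isNilpotent
  obtain ⟨T, ψ, hT, -, hind⟩ := exists_induced_proper hχ h1 ⊥ (by simp)
    (fun M _ _ hM => by
      have : Nontrivial (G ⧸ M) := QuotientGroup.nontrivial_iff.mpr hM
      exact Group.IsNilpotent.center_ne_bot (G ⧸ M))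
  obtain ⟨i, -, hi⟩ := (Nat.dvd_prime_pow hp).1 (hG ▸ Subgroup.card_subgroup_dvd_card T)
  have hia : i < a := by
    have hlt : Nat.card T < p ^ a := hG ▸ lt_of_le_of_ne (Subgroup.card_le_card_group T)
      (fun h => hT (Subgroup.eq_top_of_card_eq T h))
    rw [hi] at hlt
    exact (Nat.pow_lt_pow_iff_right hp.one_lt).1 hlt
  obtain ⟨N, hNcard, hTN⟩ := Sylow.exists_subgroup_card_pow_prime_le p
    (hG ▸ pow_dvd_pow p (Nat.sub_le a 1)) T hi (Nat.le_sub_one_of_lt hia)
  have hidx : N.index = p := by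
    have h := Subgroup.card_mul_index N
    rw [hNcard, hG] at h
    refine Nat.eq_of_mul_eq_mul_left (pow_pos hp.pos (a - 1)) (h.trans ?_)
    rw [← pow_succ, Nat.sub_add_cancel (by omega)]
  have hNn : N.Normal := Subgroup.normal_of_index_eq_minFac_card
    (by rw [hidx, hG, hp.pow_minFac (by omega)])
  have hχc := isCharacter_of_isIrr hχ
  have hvan : ∀ g : G, g ∉ N → χ g = 0 := by
    intro g hg
    rw [← hind]
    simp only [indFun]
    rw [Finset.sum_eq_zero fun x _ => extendByZero_not_mem T ψ fun h => hg ?_, mul_zero]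
    simpa [mul_assoc] using hNn.conj_mem _ (hTN h) x
  obtain ⟨θ, hθ⟩ := exists_constituent (isCharacter_restrict hχc N) (fun h => by
    have hh := congrFun h 1
    simp only [Subgroup.coe_one, Pi.zero_apply] at hh
    exact irr_degree_ne_zero hχ hh)
  have hnorm : classInner (fun n : N => χ n) (fun n : N => χ n) = (p : ℂ) := by
    have h1' := classInner_irr_self hχ
    simp only [classInner] at h1' ⊢
    have hs : ∑ g : G, χ g * conj (χ g) = ∑ n : N, χ n * conj (χ n) := by
      rw [← Finset.sum_subset (Finset.subset_univ ((Finset.univ : Finset G).filter (· ∈ N)))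
        (fun g _ hg => by
          rw [Finset.mem_filter] at hg
          rw [hvan g fun h => hg ⟨Finset.mem_univ g, h⟩, zero_mul])]
      exact Finset.sum_subtype ((Finset.univ : Finset G).filter (· ∈ N)) (by simp)
        (fun g : G => χ g * conj (χ g))
    rw [hs, ← N.card_mul_index, hidx, Nat.cast_mul, mul_inv, mul_comm ((Nat.card N : ℂ))⁻¹,
      mul_assoc, inv_mul_eq_one₀ (Nat.cast_ne_zero.2 hp.ne_zero)] at h1'
    exact h1'.symm
  have hle : N ≤ inertia N (θ : N → ℂ) := le_inertia N (isClassFunction_of_isIrr θ.2)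
  have hI : inertia N (θ : N → ℂ) = N := by
    have hd := Subgroup.index_dvd_of_le hle
    rw [hidx] at hd
    rcases hp.eq_one_or_self_of_dvd _ hd with h | h
    · exfalso
      rw [Subgroup.index_eq_one] at h
      obtain ⟨e, he⟩ := classInner_natCast (isCharacter_restrict hχc N) (isCharacter_of_isIrr θ.2)
      have horb : orbit N (θ : N → ℂ) = {(θ : N → ℂ)} := by
        ext φ
        rw [mem_orbit, Finset.mem_singleton]
        constructor
        · rintro ⟨g, rfl⟩
          exact (mem_inertia N).1 (h ▸ Subgroup.mem_top g)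
        · rintro rfl
          exact ⟨1, conjChar_one N _⟩
      have hcl := clifford N hχ θ.2 hθ
      rw [horb, Finset.sum_singleton, he] at hcl
      rw [hcl, classInner_smul_left, classInner_smul_right, classInner_irr_self θ.2] at hnorm
      have h2 : e * e = p := by
        simp only [map_natCast, mul_one] at hnorm
        exact_mod_cast hnorm
      rcases hp.eq_one_or_self_of_dvd e ⟨e, h2.symm⟩ with rfl | rfl
      · exact hp.ne_one (by simpa using h2.symm)
      · have := hp.one_lt
        nlinarith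
    · exact (SetLike.coe_injective (Set.eq_of_subset_of_ncard_le hle (le_of_eq (by
        rw [← Nat.card_coe_set_eq, ← Nat.card_coe_set_eq]
        have e1 := N.card_mul_index
        rw [hidx, ← (inertia N (θ : N → ℂ)).card_mul_index, h] at e1
        exact (Nat.eq_of_mul_eq_mul_right hp.pos e1).symm))
        (Set.toFinite _))).symm
  have hirr := isIrrCharacter_indFun N θ.2 hI
  refine ⟨N, hNn, θ, hidx, θ.2, ?_⟩
  by_contra hne
  have h0 := classInner_irr_ne hirr hχ hne
  rw [classInner_conj_symm, classInner_indFun_right N (θ : N → ℂ)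
    (isClassFunction_of_isIrr hχ)] at h0
  exact hθ ((map_eq_zero (starRingEnd ℂ)).1 h0)

/-- A faithful linear character. -/
theorem linear_case {p a t : ℕ} (hp : p.Prime) (ha : 0 < a) (hG : Nat.card G = p ^ a)
    {χ : G → ℂ} (hχ : IsIrrCharacter G χ) (hf : ∀ g : G, χ g = χ 1 → g = 1) (h1 : χ 1 = 1)
    (ht : (galOrb χ).ncard = (p - 1) * p ^ t) : a ≤ t + 1 := by
  obtain ⟨l, hl⟩ := exists_hom_of_degree_one (isCharacter_of_isIrr hχ) h1
  have hinj : Function.Injective ((Units.coeHom ℂ).comp l) :=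
    (injective_iff_map_eq_one _).2 fun g hg => hf g (by rw [hl g, h1]; exact hg)
  haveI : IsCyclic G := isCyclic_of_subgroup_isDomain _ hinj
  obtain ⟨g, hg⟩ := IsCyclic.exists_ofOrder_eq_natCard (α := G)
  have hprim : IsPrimitiveRoot (χ g) (p ^ a) := by
    rw [IsPrimitiveRoot.iff_orderOf, hl g, ← hG, ← hg]
    exact orderOf_injective ((Units.coeHom ℂ).comp l) hinj g
  have hle : (p ^ a).totient ≤ (galOrb χ).ncard := by
    rw [← index_galStab_root (pow_pos hp.pos a) hprim, ncard_galOrb]
    refine Nat.le_of_dvd ?_ (Subgroup.index_dvd_of_le fun σ hσ _ => mem_galStab.1 hσ g)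
    rw [← ncard_galOrb]
    exact galOrb_ncard_pos (isCharacter_of_isIrr hχ)
  rw [ht, Nat.totient_prime_pow hp ha, mul_comm (p - 1)] at hle
  have h2 := (Nat.pow_le_pow_iff_right hp.one_lt).1
    (Nat.le_of_mul_le_mul_right hle (Nat.sub_pos_of_lt hp.one_lt))
  omega

theorem step_grow {d f' a' t : ℕ} (hd : 1 ≤ d) (hf : 1 ≤ f')
    (h : d * a' + 1 ≤ f' + d * ((t + 1) + 1) * f') :
    d * (a' + 1) + 1 ≤ (d + 1) * f' + d * (t + 1) * ((d + 1) * f') := by
  nlinarith [mul_le_mul (Nat.mul_le_mul hd hf) (Nat.succ_le_succ (Nat.zero_le t)) zero_le_one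
    (Nat.zero_le _), Nat.mul_le_mul (Nat.mul_le_mul hd hd) hf]

theorem step_same {d f' a' t : ℕ}
    (h : d * a' + 1 ≤ f' + d * (t + 1) * f') :
    d * ((d + 1) * a' + 1) + 1 ≤ (d + 1) * f' + d * (t + 1) * ((d + 1) * f') := by
  nlinarith [Nat.mul_le_mul_left (d + 1) h]

/-- The bound, in the form `(p - 1) a + 1 ≤ f + (p - 1) (t + 1) f`. -/
theorem bound : ∀ (a : ℕ) (G : Type u) [Group G] [Finite G] (p : ℕ), p.Prime → 0 < a →
    Nat.card G = p ^ a → ∀ χ : G → ℂ, IsIrrCharacter G χ → (∀ g : G, χ g = χ 1 → g = 1) →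
    ∀ f t : ℕ, χ 1 = (f : ℂ) → (galOrb χ).ncard = (p - 1) * p ^ t →
    (p - 1) * a + 1 ≤ f + (p - 1) * (t + 1) * f := by
  intro a
  induction a using Nat.strong_induction_on with
  | _ a ih =>
    intro G _ _ p hp ha hG χ hχ hf f t hdeg ht
    classical
    haveI : Fintype G := Fintype.ofFinite G
    haveI : Fact p.Prime := ⟨hp⟩
    by_cases h1 : χ 1 = 1
    · have hf1 : f = 1 := by
        rw [hdeg] at h1
        exact_mod_cast h1
      have := linear_case hp ha hG hχ hf h1 ht
      subst hf1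
      rw [mul_one, add_comm 1]
      exact Nat.add_le_add_right (Nat.mul_le_mul_left _ this) 1
    obtain ⟨N, hNn, θ, hidx, hθ, hind⟩ := exists_index_p hp hG hχ h1
    haveI := hNn
    haveI : Fintype N := Fintype.ofFinite N
    have hθc := isCharacter_of_isIrr hθ
    have hNcard : Nat.card N = p ^ (a - 1) := by
      refine Nat.eq_of_mul_eq_mul_right hp.pos ?_
      rw [← pow_succ, Nat.sub_add_cancel (by omega), ← hG, ← N.card_mul_index, hidx]
    obtain ⟨f', hf'⟩ := exists_natDegree hθc
    have hff : f = p * f' := by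
      have h := indFun_one N θ
      rw [hind, hdeg, hidx, hf'] at h
      exact_mod_cast h
    have hf'1 : 1 ≤ f' := Nat.one_le_iff_ne_zero.2 fun h0 => irr_degree_ne_zero hθ
      (by rw [hf', h0, Nat.cast_zero])
    set d := p - 1 with hd
    have hd1 : 1 ≤ d := Nat.sub_pos_of_lt hp.one_lt
    have hpd : p = d + 1 := (Nat.sub_add_cancel hp.pos).symm
    have hK : (charKer θ).Normal := charKer_normal hθc
    obtain ⟨θ', hθ'irr, hθ'⟩ := exists_irr_deflation hθ (charKer θ)
      (fun n hn => (mem_charKer hθc).1 hn)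
    obtain ⟨a', -, ha'⟩ := (Nat.dvd_prime_pow hp).1
      (hNcard ▸ Subgroup.card_quotient_dvd_card (charKer θ))
    let y : G →* MulAut N := MulAut.conjNormal
    obtain ⟨y₀, hy₀⟩ : ∃ y₀ : G, y₀ ∉ N := by
      by_contra hc
      push Not at hc
      rw [(Subgroup.eq_top_iff' N).2 hc, Subgroup.index_top] at hidx
      exact hp.ne_one hidx.symm
    -- intersection of the kernels of all conjugates is trivial
    have hker : ∀ n : N, (∀ x : G, conjChar N x θ n = θ 1) → n = 1 := by
      intro n hn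
      refine Subtype.ext (hf _ ?_)
      rw [← hind, indFun_apply_of_mem, indFun_one, Finset.sum_congr rfl fun x _ => hn x,
        Finset.sum_const, Finset.card_univ, nsmul_eq_mul, ← Nat.card_eq_fintype_card,
        ← N.card_mul_index, Nat.cast_mul, ← mul_assoc, ← mul_assoc,
        inv_mul_cancel₀ (card_ne_zero_complex N), one_mul]
    have hrep : ∀ x : G, ∃ i : ℕ, i < p ∧ conjChar N x θ = conjChar N (y₀ ^ i) θ := by
      intro x
      have hQ : Nat.card (G ⧸ N) = p := hidx
      have hz : (QuotientGroup.mk' N y₀) ≠ 1 := fun h =>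
        hy₀ ((QuotientGroup.eq_one_iff y₀).1 h)
      haveI : IsCyclic (G ⧸ N) := isCyclic_of_prime_card hQ
      obtain ⟨i, hi⟩ := mem_powers_iff_mem_zpowers.2
        (mem_zpowers_of_prime_card hQ (g := QuotientGroup.mk' N y₀) (g' := QuotientGroup.mk' N x) hz)
      have hp1 : (QuotientGroup.mk' N y₀) ^ p = 1 := by rw [← hQ, pow_card_eq_one']
      simp only at hi
      refine ⟨i % p, Nat.mod_lt _ hp.pos, ?_⟩
      rw [← pow_mod_orderOf, ← pow_mod_orderOf] at hi
      have hi' : QuotientGroup.mk' N (y₀ ^ (i % p)) = QuotientGroup.mk' N x := by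
        rw [map_pow, ← hi, pow_mod_orderOf, pow_mod_orderOf]
        exact (pow_eq_pow_mod i hp1).symm
      obtain ⟨n, hn, he⟩ : ∃ n ∈ N, n * y₀ ^ (i % p) = x := by
        refine ⟨x * (y₀ ^ (i % p))⁻¹, ?_, by group⟩
        rw [← QuotientGroup.eq_one_iff, QuotientGroup.mk_mul, QuotientGroup.mk_inv]
        exact mul_inv_eq_one.2 hi'.symm
      rw [← he, conjChar_mul, conjChar_of_mem N (isClassFunction_of_isIrr hθ) hn]
    have hsub : galOrb θ ⊆ Set.univ := Set.subset_univ _
    -- the stabilisers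
    have hstab : galStab θ ≤ galStab χ := by
      intro σ hσ g
      rw [← hind, aut_indFun]
      congr 1
      exact funext (mem_galStab.1 hσ)
    have hinvar : ∀ x : G, conjChar N x (fun n : N => χ n) = fun n : N => χ n := fun x =>
      conjChar_restrict N (isClassFunction_of_isIrr hχ) x
    have hcon : classInner (fun n : N => χ n) θ ≠ 0 := by
      rw [← classInner_indFun_right N θ (isClassFunction_of_isIrr hχ), hind,
        classInner_irr_self hχ]
      exact one_ne_zero
    -- Galois conjugates over the field of `χ` are conjugates in `G`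
    let S : Set (N → ℂ) := (fun σ : ℂ ≃+* ℂ => fun n => σ (θ n)) '' (galStab χ : Set (ℂ ≃+* ℂ))
    let C : Set (N → ℂ) := (fun i : ℕ => conjChar N (y₀ ^ i) θ) '' ↑(Finset.range p)
    have hCfin : C.Finite := (Finset.finite_toSet _).image _
    have hCcard : C.ncard ≤ p := (Set.ncard_image_le (Finset.finite_toSet _)).trans
      (by rw [Set.ncard_coe_finset, Finset.card_range])
    have hSC : S ⊆ C := by
      rintro _ ⟨σ, hσ, rfl⟩
      have hσirr := CharGalois.isIrrCharacter_aut σ hθ
      have hσc : classInner (fun n : N => χ n) (fun n => σ (θ n)) ≠ 0 := by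
        have he : indFun N (fun n => σ (θ n)) = χ := by
          funext g
          rw [← aut_indFun, hind]
          exact mem_galStab.1 hσ g
        rw [← classInner_indFun_right N _ (isClassFunction_of_isIrr hχ), he,
          classInner_irr_self hχ]
        exact one_ne_zero
      obtain ⟨x, hx⟩ := conjugate_of_constituents N hχ hθ hσirr hcon hσc
      obtain ⟨i, hi, hxi⟩ := hrep x
      exact ⟨i, Finset.mem_coe.2 (Finset.mem_range.2 hi), hxi.symm.trans hx⟩
    have hSfin : S.Finite := hCfin.subset hSC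
    set m := (galStab θ).relIndex (galStab χ) with hm
    have hmS : m = S.ncard := by
      rw [hm, Subgroup.relIndex, Subgroup.index, ← Nat.card_coe_set_eq]
      refine Nat.card_congr (Equiv.ofBijective (Quotient.lift
        (fun σ : galStab χ => (⟨fun n => (σ : ℂ ≃+* ℂ) (θ n), σ, σ.2, rfl⟩ : S)) ?_) ⟨?_, ?_⟩)
      · intro u v huv
        have h := Subgroup.mem_subgroupOf.1 (QuotientGroup.leftRel_apply.1 huv)
        exact Subtype.ext (symm_mul_mem.1 h)
      · intro u v
        induction u using Quotient.inductionOn with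
        | h u =>
          induction v using Quotient.inductionOn with
          | h v =>
            intro h
            refine Quotient.sound (QuotientGroup.leftRel_apply.2 ?_)
            rw [Subgroup.mem_subgroupOf]
            exact symm_mul_mem.2 (congrArg Subtype.val h)
      · rintro ⟨_, σ, hσ, rfl⟩
        exact ⟨Quotient.mk _ ⟨σ, hσ⟩, rfl⟩
    have hmp : m ≤ p := hmS ▸ (Set.ncard_le_ncard hSC hCfin).trans hCcard
    have hmul : m * (galOrb χ).ncard = (galOrb θ).ncard := by
      rw [ncard_galOrb, ncard_galOrb]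
      exact Subgroup.relIndex_mul_index hstab
    have hθ'comp : θ = θ' ∘ QuotientGroup.mk := funext fun g => (hθ' g).symm
    have horb' : (galOrb θ').ncard = (galOrb θ).ncard := by
      rw [← ncard_galOrb_comp QuotientGroup.mk_surjective θ', ← hθ'comp]
    -- the injection into the product of the quotients
    have hle : a - 1 ≤ p * a' := by
      let Φ : N → (Fin p → N ⧸ charKer θ) :=
        fun n i => QuotientGroup.mk (y (y₀ ^ (i : ℕ)) n)
      have hΦ : Function.Injective Φ := by
        intro n₁ n₂ h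
        rw [← inv_mul_eq_one]
        refine hker _ fun x => ?_
        obtain ⟨i, hi, hx⟩ := hrep x
        rw [hx, conjChar_eq_comp]
        have hi' := congrFun h ⟨i, hi⟩
        simp only [Φ, QuotientGroup.eq] at hi'
        show θ (y (y₀ ^ i) (n₁⁻¹ * n₂)) = θ 1
        rw [map_mul, map_inv]
        exact (mem_charKer hθc).1 hi'
      have h := Nat.card_le_card_of_injective Φ hΦ
      rw [Nat.card_fun, Nat.card_fin, ha', hNcard, ← pow_mul, mul_comm a'] at h
      exact (Nat.pow_le_pow_iff_right hp.one_lt).1 h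
    rcases Nat.eq_zero_or_pos a' with ha0 | ha0
    · have ha1 : a = 1 := by rw [ha0, mul_zero] at hle; omega
      subst ha1
      rw [hff, hpd]
      nlinarith [Nat.mul_le_mul hd1 hf'1, Nat.zero_le (d * (t + 1) * ((d + 1) * f'))]
    obtain ⟨t', ht'⟩ := exists_galOrb_eq hp ha0 ha' hθ'irr (by
      intro q hq
      obtain ⟨n, rfl⟩ := QuotientGroup.mk_surjective q
      rw [hθ', ← QuotientGroup.mk_one, hθ'] at hq
      exact (QuotientGroup.eq_one_iff n).2 ((mem_charKer hθc).2 hq))
    have hdeg' : θ' 1 = (f' : ℂ) := by rw [← hf', ← hθ' 1, QuotientGroup.mk_one]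
    have hlt : a' < a := by
      have : p ^ a' ∣ p ^ (a - 1) := ha' ▸ hNcard ▸ Subgroup.card_quotient_dvd_card (charKer θ)
      have := (Nat.pow_dvd_pow_iff_le_right hp.one_lt).1 this
      omega
    have hIH := ih a' hlt (N ⧸ charKer θ) p hp ha0 ha' θ' hθ'irr (by
      intro q hq
      obtain ⟨n, rfl⟩ := QuotientGroup.mk_surjective q
      rw [hθ', ← QuotientGroup.mk_one, hθ'] at hq
      exact (QuotientGroup.eq_one_iff n).2 ((mem_charKer hθc).2 hq)) f' t' hdeg' ht'
    rw [← hd] at hIH
    rw [← horb', ht', ht] at hmul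
    have hm' : m * p ^ t = p ^ t' :=
      Nat.eq_of_mul_eq_mul_left (Nat.sub_pos_of_lt hp.one_lt) (by linarith [hmul])
    have htt : t ≤ t' := (Nat.pow_dvd_pow_iff_le_right hp.one_lt).1 ⟨m, by linarith [hm']⟩
    have htt' : t' ≤ t + 1 := (Nat.pow_le_pow_iff_right hp.one_lt).1 (by
      rw [← hm', pow_succ']
      exact Nat.mul_le_mul_right _ hmp)
    rcases eq_or_lt_of_le htt with heq | hlt'
    · subst heq
      rw [hff, hpd]
      refine le_trans ?_ (step_same hIH)
      rw [← hpd]
      have : a ≤ p * a' + 1 := by omega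
      exact Nat.add_le_add_right (Nat.mul_le_mul_left d this) 1
    · have heq : t' = t + 1 := le_antisymm htt' hlt'
      subst heq
      have hmeq : m = p := Nat.eq_of_mul_eq_mul_right (pow_pos hp.pos t) (by rw [hm', pow_succ'])
      have hSeq : S = C := Set.eq_of_subset_of_ncard_le hSC (by omega) hCfin
      have hinj : Function.Injective (QuotientGroup.mk : N → N ⧸ charKer θ) := by
        intro n₁ n₂ h
        rw [QuotientGroup.eq, mem_charKer hθc] at h
        rw [← inv_mul_eq_one]
        refine hker _ fun x => ?_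
        obtain ⟨i, hi, hx⟩ := hrep x
        have hmem : conjChar N x θ ∈ C := ⟨i, Finset.mem_coe.2 (Finset.mem_range.2 hi), hx.symm⟩
        rw [← hSeq] at hmem
        obtain ⟨σ, hσ, hσx⟩ := hmem
        rw [← hσx]
        show σ (θ (n₁⁻¹ * n₂)) = θ 1
        rw [h]
        rw [hf', map_natCast]
      have hle2 : a - 1 ≤ a' := by
        have h := Nat.card_le_card_of_injective _ hinj
        rw [hNcard, ha'] at h
        exact (Nat.pow_le_pow_iff_right hp.one_lt).1 h
      rw [hff, hpd]
      refine le_trans ?_ (step_grow hd1 hf'1 hIH)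
      have : a ≤ a' + 1 := by omega
      exact Nat.add_le_add_right (Nat.mul_le_mul_left d this) 1

/-- The degree of the field of values is the number of Galois conjugates. -/
theorem finrank_adjoin {χ : G → ℂ} (hχ : IsCharacter G χ) :
    Module.finrank ℚ (IntermediateField.adjoin ℚ (Set.range χ)) = (galOrb χ).ncard := by
  classical
  set K := IntermediateField.adjoin ℚ (Set.range χ) with hK
  haveI : FiniteDimensional ℚ K := by
    haveI : Finite (Set.range χ) := (Set.finite_range χ).to_subtype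
    refine IntermediateField.finiteDimensional_adjoin ?_
    rintro _ ⟨g, rfl⟩
    exact (char_isIntegral hχ g).tower_top
  have hv : ∀ g, χ g ∈ K := fun g => IntermediateField.subset_adjoin ℚ _ (Set.mem_range_self g)
  rw [← AlgHom.card ℚ K ℂ, ← Nat.card_eq_fintype_card, ← Nat.card_coe_set_eq]
  obtain ⟨α, hα⟩ := Field.exists_primitive_element ℚ K
  have hαint : IsIntegral ℚ (α : ℂ) := (IsIntegral.of_finite ℚ α).map K.val
  have hext : ∀ e : K →ₐ[ℚ] ℂ, ∃ σ : ℂ ≃+* ℂ, ∀ x : K, e x = σ (x : ℂ) := by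
    intro e
    have hc : IsConjRoot ℚ (α : ℂ) (e α) := by
      show minpoly ℚ (α : ℂ) = minpoly ℚ (e α)
      rw [minpoly.algHom_eq e e.toRingHom.injective]
      exact minpoly.algHom_eq K.val K.val.injective α
    obtain ⟨σ, hσ⟩ := CharGalois.exists_aut_of_isConjRoot hαint.isAlgebraic hc
    refine ⟨σ, fun x => ?_⟩
    let σK : K →ₐ[ℚ] ℂ := (RingHom.toRatAlgHom (σ : ℂ →+* ℂ)).comp K.val
    have : e = σK := by
      have h2 : ∀ y ∈ IntermediateField.adjoin ℚ {α}, e y = σK y := fun y hy =>
        IntermediateField.adjoin_induction ℚ (p := fun y _ => e y = σK y)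
          (fun y hy => by rw [Set.mem_singleton_iff] at hy; subst hy; exact hσ.symm)
          (fun q => by rw [e.commutes, σK.commutes])
          (fun a b _ _ ha hb => by rw [map_add, map_add, ha, hb])
          (fun a _ ha => by rw [map_inv₀, map_inv₀, ha])
          (fun a b _ _ ha hb => by rw [map_mul, map_mul, ha, hb]) hy
      exact AlgHom.ext fun y => h2 y (hα ▸ IntermediateField.mem_top)
    exact DFunLike.congr_fun this x
  refine Nat.card_congr (Equiv.ofBijective (fun e : K →ₐ[ℚ] ℂ =>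
    (⟨fun g => e ⟨χ g, hv g⟩, by
      obtain ⟨σ, hσ⟩ := hext e
      exact ⟨σ, funext fun g => (hσ ⟨χ g, hv g⟩).symm⟩⟩ : galOrb χ)) ⟨?_, ?_⟩)
  · intro e₁ e₂ h
    refine IntermediateField.algHom_ext_of_eq_adjoin ℚ hK fun x hx => ?_
    obtain ⟨g, rfl⟩ := hx
    exact congrFun (congrArg Subtype.val h) g
  · rintro ⟨_, σ, rfl⟩
    exact ⟨(RingHom.toRatAlgHom (σ : ℂ →+* ℂ)).comp K.val, rfl⟩

end Cfsg.Agent.Lib.Char.PGroupFieldBound
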