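import Cfsg.Prelude.Def_Transfer
import Cfsg.Agent.Lib.Char.BlockEigen
import Cfsg.Agent.Lib.CharTools.ClassMult
import Cfsg.Agent.Lib.LocalFusion.PSolvable
import Cfsg.Agent.Lib.PLength.Basic
import Cfsg.Agent.Lib.Char2.Basic
import Cfsg.Agent.Lib.Hall.Basic

/-!
# A simple group with one class of elements in an elementary abelian Sylow subgroup

If centralisers are `p`-nilpotent and pairs generate `p`-solvable groups then `p = 2`: for odd `p`
the principal block takes an integral constant value on the `p`-singular elements, and the cubic sum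
of these values is too large.
-/

set_option autoImplicit false
set_option linter.style.haveILetI false
set_option linter.unusedSectionVars false

namespace Cfsg.Agent.Lib.PairSolvableOne

open Cfsg Subgroup Cfsg.Agent.Lib
open scoped ComplexConjugate Classical

universe u

variable {p : ℕ} [Fact p.Prime] {G : Type u} [Group G] [Finite G] (P : Sylow p G)

/-- `x * y` and `x * y⁻¹` are not both regular. -/
theorem not_both_regular (hab : IsMulCommutative (P : Subgroup G)) (hp2 : p ≠ 2) {x y : G}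
    (hx : orderOf x = p) (hy : orderOf y = p)
    (h : Cfsg.IsPSolvable p (Subgroup.closure ({x, y} : Set G)))
    (h1 : ¬ p ∣ orderOf (x * y)) : p ∣ orderOf (x * y⁻¹) := by
  by_contra h2
  have hp : p.Prime := Fact.out
  set X := Subgroup.closure ({x, y} : Set G) with hX
  set x' : X := ⟨x, subset_closure (Set.mem_insert _ _)⟩ with hx'
  set y' : X := ⟨y, subset_closure (Set.mem_insert_of_mem _ rfl)⟩ with hy'
  set O := pPrimeCore p X with hO
  haveI : O.Normal := by rw [hO]; infer_instance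
  set π := QuotientGroup.mk' O with hπ
  have hπs : Function.Surjective π := QuotientGroup.mk'_surjective O
  have hO1 : pPrimeCore p (X ⧸ O) = ⊥ := Char2.pPrimeCore_quotient_eq_bot p
  have hsolv : IsPSolvable p (X ⧸ O) := PLength.isPSolvable_map hπs h
  haveI hQn : (pCore p (X ⧸ O)).Normal := pCore_normal p _
  set Q := pCore p (X ⧸ O) with hQ
  obtain ⟨S⟩ : Nonempty (Sylow p X) := inferInstance
  obtain ⟨P1, hP1⟩ := (S.2.map X.subtype).exists_le_sylow
  obtain ⟨g0, hg0⟩ := MulAction.exists_smul_eq G P1 P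
  have hScomm : ∀ a ∈ (S : Subgroup X), ∀ b ∈ (S : Subgroup X), a * b = b * a := by
    intro a ha b hb
    have hm : ∀ c ∈ (S : Subgroup X), g0 * (c : G) * g0⁻¹ ∈ (P : Subgroup G) := fun c hc => by
      rw [← hg0, Sylow.coe_subgroup_smul]
      exact ⟨(c : G), hP1 ⟨c, hc, rfl⟩, by simp⟩
    haveI := hab
    have e := congrArg Subtype.val (mul_comm' (⟨_, hm a ha⟩ : (P : Subgroup G)) ⟨_, hm b hb⟩)
    simp only [coe_mul] at e
    refine Subtype.ext ?_
    push_cast
    calc (a : G) * b = g0⁻¹ * (g0 * a * g0⁻¹ * (g0 * b * g0⁻¹)) * g0 := by group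
      _ = g0⁻¹ * (g0 * b * g0⁻¹ * (g0 * a * g0⁻¹)) * g0 := by rw [e]
      _ = _ := by group
  set T := S.mapSurjective hπs with hT
  have hTQ : (T : Subgroup (X ⧸ O)) ≤ Q := by
    refine le_trans ?_ (LocalFusion.centralizer_pCore_le_of_isPSolvable hsolv hO1)
    intro a ha
    rw [Subgroup.mem_centralizer_iff]
    intro b hb
    have hb' : b ∈ (T : Subgroup (X ⧸ O)) := Hall.pCore_le_sylow T hb
    rw [hT, Sylow.coe_mapSurjective] at ha hb'
    obtain ⟨a, ha, rfl⟩ := ha
    obtain ⟨b, hb', rfl⟩ := hb'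
    rw [← map_mul, ← map_mul, hScomm b hb' a ha]
  have hpQ : ∀ w : X, w ^ p = 1 → π w ∈ Q := by
    intro w hw
    have hwp : IsPGroup p (zpowers (π w)) := Block.IsPElem.isPGroup_zpowers
      (Block.isPElem_iff.2 ⟨1, by rw [pow_one, ← map_pow, hw, map_one]⟩)
    obtain ⟨T', hT'⟩ := hwp.exists_le_sylow
    obtain ⟨c, hc⟩ := MulAction.exists_smul_eq (X ⧸ O) T T'
    have := hT' (mem_zpowers (π w))
    rw [← hc, Sylow.coe_subgroup_smul] at this
    obtain ⟨d, hd, hde⟩ := this
    rw [← hde]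
    exact hQn.conj_mem d (hTQ hd) c
  have hxp : x' ^ p = 1 := Subtype.ext (by push_cast; rw [← hx]; exact pow_orderOf_eq_one x)
  have hyp : y' ^ p = 1 := Subtype.ext (by push_cast; rw [← hy]; exact pow_orderOf_eq_one y)
  have hone : ∀ w : X, π w ∈ Q → ¬ p ∣ orderOf w → π w = 1 := fun w hw hr =>
    Block.eq_one_of_isPElem_of_regular (Block.isPElem_of_mem (Hall.isPGroup_pCore p) hw)
      fun hd => hr (hd.trans (orderOf_map_dvd π w))
  have e1 : π (x' * y') = 1 := hone _ (by rw [map_mul]; exact Q.mul_mem (hpQ _ hxp) (hpQ _ hyp))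
    (by rwa [← orderOf_coe] )
  have e2 : π (x' * y'⁻¹) = 1 := hone _
    (by rw [map_mul, map_inv]; exact Q.mul_mem (hpQ _ hxp) (Q.inv_mem (hpQ _ hyp)))
    (by rwa [← orderOf_coe] )
  rw [map_mul] at e1
  rw [map_mul, map_inv, mul_inv_eq_one] at e2
  rw [← e2, ← pow_two] at e1
  have h3 : orderOf (π x') ∣ 2 := orderOf_dvd_of_pow_eq_one e1
  have h4 : orderOf (π x') ∣ p := orderOf_dvd_of_pow_eq_one (by rw [← map_pow, hxp, map_one])
  have h5 : π x' = 1 := orderOf_eq_one_iff.mp (Nat.eq_one_of_dvd_coprimes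
    ((Nat.coprime_primes Nat.prime_two hp).mpr (Ne.symm hp2)) h3 h4)
  rw [hπ, QuotientGroup.mk'_apply, QuotientGroup.eq_one_iff] at h5
  refine Hall.not_dvd_card_pPrimeCore (G := X) hp ?_
  have h6 := orderOf_dvd_natCard (⟨x', h5⟩ : O)
  rwa [orderOf_mk, hx', orderOf_mk, hx] at h6

theorem false_of_odd [IsSimpleGroup G] (hP1 : (P : Subgroup G) ≠ ⊥)
    (hPe : Cfsg.IsElementaryAbelian p (P : Subgroup G)) (hp2 : p ≠ 2)
    (hconj : ∀ x ∈ (P : Subgroup G), ∀ y ∈ (P : Subgroup G), x ≠ 1 → y ≠ 1 →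
      ∃ g : G, g * x * g⁻¹ = y)
    (hb : ∀ x ∈ (P : Subgroup G), orderOf x = p →
      Cfsg.HasNormalPComplement p ↥(Subgroup.centralizer ({x} : Set G)))
    (hc : ∀ x y : G, orderOf x = p → orderOf y = p →
      Cfsg.IsPSolvable p ↥(Subgroup.closure ({x, y} : Set G))) : False := by
  haveI := Fintype.ofFinite G
  have hp : p.Prime := Fact.out
  obtain ⟨M, hM⟩ := Involution.exists_modular p hp
  haveI : M.IsPrime := hM.2.1.isPrime
  obtain ⟨x, hxP, hx1⟩ : ∃ x ∈ (P : Subgroup G), x ≠ 1 := by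
    by_contra hno
    push Not at hno
    exact hP1 (Subgroup.eq_bot_iff_forall _ |>.mpr hno)
  have hordP : ∀ h ∈ (P : Subgroup G), h ≠ 1 → orderOf h = p := fun h hh h1 =>
    orderOf_eq_prime (hPe.2 h hh) h1
  have hxo : orderOf x = p := hordP x hxP hx1
  set C := Subgroup.centralizer ({x} : Set G) with hC
  obtain ⟨PC, N, hNn, hN⟩ := hb x hxP hxo
  haveI := hNn
  have hNp : ¬ p ∣ Nat.card N := hN.index_eq_card ▸ PC.not_dvd_index
  have hNcore : N ≤ pPrimeCore p C :=
    Hall.le_pPrimeCore (Nat.Coprime.symm (hp.coprime_iff_not_dvd.2 hNp))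
  have hregN : ∀ w : C, ¬ p ∣ orderOf w → w ∈ N := by
    intro w hw
    rw [← QuotientGroup.eq_one_iff (N := N), ← orderOf_eq_one_iff]
    obtain ⟨k, hk⟩ := IsPGroup.iff_card.mp PC.2
    refine Nat.eq_one_of_dvd_coprimes (a := orderOf w) (b := p ^ k)
      (Nat.Coprime.pow_right _ (hp.coprime_iff_not_dvd.2 hw).symm)
      (orderOf_map_dvd (QuotientGroup.mk' N) w) ?_
    rw [← hk, ← hN.symm.index_eq_card, Subgroup.index_eq_card]
    exact orderOf_dvd_natCard _
  set B : Finset (IrrCharacter G) := Finset.univ.filter (· ∈ principalBlock M G) with hB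
  have hmemB : ∀ χ, χ ∈ B ↔ χ ∈ principalBlock M G := fun χ => by simp [hB]
  set one : IrrCharacter G := Block.oneIrr G with hone
  have honeB : one ∈ B := (hmemB _).mpr Block.oneIrr_mem
  -- the value on singular elements
  have hval : ∀ χ ∈ B, ∀ g : G, p ∣ orderOf g → (χ : G → ℂ) g = (χ : G → ℂ) x := by
    intro χ hχ g hg
    obtain ⟨u, hu⟩ := Block.exists_isPPart (p := p) g
    have hu1 : u ≠ 1 := fun e => Block.regular_iff_isPPart_one.mpr (e ▸ hu) hg
    obtain ⟨y0, -, -, hup, -⟩ := id hu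
    obtain ⟨P1, hP1'⟩ := (Block.IsPElem.isPGroup_zpowers hup).exists_le_sylow
    obtain ⟨c, hc'⟩ := MulAction.exists_smul_eq G P1 P
    have hcu : c * u * c⁻¹ ∈ (P : Subgroup G) := by
      rw [← hc', Sylow.coe_subgroup_smul]
      exact ⟨u, hP1' (mem_zpowers u), by simp⟩
    obtain ⟨a, ha⟩ := hconj _ hcu x hxP (by simpa using hu1) hx1
    have hpart := Block.IsPPart.conj hu (a * c)
    rw [show a * c * u * (a * c)⁻¹ = x by rw [← ha]; group] at hpart
    obtain ⟨y, hy, hxy, -, hyr⟩ := hpart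
    rw [← Char.isClassFunction_of_isIrr χ.2 g (a * c), ← hy]
    have hyC : y ∈ C := Subgroup.mem_centralizer_singleton_iff.mpr hxy.symm.eq
    refine Involution.value_mul_core hM ⟨1, by rw [pow_one, hxo]⟩ ?_ ((hmemB χ).mp hχ)
    exact ⟨⟨y, hyC⟩, hNcore (hregN _ (by rwa [Subgroup.orderOf_mk])), rfl⟩
  have hsingP : ∀ h ∈ (P : Subgroup G), h ≠ 1 → p ∣ orderOf h := fun h hh h1 =>
    (hordP h hh h1).symm ▸ dvd_rfl
  set q : ℕ := Nat.card (P : Subgroup G) with hq
  have hqp : p ∣ q := by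
    have h := orderOf_dvd_natCard (⟨x, hxP⟩ : (P : Subgroup G))
    rwa [Subgroup.orderOf_mk, hxo] at h
  have hq3 : 3 ≤ q := le_trans (by have := hp.two_le; omega) (Nat.le_of_dvd Nat.card_pos hqp)
  let d : IrrCharacter G → ℕ := fun χ => charDegree (χ : G → ℂ)
  have hd : ∀ χ : IrrCharacter G, (χ : G → ℂ) 1 = (d χ : ℂ) := fun χ => Block.irr_one_eq_natCast χ
  have hd1 : d one = 1 := by
    have := hd one
    rw [hone, Block.oneIrr_apply] at this
    exact_mod_cast this.symm
  have hd0 : ∀ χ, (0 : ℝ) < d χ := fun χ => Nat.cast_pos.mpr (Block.charDegree_pos χ)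
  set Pf : Finset G := Finset.univ.filter (· ∈ (P : Subgroup G)) with hPf
  have hPf1 : (1 : G) ∈ Pf := by simp [hPf]
  have hPfc : (Pf.erase 1).card + 1 = q := by
    rw [Finset.card_erase_add_one hPf1, hq, hPf, Nat.card_eq_fintype_card, Fintype.card_subtype]
  have hzex : ∀ χ : IrrCharacter G, ∃ z : ℤ, ∃ m : ℕ, χ ∈ B →
      (χ : G → ℂ) x = z ∧ (q : ℤ) * m = d χ + ((q : ℤ) - 1) * z := by
    intro χ
    by_cases hχ : χ ∈ B
    swap
    · exact ⟨0, 0, fun h => absurd h hχ⟩
    obtain ⟨m, hm⟩ := CharTools.exists_nat_sum_subgroup (Char.isCharacter_of_isIrr χ.2)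
      (P : Subgroup G)
    rw [← hq, ← hPf, ← Finset.add_sum_erase _ _ hPf1, hd, Finset.sum_congr rfl fun h hh =>
      hval χ hχ h (hsingP h (by simpa [hPf] using Finset.mem_of_mem_erase hh)
        (Finset.ne_of_mem_erase hh)), Finset.sum_const, nsmul_eq_mul] at hm
    have hq1 : ((Pf.erase 1).card : ℂ) = (q : ℂ) - 1 := by rw [← hPfc]; push_cast; ring
    rw [hq1] at hm
    set r : ℚ := ((q : ℚ) * m - d χ) / ((q : ℚ) - 1) with hr
    have hq1' : (q : ℚ) - 1 ≠ 0 := by
      have : (3 : ℚ) ≤ q := by exact_mod_cast hq3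
      linarith
    have hq1c : (q : ℂ) - 1 ≠ 0 := by exact_mod_cast hq1'
    have hxr : (χ : G → ℂ) x = (r : ℂ) := by
      rw [hr]
      push_cast
      rw [eq_div_iff hq1c]
      linear_combination hm
    have hint : IsIntegral ℤ ((χ : G → ℂ) x) := by
      obtain ⟨n, ρ, -, he⟩ := χ.2
      have he' := congrFun he x
      first
        | exact he' ▸ Char.isIntegral_character ρ x
        | exact he'.symm ▸ Char.isIntegral_character ρ x
    rw [hxr] at hint
    obtain ⟨z, hz⟩ := Char.exists_int_of_isIntegral hint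
    refine ⟨z, m, fun _ => ⟨by rw [hxr, hz]; norm_cast, ?_⟩⟩
    have hxz : (χ : G → ℂ) x = (z : ℂ) := by rw [hxr, hz]; norm_cast
    rw [hxz] at hm
    have : ((q : ℤ) : ℂ) * ((m : ℤ) : ℂ) = ((d χ : ℤ) : ℂ) + (((q : ℤ) : ℂ) - 1) * (z : ℂ) := by
      push_cast
      linear_combination -hm
    exact_mod_cast this
  choose z m hzm using hzex
  have hz : ∀ χ ∈ B, (χ : G → ℂ) x = (z χ : ℂ) := fun χ h => (hzm χ h).1
  have hz1 : z one = 1 := by
    have := hz one honeB
    rw [hone, Block.oneIrr_apply] at this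
    exact_mod_cast this.symm
  -- the generalised character supported on the singular elements
  let T : ℤ := ∑ χ ∈ B, z χ ^ 2
  let Ψ : G → ℂ := fun g => ∑ χ ∈ B, (z χ : ℂ) * (χ : G → ℂ) g
  have hΨreg : ∀ g, ¬ p ∣ orderOf g → Ψ g = 0 := by
    intro g hg
    have h := Block.weak_orthogonality hM (Block.isPBlock_principalBlock (G := G)) hg
      (hsingP x hxP hx1)
    rw [← Finset.sum_filter, ← hB] at h
    rw [← h]
    refine Finset.sum_congr rfl fun χ hχ => ?_
    rw [hz χ hχ, map_intCast, mul_comm]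
  have hΨsing : ∀ g, p ∣ orderOf g → Ψ g = (T : ℂ) := by
    intro g hg
    simp only [Ψ, T, Int.cast_sum]
    refine Finset.sum_congr rfl fun χ hχ => ?_
    rw [hval χ hχ g hg, hz χ hχ]
    push_cast
    ring
  set S : Finset G := Finset.univ.filter (fun g => p ∣ orderOf g) with hS
  have hΨsum : ∑ g : G, Ψ g = (Nat.card G : ℂ) := by
    simp only [Ψ]
    rw [Finset.sum_comm, Finset.sum_eq_single one]
    · rw [hz1]; simp [hone, Block.oneIrr_apply, Nat.card_eq_fintype_card]
    · intro χ _ hne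
      rw [← Finset.mul_sum]
      have h := Char.classInner_irr_ne χ.2 one.2 fun e => hne (Subtype.ext e)
      simp only [Cfsg.classInner, hone, Block.oneIrr_apply, map_one, mul_one] at h
      rw [(mul_eq_zero.mp h).resolve_left (inv_ne_zero (Char.card_ne_zero_complex G)), mul_zero]
    · exact fun h => absurd honeB h
  have hST : (S.card : ℤ) * T = Nat.card G := by
    rw [← Finset.sum_filter_add_sum_filter_not Finset.univ (fun g => p ∣ orderOf g), ← hS,
      Finset.sum_congr rfl fun g hg => hΨsing g (Finset.mem_filter.mp hg).2,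
      Finset.sum_eq_zero (s := Finset.univ.filter _) fun g hg => hΨreg g (Finset.mem_filter.mp hg).2,
      add_zero, Finset.sum_const, nsmul_eq_mul] at hΨsum
    exact_mod_cast hΨsum
  have hSle : Nat.card G ≤ q * S.card := by
    haveI := Fintype.ofFinite N
    haveI := Fintype.ofFinite C
    set Φ : G × N → G := fun ak => ak.1 * (x * ((ak.2 : C) : G)) * ak.1⁻¹ with hΦ
    have hkreg : ∀ k : N, ¬ p ∣ orderOf ((k : C) : G) := fun k hk => hNp (hk.trans (by
      rw [Subgroup.orderOf_coe, Subgroup.orderOf_coe]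
      exact orderOf_dvd_natCard k))
    have hkcomm : ∀ k : N, Commute x ((k : C) : G) := fun k =>
      (Subgroup.mem_centralizer_singleton_iff.mp (k : C).2).symm
    have hxel : Block.IsPElem p x := ⟨1, by rw [pow_one, hxo]⟩
    have hfib : ∀ g ∈ (Finset.univ : Finset (G × N)).image Φ,
        ((Finset.univ : Finset (G × N)).filter (fun ak => Φ ak = g)).card ≤ Nat.card C := by
      intro g hg
      obtain ⟨⟨a0, k0⟩, -, rfl⟩ := Finset.mem_image.mp hg
      have hmem : ∀ ak : G × N, Φ ak = Φ (a0, k0) → a0⁻¹ * ak.1 ∈ C := by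
        intro ak e
        have h1 := Block.IsPPart.conj (Block.isPPart_mul hxel (hkreg ak.2) (hkcomm _)) ak.1
        have h2 := Block.IsPPart.conj (Block.isPPart_mul hxel (hkreg k0) (hkcomm _)) a0
        rw [show ak.1 * (x * ((ak.2 : C) : G)) * ak.1⁻¹ = a0 * (x * ((k0 : C) : G)) * a0⁻¹ from e]
          at h1
        have h3 := Block.IsPPart.unique h1 h2
        rw [Subgroup.mem_centralizer_singleton_iff]
        calc a0⁻¹ * ak.1 * x = a0⁻¹ * (ak.1 * x * ak.1⁻¹) * ak.1 := by group
          _ = a0⁻¹ * (a0 * x * a0⁻¹) * ak.1 := by rw [h3]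
          _ = _ := by group
      rw [Nat.card_eq_fintype_card, ← Finset.card_univ]
      refine Finset.card_le_card_of_injOn
        (fun ak => if h : a0⁻¹ * ak.1 ∈ C then (⟨_, h⟩ : C) else 1) (fun _ _ => by simp) ?_
      intro ak hak bl hbl e
      have ha := (Finset.mem_filter.mp (Finset.mem_coe.mp hak)).2
      have hb' := (Finset.mem_filter.mp (Finset.mem_coe.mp hbl)).2
      simp only [dif_pos (hmem ak ha), dif_pos (hmem bl hb'), Subtype.mk.injEq, mul_right_inj] at e
      have h4 := ha.trans hb'.symm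
      simp only [Φ, e, mul_right_inj, mul_left_inj] at h4
      exact Prod.ext e (Subtype.ext (Subtype.ext h4))
    have h1 := Finset.card_le_mul_card_image _ _ hfib
    have h2 : ((Finset.univ : Finset (G × N)).image Φ).card ≤ S.card := by
      refine Finset.card_le_card fun g hg => ?_
      obtain ⟨ak, -, rfl⟩ := Finset.mem_image.mp hg
      rw [hS, Finset.mem_filter]
      refine ⟨Finset.mem_univ _, ?_⟩
      rw [hΦ]
      simp only
      rw [Block.orderOf_conj_eq]
      exact Block.singular_mul hxel hx1 (hkreg _) (hkcomm _)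
    have hPC : Nat.card PC ≤ q := by
      obtain ⟨P2, hP2⟩ := (PC.2.map C.subtype).exists_le_sylow
      have := Subgroup.card_le_of_le hP2
      rw [Subgroup.card_map_of_injective C.subtype_injective] at this
      rw [hq, Nat.card_congr (P.equiv P2).toEquiv]
      exact this
    have hCcard : Nat.card C = Nat.card N * Nat.card PC := hN.card_mul.symm
    simp only [Finset.card_univ, Fintype.card_prod] at h1
    rw [← Nat.card_eq_fintype_card, ← Nat.card_eq_fintype_card, hCcard] at h1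
    have h3 : Nat.card N * Nat.card G ≤ Nat.card N * (q * S.card) := by
      calc Nat.card N * Nat.card G = Nat.card G * Nat.card N := mul_comm _ _
        _ ≤ _ := h1
        _ ≤ Nat.card N * q * S.card := Nat.mul_le_mul (Nat.mul_le_mul_left _ hPC) h2
        _ = _ := mul_assoc _ _ _
    exact Nat.le_of_mul_le_mul_left h3 Nat.card_pos
  have hTq : T = q := by
    have hT1 : (1 : ℤ) ≤ T := by
      have := Finset.single_le_sum (f := fun χ => z χ ^ 2) (fun χ _ => sq_nonneg _) honeB
      simpa [hz1] using this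
    have hTle : T ≤ q := by
      have hS0 : 0 < S.card := Finset.card_pos.mpr ⟨x, by simp [hS, hsingP x hxP hx1]⟩
      have h1 : (S.card : ℤ) * T ≤ (S.card : ℤ) * q := by
        rw [hST, mul_comm]
        exact_mod_cast hSle
      exact le_of_mul_le_mul_left h1 (by exact_mod_cast hS0)
    have hdvd : (q : ℤ) ∣ T := by
      have h1 : ∑ χ ∈ B, z χ * ((q : ℤ) * m χ) = ((q : ℤ) - 1) * T := by
        have h0 : ∑ χ ∈ B, z χ * (d χ : ℤ) = 0 := by
          have := hΨreg 1 Block.regular_one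
          simp only [Ψ, hd] at this
          exact_mod_cast this
        calc ∑ χ ∈ B, z χ * ((q : ℤ) * m χ)
            = ∑ χ ∈ B, (z χ * (d χ : ℤ) + ((q : ℤ) - 1) * z χ ^ 2) := by
              refine Finset.sum_congr rfl fun χ hχ => ?_
              rw [(hzm χ hχ).2]
              ring
          _ = _ := by rw [Finset.sum_add_distrib, h0, zero_add, ← Finset.mul_sum]
      refine ⟨T - ∑ χ ∈ B, z χ * (m χ : ℤ), ?_⟩
      have h2 : ∑ χ ∈ B, z χ * ((q : ℤ) * m χ) = (q : ℤ) * ∑ χ ∈ B, z χ * (m χ : ℤ) := by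
        rw [Finset.mul_sum]
        exact Finset.sum_congr rfl fun χ _ => by ring
      rw [h2] at h1
      linarith
    exact le_antisymm hTle (Int.le_of_dvd (by omega) hdvd)
  -- the pairs with regular product
  set R : Finset G := Finset.univ.filter (fun g => ¬ p ∣ orderOf (x * (g * x * g⁻¹))) with hR
  have hR2 : 2 * R.card ≤ Nat.card G := by
    obtain ⟨n, hn⟩ := hconj x hxP x⁻¹ ((P : Subgroup G).inv_mem hxP) hx1 (by simpa using hx1)
    have hdisj : Disjoint R (R.image (· * n)) := by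
      rw [Finset.disjoint_left]
      intro g hg hg'
      obtain ⟨g', hg'', rfl⟩ := Finset.mem_image.mp hg'
      have h1 := (Finset.mem_filter.mp hg'').2
      have h2 := (Finset.mem_filter.mp hg).2
      have hy : orderOf (g' * x * g'⁻¹) = p := by rw [Block.orderOf_conj_eq, hxo]
      refine h2 ?_
      rw [show g' * n * x * (g' * n)⁻¹ = g' * (n * x * n⁻¹) * g'⁻¹ by group, hn,
        show g' * x⁻¹ * g'⁻¹ = (g' * x * g'⁻¹)⁻¹ by group]
      exact not_both_regular P hPe.1 hp2 hxo hy (hc _ _ hxo hy) h1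
    have h := Finset.card_le_univ (R ∪ R.image (· * n))
    rw [Finset.card_union_of_disjoint hdisj,
      Finset.card_image_of_injective _ (mul_left_injective n), ← Nat.card_eq_fintype_card] at h
    omega
  have hcub : (Nat.card G : ℝ) * ∑ χ ∈ B, (z χ : ℝ) ^ 3 / d χ =
      ((Nat.card G : ℝ) - R.card) * q := by
    have h : ∀ χ ∈ B, (Nat.card G : ℂ) * ((z χ : ℂ) ^ 3 / (d χ : ℂ)) =
        ((Nat.card G : ℂ) - R.card) * (z χ : ℂ) ^ 2 +
          ∑ g ∈ R, (z χ : ℂ) * (χ : G → ℂ) (x * (g * x * g⁻¹)) := by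
      intro χ hχ
      have h1 := ExtClosed.sum_mul_conj_elem χ.2 x x
      rw [← Finset.sum_filter_add_sum_filter_not Finset.univ
        (fun g => p ∣ orderOf (x * (g * x * g⁻¹))), ← hR,
        Finset.sum_congr rfl fun g hg => (hval χ hχ _ (Finset.mem_filter.mp hg).2),
        Finset.sum_const, nsmul_eq_mul, hz χ hχ, hd] at h1
      have hc1 : ((Finset.univ.filter fun g => p ∣ orderOf (x * (g * x * g⁻¹))).card : ℂ) =
          (Nat.card G : ℂ) - R.card := by
        rw [eq_sub_iff_add_eq, ← Nat.cast_add, hR, Finset.card_filter_add_card_filter_not,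
          Finset.card_univ, Nat.card_eq_fintype_card]
      rw [hc1] at h1
      rw [← Finset.mul_sum]
      have hd' : (d χ : ℂ) ≠ 0 := Nat.cast_ne_zero.mpr (Block.charDegree_pos χ).ne'
      field_simp
      linear_combination -(z χ : ℂ) * h1
    have h2 := Finset.sum_congr (rfl : B = B) h
    rw [← Finset.mul_sum, Finset.sum_add_distrib, ← Finset.mul_sum, Finset.sum_comm,
      Finset.sum_eq_zero (s := R) fun g hg => hΨreg _ (Finset.mem_filter.mp hg).2, add_zero,
      show ∑ χ ∈ B, (z χ : ℂ) ^ 2 = ((q : ℕ) : ℂ) by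
        have := congrArg (fun t : ℤ => (t : ℂ)) hTq
        simpa [T] using this] at h2
    have h3 := congrArg Complex.re h2
    simp only [← Complex.ofReal_intCast, ← Complex.ofReal_natCast, ← Complex.ofReal_pow,
      ← Complex.ofReal_div, ← Complex.ofReal_sum, ← Complex.ofReal_sub, ← Complex.ofReal_mul,
      Complex.ofReal_re] at h3
    exact h3
  have hlow : (q : ℝ) / 2 ≤ ∑ χ ∈ B, (z χ : ℝ) ^ 3 / d χ := by
    have h1 : (2 : ℝ) * R.card ≤ Nat.card G := by exact_mod_cast hR2
    have h2 : (0 : ℝ) < Nat.card G := Nat.cast_pos.mpr Nat.card_pos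
    have h3 : (0 : ℝ) ≤ q := Nat.cast_nonneg _
    nlinarith
  -- the upper bound
  set a : ℝ := ((q : ℝ) - 2) / (2 * ((q : ℝ) - 1)) with ha
  have hq3' : (3 : ℝ) ≤ q := by exact_mod_cast hq3
  have ha0 : 0 < a := div_pos (by linarith) (by linarith)
  have hbound : ∀ χ ∈ B.erase one, (z χ : ℝ) ^ 3 / d χ ≤ a * (z χ : ℝ) ^ 2 := by
    intro χ hχ
    obtain ⟨hne, hχB⟩ := Finset.mem_erase.mp hχ
    rcases le_or_gt (z χ) 0 with hneg | hpos
    · have : (z χ : ℝ) ≤ 0 := by exact_mod_cast hneg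
      refine le_trans (div_nonpos_of_nonpos_of_nonneg ?_ (hd0 χ).le)
        (mul_nonneg ha0.le (sq_nonneg _))
      nlinarith [mul_nonpos_of_nonneg_of_nonpos (sq_nonneg (z χ : ℝ)) this]
    have hsq : z χ ^ 2 + 1 ≤ q := by
      have h := Finset.sum_le_sum_of_subset_of_nonneg (f := fun ψ => z ψ ^ 2)
        (show ({χ, one} : Finset (IrrCharacter G)) ⊆ B by
          intro ψ hψ
          rcases Finset.mem_insert.mp hψ with rfl | h
          · exact hχB
          · exact (Finset.mem_singleton.mp h) ▸ honeB) (fun ψ _ _ => sq_nonneg _)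
      rw [Finset.sum_pair hne, hz1] at h
      change _ ≤ T at h
      rw [hTq] at h
      simpa using h
    have hzq : z χ ≤ (q : ℤ) - 2 := by nlinarith
    have hzd : z χ < d χ := by
      have hle : z χ ≤ d χ := by
        have h := Char.norm_apply_le (Char.isCharacter_of_isIrr χ.2) x
        rw [hz χ hχB, hd, Complex.norm_intCast, Complex.norm_natCast] at h
        have h' : (z χ : ℝ) ≤ d χ := le_trans (le_abs_self _) h
        exact_mod_cast h'
      refine lt_of_le_of_ne hle fun e => ?_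
      have hk : (χ : G → ℂ) x = (χ : G → ℂ) 1 := by rw [hz χ hχB, hd, e, Int.cast_natCast]
      have hc := Char.isCharacter_of_isIrr χ.2
      haveI := Char.charKer_normal hc
      rcases IsSimpleGroup.eq_bot_or_eq_top_of_normal (Char.charKer (χ : G → ℂ)) inferInstance
        with h | h
      · have := (Char.mem_charKer hc).mpr hk
        rw [h, Subgroup.mem_bot] at this
        exact hx1 this
      · have hall : ∀ g, (χ : G → ℂ) g = (χ : G → ℂ) 1 := fun g =>
          (Char.mem_charKer hc).mp (h ▸ Subgroup.mem_top g)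
        have h0 := Char.classInner_irr_ne χ.2 one.2 fun e' => hne (Subtype.ext e')
        simp only [Cfsg.classInner, hall, hone, Block.oneIrr_apply, map_one, mul_one,
          Finset.sum_const, Finset.card_univ, nsmul_eq_mul] at h0
        simp [Fintype.card_ne_zero, Char.irr_degree_ne_zero χ.2] at h0
    have hdq : z χ + q ≤ d χ := by
      have h1 := (hzm χ hχB).2
      have h2 : (q : ℤ) ∣ (d χ : ℤ) - z χ := ⟨(m χ : ℤ) - z χ, by linarith⟩
      have := Int.le_of_dvd (by omega) h2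
      omega
    have hposR : (0 : ℝ) < z χ := by exact_mod_cast hpos
    have hzqR : (z χ : ℝ) ≤ (q : ℝ) - 2 := by exact_mod_cast hzq
    have hdqR : (z χ : ℝ) + q ≤ d χ := by exact_mod_cast hdq
    rw [div_le_iff₀ (hd0 χ)]
    have key : (z χ : ℝ) ≤ a * d χ := by
      rw [ha, div_mul_eq_mul_div, le_div_iff₀ (by linarith)]
      nlinarith [mul_le_mul_of_nonneg_left hdqR (show (0 : ℝ) ≤ (q : ℝ) - 2 by linarith),
        mul_nonneg (show (0 : ℝ) ≤ q by linarith) (show (0 : ℝ) ≤ (q : ℝ) - 2 - z χ by linarith)]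
    calc (z χ : ℝ) ^ 3 = (z χ : ℝ) ^ 2 * z χ := by ring
      _ ≤ (z χ : ℝ) ^ 2 * (a * d χ) := mul_le_mul_of_nonneg_left key (sq_nonneg _)
      _ = _ := by ring
  obtain ⟨χ₀, hχ₀B, hneg⟩ : ∃ χ ∈ B, z χ < 0 := by
    by_contra hno
    push Not at hno
    have h0 : ∑ χ ∈ B, z χ * (d χ : ℤ) = 0 := by
      have := hΨreg 1 Block.regular_one
      simp only [Ψ, hd] at this
      exact_mod_cast this
    have := (Finset.sum_eq_zero_iff_of_nonneg fun χ hχ =>
      mul_nonneg (hno χ hχ) (Int.natCast_nonneg _)).mp h0 one honeB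
    rw [hz1, hd1] at this
    norm_num at this
  have hχ₀1 : χ₀ ≠ one := fun e => by rw [e, hz1] at hneg; omega
  have hstrict : (z χ₀ : ℝ) ^ 3 / d χ₀ < a * (z χ₀ : ℝ) ^ 2 := by
    have h : (z χ₀ : ℝ) < 0 := by exact_mod_cast hneg
    refine lt_trans (div_neg_of_neg_of_pos ?_ (hd0 χ₀)) (mul_pos ha0 (sq_pos_of_neg h))
    nlinarith [mul_neg_of_pos_of_neg (sq_pos_of_neg h) h]
  have h1 := Finset.sum_lt_sum hbound ⟨χ₀, Finset.mem_erase.mpr ⟨hχ₀1, hχ₀B⟩, hstrict⟩
  rw [← Finset.mul_sum] at h1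
  have h2 := Finset.add_sum_erase B (fun χ => (z χ : ℝ) ^ 3 / (d χ : ℝ)) honeB
  have h3 := Finset.add_sum_erase B (fun χ => (z χ : ℝ) ^ 2) honeB
  simp only [hz1, hd1, Int.cast_one, one_pow, Nat.cast_one, div_one] at h2 h3
  have h4 : ∑ χ ∈ B, (z χ : ℝ) ^ 2 = q := by
    have := congrArg (fun t : ℤ => (t : ℝ)) hTq
    simpa [T] using this
  rw [h4] at h3
  have h5 : ∑ χ ∈ B.erase one, (z χ : ℝ) ^ 2 = (q : ℝ) - 1 := by linarith
  rw [h5] at h1
  have h6 : a * ((q : ℝ) - 1) = ((q : ℝ) - 2) / 2 := by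
    have hne' : (q : ℝ) - 1 ≠ 0 := by linarith
    rw [ha]
    field_simp
  linarith

end Cfsg.Agent.Lib.PairSolvableOne
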