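import Cfsg.Agent.Lib.Char.SmallDegrees
import Cfsg.Agent.Lib.Char.Scalar
import Cfsg.Agent.Lib.DefectOne.Principal
import Cfsg.Agent.S0142
import Cfsg.Agent.S0144
import Cfsg.Agent.S0187
import Cfsg.Agent.Lib.Brauer43.Fix

/-!
# Groups whose nonlinear character degrees are primes
-/

set_option autoImplicit false
set_option linter.unusedSectionVars false
set_option linter.style.haveILetI false

namespace Cfsg.Agent.Lib.Char.PrimeDegrees

open Cfsg Cfsg.Agent.Lib Cfsg.Agent.Lib.Char Cfsg.Agent.Lib.DefectOne
open Cfsg.Agent.Lib.Char.UC (C N)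

universe u

theorem not_simple {G : Type u} [Group G] [Finite G] [IsSimpleGroup G] (hG : ¬ IsMulCommutative G)
    (h : ∀ χ : IrrCharacter G, charDegree (χ : G → ℂ) ≠ 1 → (charDegree (χ : G → ℂ)).Prime) :
    False := by
  classical
  haveI := Fintype.ofFinite G
  have hperf := SmallSimple.commutator_eq_top hG
  let S : Finset (IrrCharacter G) := Finset.univ.filter fun χ : IrrCharacter G => charDegree (χ : G → ℂ) ≠ 1
  have hSne : S.Nonempty := by
    by_contra hne
    rw [Finset.not_nonempty_iff_eq_empty, Finset.filter_eq_empty_iff] at hne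
    refine hG ⟨⟨(Cfsg.Agent.S0187.result (G := G)).2 fun χ => ?_⟩⟩
    rw [apply_one_eq_charDegree (isCharacter_of_isIrr χ.2), not_not.1 (hne (Finset.mem_univ χ)),
      Nat.cast_one]
  obtain ⟨χ, hχS, hmax⟩ := S.exists_max_image (fun χ : IrrCharacter G => charDegree (χ : G → ℂ)) hSne
  set p := charDegree (χ : G → ℂ) with hpdef
  have hp : p.Prime := h χ (Finset.mem_filter.1 hχS).2
  haveI := Fact.mk hp
  have hle : ∀ ξ : IrrCharacter G, charDegree (ξ : G → ℂ) ≤ p := fun ξ => by
    by_cases h1 : charDegree (ξ : G → ℂ) = 1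
    · rw [h1]; exact hp.pos
    · exact hmax ξ (Finset.mem_filter.2 ⟨Finset.mem_univ _, h1⟩)
  have hdiv : p ∣ Nat.card G := charDegree_dvd_card χ.2
  rcases Nat.lt_or_ge p 5 with hlt | hge
  · -- only the primes `2` and `3` divide the order
    have hsmall : ∀ q : ℕ, q.Prime → q ∣ Nat.card G → q = 2 ∨ q = 3 := by
      intro q hq hqd
      by_contra hne
      haveI := Fact.mk hq
      have h5 : 5 ≤ q := by
        have := hq.two_le
        have h4 : q ≠ 4 := fun h => absurd (h ▸ hq) (by norm_num)
        omega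
      exact SmallDegrees.not_simple hG (fun ξ => lt_of_lt_of_le (lt_of_le_of_lt (hle ξ) hlt) h5) hqd
    have hn : Nat.card G = 2 ^ (Nat.card G).factorization 2 * 3 ^ (Nat.card G).factorization 3 := by
      conv_lhs => rw [← Nat.prod_factorization_pow_eq_self Nat.card_pos.ne']
      rw [Finsupp.prod_of_support_subset _ (s := {2, 3}) (fun q hq => ?_) _ (by simp),
        Finset.prod_pair (by norm_num)]
      rw [Nat.support_factorization, Nat.mem_primeFactors] at hq
      rcases hsmall q hq.1 hq.2.1 with rfl | rfl <;> simp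
    have hsol : Group.IsSolvable G :=
      Cfsg.Agent.S0144.result (G := G) 2 3 _ _ Nat.prime_two Nat.prime_three hn
    haveI := hsol
    exact hG ⟨⟨fun a b => IsSimpleGroup.comm_iff_isSolvable.2 hsol a b⟩⟩
  have hodd : p % 2 = 1 := Nat.odd_iff.1 (hp.odd_of_ne_two (by omega))
  have hχ1 : (χ : G → ℂ) ≠ fun _ => 1 := fun e => (Finset.mem_filter.1 hχS).2 (by
    rw [e]; exact charDegree_one)
  have hfaith : ∀ g : G, (χ : G → ℂ) g = (χ : G → ℂ) 1 → g = 1 :=
    fun g hg => SmallDegrees.faithful_of_simple χ.2 hχ1 hg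
  have hχc := isCharacter_of_isIrr χ.2
  have hcenter : ∀ z : G, ‖(χ : G → ℂ) z‖ = ‖(χ : G → ℂ) 1‖ → z = 1 := by
    intro z hz
    have hcen : z ∈ Subgroup.center G := by
      refine Subgroup.mem_center_iff.2 fun g => ?_
      refine (inv_mul_eq_one.1 (hfaith _ ?_)).symm
      have h1 := (apply_mul_of_norm_eq hχc hz (g * z⁻¹ * g⁻¹)).1
      have h2 := isClassFunction_of_isIrr χ.2 z⁻¹ g
      rw [h2] at h1
      have h3 := (apply_mul_of_norm_eq hχc hz z⁻¹).1
      rw [mul_inv_cancel] at h3
      have hd0 : (χ : G → ℂ) 1 ≠ 0 := irr_degree_ne_zero χ.2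
      rw [show (z * g)⁻¹ * (g * z) = g⁻¹ * (z⁻¹ * g * z * g⁻¹) * g by group]
      rw [show g⁻¹ * (z⁻¹ * g * z * g⁻¹) * g = g⁻¹ * z⁻¹ * g * z by group]
      have h4 := isClassFunction_of_isIrr χ.2 (g⁻¹ * z⁻¹ * g * z) z
      rw [← h4, show z * (g⁻¹ * z⁻¹ * g * z) * z⁻¹ = z * (g⁻¹ * z⁻¹ * g) by group]
      have h5 := (apply_mul_of_norm_eq hχc hz (g⁻¹ * z⁻¹ * g)).1
      have h6 : (χ : G → ℂ) (g⁻¹ * z⁻¹ * g) = (χ : G → ℂ) z⁻¹ := by
        have := isClassFunction_of_isIrr χ.2 z⁻¹ g⁻¹
        rwa [inv_inv] at this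
      rw [h6, ← h3] at h5
      exact mul_right_cancel₀ hd0 h5
    have hbot : Subgroup.center G = ⊥ := by
      rcases (inferInstance : (Subgroup.center G).Normal).eq_bot_or_eq_top with e | e
      · exact e
      · exact absurd (Subgroup.center_eq_top_iff.1 e) hG
    rwa [hbot, Subgroup.mem_bot] at hcen
  -- the Sylow subgroup is abelian
  obtain ⟨P⟩ : Nonempty (Sylow p G) := inferInstance
  haveI := Fintype.ofFinite (P : Subgroup G)
  obtain ⟨k, hk⟩ := IsPGroup.iff_card.1 P.2
  have hk0 : k ≠ 0 := by
    rintro rfl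
    exact P.ne_bot_of_dvd_card hdiv (Subgroup.card_eq_one.1 (by simpa using hk))
  haveI : Nontrivial (P : Subgroup G) := Finite.one_lt_card_iff_nontrivial.1 (by
    rw [hk]; exact Nat.one_lt_pow hk0 hp.one_lt)
  have hPab : ∀ a b : (P : Subgroup G), a * b = b * a := by
    by_contra hc
    obtain ⟨θ, hθ⟩ : ∃ θ : IrrCharacter (P : Subgroup G),
        classInner (fun x : (P : Subgroup G) => (χ : G → ℂ) x) (θ : ↥(P : Subgroup G) → ℂ) ≠ 0 ∧
          charDegree (θ : ↥(P : Subgroup G) → ℂ) = p := by
      by_contra hne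
      push Not at hne
      refine hc fun a b => ?_
      obtain ⟨m, hm⟩ := isCharacter_eq_sum (isCharacter_restrict hχc (P : Subgroup G))
      have hcomm : ((a * b * a⁻¹ * b⁻¹ : (P : Subgroup G)) : G) = 1 := by
        refine hfaith _ ?_
        have h1 := congrFun hm (a * b * a⁻¹ * b⁻¹)
        have h2 := congrFun hm 1
        simp only [Finset.sum_apply, Pi.smul_apply, smul_eq_mul] at h1 h2
        rw [h1, show (χ : G → ℂ) 1 = (χ : G → ℂ) ((1 : (P : Subgroup G)) : G) by rw [OneMemClass.coe_one], h2]
        refine Finset.sum_congr rfl fun θ _ => ?_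
        rcases Nat.eq_zero_or_pos (m θ) with h0 | h0
        · simp [h0]
        · congr 1
          have hcl : classInner (fun x : (P : Subgroup G) => (χ : G → ℂ) x)
              (θ : ↥(P : Subgroup G) → ℂ) ≠ 0 := by
            rw [hm, classInner_sum_left, Finset.sum_eq_single θ]
            · rw [classInner_smul_left, classInner_irr_self θ.2, mul_one]
              exact Nat.cast_ne_zero.2 h0.ne'
            · intro φ _ hφ
              rw [classInner_smul_left,
                classInner_irr_ne φ.2 θ.2 (fun e => hφ (Subtype.ext e)), mul_zero]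
            · exact fun e => absurd (Finset.mem_univ θ) e
          have hdθ : charDegree (θ : ↥(P : Subgroup G) → ℂ) = 1 := by
            obtain ⟨j, -, hj⟩ := (Nat.dvd_prime_pow hp).1 (hk ▸ charDegree_dvd_card θ.2)
            have hle' : charDegree (θ : ↥(P : Subgroup G) → ℂ) ≤ p := by
              have := constituent_degree_le (isCharacter_restrict hχc (P : Subgroup G)) θ.2 hcl
              refine this.trans (le_of_eq ?_)
              exact charDegree_eq_of_apply_one (by
                show (χ : G → ℂ) ((1 : (P : Subgroup G)) : G) = p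
                rw [OneMemClass.coe_one, apply_one_eq_charDegree hχc])
            rw [hj] at hle'
            rcases Nat.lt_or_ge j 1 with h1 | h1
            · rw [hj, show j = 0 by omega, pow_zero]
            · exfalso
              refine hne θ hcl ?_
              have : j ≤ 1 := (Nat.pow_le_pow_iff_right hp.one_lt).1
                (hle'.trans (le_of_eq (pow_one p).symm))
              rw [hj, show j = 1 by omega, pow_one]
          obtain ⟨l, hl⟩ := exists_hom_of_degree_one (isCharacter_of_isIrr θ.2)
            (by rw [apply_one_eq_charDegree (isCharacter_of_isIrr θ.2), hdθ, Nat.cast_one])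
          rw [hl, hl]
          simp only [map_mul, map_inv, map_one]
          rw [mul_right_comm (l a), mul_inv_cancel, one_mul, mul_inv_cancel]
      have hcomm' : a * b * a⁻¹ * b⁻¹ = 1 := Subtype.ext hcomm
      calc a * b = a * b * a⁻¹ * b⁻¹ * (b * a) := by group
        _ = b * a := by rw [hcomm', one_mul]
    have heq : (fun x : (P : Subgroup G) => (χ : G → ℂ) x) = (θ : ↥(P : Subgroup G) → ℂ) := by
      refine Brauer43.eq_of_constituent (isCharacter_restrict hχc _) θ hθ.1 ?_
      rw [hθ.2]
      exact charDegree_eq_of_apply_one (by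
        show (χ : G → ℂ) ((1 : (P : Subgroup G)) : G) = p
        rw [OneMemClass.coe_one, apply_one_eq_charDegree hχc])
    haveI := (IsPGroup.iff_card.2 ⟨k, hk⟩ : IsPGroup p (P : Subgroup G)).center_nontrivial
    obtain ⟨⟨z, hz⟩, hz1⟩ := exists_ne (1 : Subgroup.center (P : Subgroup G))
    refine hz1 (Subtype.ext (Subtype.ext (hcenter z ?_)))
    have h1 := norm_char_of_mem_center θ.2 hz
    rwa [← heq] at h1
  -- the character vanishes on the Sylow subgroup
  have hvan : ∀ x : (P : Subgroup G), x ≠ 1 → (χ : G → ℂ) x = 0 := by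
    intro x hx
    obtain ⟨n, ρ, hρ, hρχ⟩ := id χ.2
    haveI := hρ
    have hn : Module.finrank ℂ (Fin n → ℂ) = p := by
      have h1 := apply_one_eq_charDegree hχc
      conv_lhs at h1 => rw [← hρχ, Representation.char_one]
      exact_mod_cast h1
    have hcop : Nat.Coprime (Module.finrank ℂ (Fin n → ℂ))
        (Subgroup.centralizer ({(x : G)} : Set G)).index := by
      rw [hn, hp.coprime_iff_not_dvd]
      intro hd
      refine P.not_dvd_index (hd.trans (Subgroup.index_dvd_of_le fun y hy => ?_))
      rw [Subgroup.mem_centralizer_singleton_iff]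
      exact congrArg Subtype.val (hPab ⟨y, hy⟩ x)
    rcases Cfsg.Agent.S0142.result ρ (x : G) hcop with h0 | h0
    · rw [← hρχ]; exact h0
    · refine absurd (Subtype.ext (hcenter x ?_)) hx
      rw [apply_one_eq_charDegree hχc, Complex.norm_natCast, ← hρχ, h0, hn, hρχ]
  have hP : Nat.card (P : Subgroup G) = p := by
    obtain ⟨a, ha⟩ := classInner_natCast (isCharacter_restrict hχc (P : Subgroup G))
      (isCharacter_of_isIrr (isIrrCharacter_one (G := (P : Subgroup G))))
    rw [classInner, Finset.sum_eq_single 1 (fun x _ hx => by rw [hvan x hx, zero_mul])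
      (fun e => absurd (Finset.mem_univ _) e), map_one, mul_one, OneMemClass.coe_one,
      apply_one_eq_charDegree hχc, inv_mul_eq_iff_eq_mul₀ (card_ne_zero_complex _)] at ha
    have ha' : p = Nat.card (P : Subgroup G) * a := by exact_mod_cast ha
    rcases (Nat.dvd_prime hp).1 (Dvd.intro _ ha'.symm) with h1 | h1
    · rw [hk] at h1
      exact absurd h1 (Nat.one_lt_pow hk0 hp.one_lt).ne'
    · exact h1
  -- the principal block
  obtain ⟨M, hM⟩ := Block.exists_isPModular (p := p) hp
  haveI := hM.2.1
  obtain ⟨hediv, Z, Y, sgn, ε, hB, -, hZ, -, -, hZv, -⟩ := principal_structure hM hP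
  have he2 : 2 ≤ (C P).relIndex (N P) := by
    have h0 : (C P).relIndex (N P) ≠ 0 := Subgroup.index_ne_zero_of_finite
    have h1 : (C P).relIndex (N P) ≠ 1 := fun h =>
      SmallSimple.not_normalizer_le_centralizer hG P hdiv (Subgroup.relIndex_eq_one.1 h)
    omega
  have hone : ∀ ξ ∈ Z, ξ = Block.oneIrr G := by
    intro ξ hξ
    have h1 : charDegree (ξ : G → ℂ) = 1 := by
      by_contra hne
      have hpr := h ξ hne
      obtain ⟨hs, hcong, -⟩ := hZv ξ hξ
      have hlep := hle ξ
      have h2 := hpr.two_le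
      obtain ⟨c, hc⟩ := hcong.dvd
      have hp5 : (5 : ℤ) ≤ p := by exact_mod_cast hge
      have hlep' : (charDegree (ξ : G → ℂ) : ℤ) ≤ p := by exact_mod_cast hlep
      have h2' : (2 : ℤ) ≤ charDegree (ξ : G → ℂ) := by exact_mod_cast h2
      rcases hs with hs | hs <;> rw [hs] at hc
      · rcases le_or_gt c (-1) with hc0 | hc0 <;> nlinarith
      · have hc1 : c = -1 := by
          rcases le_or_gt c (-2) with hc0 | hc0
          · nlinarith
          · rcases le_or_gt 0 c with hc2 | hc2
            · nlinarith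
            · omega
        rw [hc1] at hc
        have heven : charDegree (ξ : G → ℂ) = p - 1 := by omega
        rcases hpr.eq_two_or_odd with h3 | h3 <;> omega
    obtain ⟨l, hl⟩ := exists_hom_of_degree_one (isCharacter_of_isIrr ξ.2)
      (by rw [apply_one_eq_charDegree (isCharacter_of_isIrr ξ.2), h1, Nat.cast_one])
    exact Subtype.ext (funext fun g => by
      rw [hl g, Brauer43.perfect_hom_trivial hperf l g, Units.val_one, Block.oneIrr_apply])
  have hcard : Z.card ≤ 1 := Finset.card_le_one.2 fun a ha b hb => by rw [hone a ha, hone b hb]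
  omega

theorem isSolvable : ∀ (n : ℕ) (G : Type u) [Group G] [Finite G], Nat.card G ≤ n →
    (∀ χ : IrrCharacter G, charDegree (χ : G → ℂ) ≠ 1 → (charDegree (χ : G → ℂ)).Prime) →
      Group.IsSolvable G := by
  intro n
  induction n with
  | zero => intro G _ _ h _; exact absurd h (Nat.card_pos (α := G)).not_ge
  | succ n ih =>
    intro G _ _ hn h
    classical
    haveI := Fintype.ofFinite G
    by_cases hc : ∀ a b : G, a * b = b * a
    · exact Group.isSolvable_of_comm hc
    haveI : Nontrivial G := by
      by_contra hnt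
      rw [not_nontrivial_iff_subsingleton] at hnt
      exact hc fun a b => Subsingleton.elim _ _
    by_cases hs : IsSimpleGroup G
    · exact absurd h (fun h => not_simple (fun hi => hc hi.is_comm.comm) h)
    obtain ⟨K, hKn, hKb, hKt⟩ : ∃ K : Subgroup G, K.Normal ∧ K ≠ ⊥ ∧ K ≠ ⊤ := by
      by_contra hno
      push Not at hno
      exact hs ⟨fun K hK => or_iff_not_imp_left.2 (hno K hK)⟩
    haveI := hKn
    haveI : Group.IsSolvable K := by
      refine ih K ?_ fun θ hθ => ?_
      · have : Nat.card K < Nat.card G := lt_of_le_of_ne (Subgroup.card_le_card_group K)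
          fun e => hKt (Subgroup.eq_top_of_card_eq K e)
        omega
      · obtain ⟨χ, hχ⟩ := exists_irr_over K θ.2
        obtain ⟨e, he⟩ := classInner_natCast
          (isCharacter_restrict (isCharacter_of_isIrr χ.2) K) (isCharacter_of_isIrr θ.2)
        have hd := clifford_degree K χ.2 θ.2 hχ
        rw [he, apply_one_eq_charDegree (isCharacter_of_isIrr χ.2),
          apply_one_eq_charDegree (isCharacter_of_isIrr θ.2)] at hd
        have hd' : charDegree (χ : G → ℂ) =
            e * (inertia K (θ : K → ℂ)).index * charDegree (θ : K → ℂ) := by exact_mod_cast hd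
        by_cases h1 : charDegree (χ : G → ℂ) = 1
        · exact absurd (Nat.dvd_one.1 (h1 ▸ Dvd.intro_left _ hd'.symm)) hθ
        · rcases (Nat.dvd_prime (h χ h1)).1 (Dvd.intro_left _ hd'.symm) with h2 | h2
          · exact absurd h2 hθ
          · rw [h2]; exact h χ h1
    haveI : Group.IsSolvable (G ⧸ K) := by
      refine ih _ ?_ fun ψ hψ => ?_
      · have h2 : Nat.card (G ⧸ K) < Nat.card G := by
          have := Subgroup.card_eq_card_quotient_mul_card_subgroup K
          have h1 : 1 < Nat.card K := (Subgroup.one_lt_card_iff_ne_bot K).2 hKb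
          rw [this]
          exact Nat.lt_mul_iff_one_lt_right Nat.card_pos |>.2 h1
        omega
      · have e : charDegree ((inflateEquiv K ψ).1 : G → ℂ) = charDegree (ψ : G ⧸ K → ℂ) := by
          refine charDegree_eq_of_apply_one ?_
          rw [inflateEquiv_apply, QuotientGroup.mk_one,
            apply_one_eq_charDegree (isCharacter_of_isIrr ψ.2)]
        exact e ▸ h (inflateEquiv K ψ).1 (by rw [e]; exact hψ)
    exact Group.isSolvable_of_ker_le_range K.subtype (QuotientGroup.mk' K) (by simp)

end Cfsg.Agent.Lib.Char.PrimeDegrees
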