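import Cfsg.Agent.Lib.Char.TwoDegreesPrime
import Cfsg.Agent.Lib.Char.PrimeDegrees
import Cfsg.Agent.Lib.CharClifford.Divides
import Cfsg.Prelude.Def_DegreeGraph

/-!
# At most three degrees when the nonlinear degrees are primes
-/

set_option autoImplicit false
set_option linter.unusedSectionVars false
set_option linter.style.haveILetI false

namespace Cfsg.Agent.Lib.Char.PrimeDegreesCount

open Cfsg Cfsg.Agent.Lib.Char
open scoped commutatorElement
open Cfsg.Agent.Lib.Char.TwoDegPrime (lf cj St mem_St cj_apply normal_of_index_prime)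

universe u

variable {G : Type u} [Group G] [Finite G]

/-- The degree hypothesis. -/
def Pr (G : Type u) [Group G] : Prop :=
  ∀ χ : IrrCharacter G, charDegree (χ : G → ℂ) = 1 ∨ (charDegree (χ : G → ℂ)).Prime

/-- The degree of a character over a character of a normal subgroup. -/
theorem exists_over (N : Subgroup G) [N.Normal] [Fintype G] [Fintype N] (χ : IrrCharacter G) :
    ∃ (θ : IrrCharacter N) (e : ℕ), charDegree (χ : G → ℂ) =
      e * (inertia N (θ : N → ℂ)).index * charDegree (θ : N → ℂ) ∧
      (inertia N (θ : N → ℂ) = ⊤ → ∀ n : N, (χ : G → ℂ) n = (e : ℂ) * (θ : N → ℂ) n) ∧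
      classInner (fun n : N => (χ : G → ℂ) n) (θ : N → ℂ) = (e : ℂ) ∧ e ≠ 0 := by
  classical
  obtain ⟨θ, hθ⟩ := exists_constituent (G := N)
    (isCharacter_restrict (isCharacter_of_isIrr χ.2) N) (fun h => by
      have h' := congrFun h 1
      simp only [Subgroup.coe_one, Pi.zero_apply] at h'
      exact irr_degree_ne_zero χ.2 h')
  obtain ⟨e, he⟩ := classInner_natCast
    (isCharacter_restrict (isCharacter_of_isIrr χ.2) N) (isCharacter_of_isIrr θ.2)
  refine ⟨θ, e, ?_, fun hinv => ?_, he, fun h0 => hθ (by rw [he, h0, Nat.cast_zero])⟩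
  · have h := clifford_degree N χ.2 θ.2 hθ
    rw [he, apply_one_eq_charDegree (isCharacter_of_isIrr χ.2),
      apply_one_eq_charDegree (isCharacter_of_isIrr θ.2)] at h
    exact_mod_cast h
  · intro n
    have hres := congrFun (clifford N χ.2 θ.2 hθ) n
    have horb : orbit N (θ : N → ℂ) = {(θ : N → ℂ)} := by
      ext φ
      rw [mem_orbit, Finset.mem_singleton]
      constructor
      · rintro ⟨b, rfl⟩
        exact (mem_inertia N).1 (by rw [hinv]; trivial)
      · rintro rfl
        exact ⟨1, conjChar_one N _⟩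
    rw [horb, Finset.sum_singleton, he] at hres
    exact hres

/-- A normal subgroup of prime index with a linear character which is not invariant. -/
theorem exists_moved [Group.IsSolvable G] (hd : Pr G) (hnc : ¬ ∀ a b : G, a * b = b * a) :
    ∃ (p : ℕ) (A : Subgroup G) (_ : A.Normal), p.Prime ∧ A.index = p ∧
      ∃ l : A →* ℂˣ, St A l ≠ ⊤ := by
  classical
  haveI := Fintype.ofFinite G
  set G1 := derivedSeries G 1 with hG1
  set G2 := derivedSeries G 2 with hG2
  haveI : G1.Normal := derivedSeries_normal G 1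
  haveI : G2.Normal := derivedSeries_normal G 2
  have hne : ¬ G1 ≤ G2 := by
    intro hle
    have h12 : G2 = G1 := le_antisymm (derivedSeries_antitone G (by norm_num)) hle
    have hst : ∀ k, derivedSeries G (k + 1) = G1 := by
      intro k
      induction k with
      | zero => rfl
      | succ k ih =>
        rw [derivedSeries_succ, ih]
        exact (derivedSeries_succ G 1).symm.trans h12
    obtain ⟨k, hk⟩ := Group.IsSolvable.solvable (G := G)
    refine hnc fun a b => ?_
    have h1 : ⁅a, b⁆ ∈ G1 := by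
      rw [hG1, derivedSeries_one]
      exact Subgroup.commutator_mem_commutator (Subgroup.mem_top a) (Subgroup.mem_top b)
    have h2 : G1 = ⊥ := by
      rcases k with _ | k
      · rw [derivedSeries_zero] at hk
        exact le_bot_iff.1 (hk ▸ le_top)
      · rw [← hst k, hk]
    rw [h2, Subgroup.mem_bot, commutatorElement_eq_one_iff_mul_comm] at h1
    exact h1
  -- a nonlinear character of `G ⧸ G''`
  set K := G ⧸ G2 with hK
  obtain ⟨ψ, hψ⟩ : ∃ ψ : IrrCharacter K, charDegree (ψ : K → ℂ) ≠ 1 := by
    by_contra hc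
    push Not at hc
    have hcomm := (Cfsg.Agent.S0187.result (G := K)).2 fun ψ => by
      rw [apply_one_eq_charDegree (isCharacter_of_isIrr ψ.2), hc ψ, Nat.cast_one]
    refine hne ?_
    rw [hG1, derivedSeries_one]
    refine Subgroup.commutator_le.2 fun a _ b _ => ?_
    rw [← QuotientGroup.eq_one_iff, commutatorElement_def]
    simp only [QuotientGroup.mk_mul, QuotientGroup.mk_inv]
    rw [hcomm (a : K), mul_inv_cancel_right, mul_inv_cancel]
  set χ : IrrCharacter G := (inflateEquiv G2 ψ).1 with hχ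
  have hχd : charDegree (χ : G → ℂ) = charDegree (ψ : K → ℂ) := by
    refine charDegree_eq_of_apply_one ?_
    rw [hχ, inflateEquiv_apply, QuotientGroup.mk_one,
      apply_one_eq_charDegree (isCharacter_of_isIrr ψ.2)]
  have hp : (charDegree (χ : G → ℂ)).Prime := (hd χ).resolve_left (hχd ▸ hψ)
  set p := charDegree (χ : G → ℂ) with hpdef
  obtain ⟨θ, e, hdeg, hinvres, hcl, he0⟩ := exists_over G1 χ
  have hcl' : classInner (fun n : G1 => (χ : G → ℂ) n) (θ : G1 → ℂ) ≠ 0 := by
    rw [hcl]; exact Nat.cast_ne_zero.2 he0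
  have hker : ∀ g ∈ G2, ∀ x : G, (χ : G → ℂ) (g * x) = (χ : G → ℂ) x := by
    intro g hg x
    rw [hχ, inflateEquiv_apply, inflateEquiv_apply, QuotientGroup.mk_mul,
      (QuotientGroup.eq_one_iff g).2 hg, one_mul]
  have hθ1 : charDegree (θ : G1 → ℂ) = 1 := by
    -- `θ` is trivial on `G''`
    have hk : ∀ a b : G1, (θ : G1 → ℂ) (a * b * a⁻¹ * b⁻¹) = (θ : G1 → ℂ) 1 := by
      intro a b
      have hθc := isCharacter_of_isIrr θ.2
      obtain ⟨m, hm⟩ := isCharacter_eq_sum (isCharacter_restrict (isCharacter_of_isIrr χ.2) G1)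
      set c : G1 := a * b * a⁻¹ * b⁻¹ with hc
      have hcG2 : (c : G) ∈ G2 := by
        rw [hG2, derivedSeries_succ]
        have := Subgroup.commutator_mem_commutator (H₁ := G1) (H₂ := G1) a.2 b.2
        rw [commutatorElement_def] at this
        exact this
      have h1 := congrFun hm c
      have h2 := congrFun hm 1
      simp only [Finset.sum_apply, Pi.smul_apply, smul_eq_mul] at h1 h2
      rw [OneMemClass.coe_one] at h2
      have h3 : ∑ φ : IrrCharacter G1, (m φ : ℝ) * ((φ : G1 → ℂ) c).re =
          ∑ φ : IrrCharacter G1, (m φ : ℝ) * ((φ : G1 → ℂ) 1).re := by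
        have h := congrArg Complex.re (h1.symm.trans (by
          rw [show (χ : G → ℂ) c = (χ : G → ℂ) ((c : G) * 1) by rw [mul_one], hker _ hcG2, h2]))
        simpa [Complex.re_sum] using h
      have hle : ∀ φ : IrrCharacter G1,
          (m φ : ℝ) * ((φ : G1 → ℂ) c).re ≤ (m φ : ℝ) * ((φ : G1 → ℂ) 1).re := fun φ => by
        refine mul_le_mul_of_nonneg_left ?_ (Nat.cast_nonneg _)
        have h := (Complex.re_le_norm _).trans (norm_apply_le (isCharacter_of_isIrr φ.2) c)
        rw [apply_one_eq_charDegree (isCharacter_of_isIrr φ.2), Complex.norm_natCast] at h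
        rw [apply_one_eq_charDegree (isCharacter_of_isIrr φ.2), Complex.natCast_re]
        exact h
      have hmθ : (m θ : ℝ) ≠ 0 := by
        have h := hcl'
        rw [hm, classInner_sum_left, Finset.sum_eq_single θ (fun φ _ hφ => by
          rw [classInner_smul_left, classInner_irr_ne φ.2 θ.2 (fun h => hφ (Subtype.ext h)),
            mul_zero]) (fun h => absurd (Finset.mem_univ θ) h), classInner_smul_left,
          classInner_irr_self θ.2, mul_one] at h
        exact_mod_cast h
      have h4 := mul_left_cancel₀ hmθ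
        ((Finset.sum_eq_sum_iff_of_le fun φ _ => hle φ).1 h3 θ (Finset.mem_univ θ))
      have hn1 := norm_apply_le hθc c
      rw [apply_one_eq_charDegree hθc, Complex.norm_natCast] at hn1
      rw [apply_one_eq_charDegree hθc, Complex.natCast_re] at h4
      have hsq := Complex.sq_norm ((θ : G1 → ℂ) c)
      rw [Complex.normSq_apply, h4] at hsq
      have him : ((θ : G1 → ℂ) c).im = 0 := by nlinarith [norm_nonneg ((θ : G1 → ℂ) c)]
      rw [apply_one_eq_charDegree hθc]
      exact Complex.ext (by rw [Complex.natCast_re]; exact h4) (by rw [him, Complex.natCast_im])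
    obtain ⟨n, ρ, hρ, hρe⟩ := id θ.2
    haveI := hρ
    have hcomm : ∀ a b : G1, ρ a * ρ b = ρ b * ρ a := fun a b => by
      have h1 : ρ (a * b * a⁻¹ * b⁻¹) = 1 := by
        refine (character_eq_degree_iff ρ _).1 ?_
        have := hk a b
        rw [← hρe] at this
        rw [this, Representation.char_one]
      rw [← map_mul, ← map_mul, show a * b = (a * b * a⁻¹ * b⁻¹) * (b * a) by group, map_mul, h1,
        one_mul]
    have hfin : Module.finrank ℂ (Fin n → ℂ) = 1 := by
      haveI : IsMulCommutative (G1 ⧸ (ρ.toHomUnits).ker) := ⟨⟨fun x y => by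
        induction x using QuotientGroup.induction_on with | H x =>
        induction y using QuotientGroup.induction_on with | H y =>
        rw [← QuotientGroup.mk_mul, ← QuotientGroup.mk_mul, QuotientGroup.eq, MonoidHom.mem_ker,
          map_mul, map_inv, inv_mul_eq_one]
        exact Units.ext (by simpa using hcomm x y)⟩⟩
      obtain ⟨ψ', hψ', hψe⟩ := exists_irr_deflation θ.2 (ρ.toHomUnits).ker (fun a ha => by
        rw [← hρe]
        have h1 : ρ a = 1 := congrArg Units.val (MonoidHom.mem_ker.1 ha)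
        rw [Representation.character, h1, Representation.char_one]
        simp [LinearMap.trace_one])
      obtain ⟨m', τ, hτ, hτ'⟩ := hψ'
      have h2 := hψe 1
      rw [QuotientGroup.mk_one, ← hτ', ← hρe, Representation.char_one, Representation.char_one,
        Representation.IsIrreducible.finrank_eq_one_of_isMulCommutative τ] at h2
      exact_mod_cast h2.symm
    refine charDegree_eq_of_apply_one ?_
    rw [← hρe, Representation.char_one, hfin]
  obtain ⟨l₀, hl₀⟩ := exists_hom_of_degree_one (isCharacter_of_isIrr θ.2)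
    (by rw [apply_one_eq_charDegree (isCharacter_of_isIrr θ.2), hθ1, Nat.cast_one])
  rw [hθ1, mul_one] at hdeg
  have hG1I : G1 ≤ inertia G1 (θ : G1 → ℂ) := le_inertia G1 (isClassFunction_of_isIrr θ.2)
  rcases (Nat.dvd_prime hp).1 (Dvd.intro_left _ hdeg.symm) with ht | ht
  swap
  · -- the stabiliser of `θ` has index `p`
    set I := inertia G1 (θ : G1 → ℂ) with hI
    haveI hIn : I.Normal := ⟨fun x hx g => by
      have h : g * x * g⁻¹ * x⁻¹ ∈ I := hG1I (by
        rw [hG1, derivedSeries_one]
        have := Subgroup.commutator_mem_commutator (Subgroup.mem_top g) (Subgroup.mem_top x)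
        rwa [commutatorElement_def] at this)
      simpa [mul_assoc] using mul_mem h hx⟩
    obtain ⟨φ, hφ, hind, e', -, hres⟩ := exists_clifford_correspondent G1 χ.2 θ.2 hcl'
    have hφ1 : φ 1 = 1 := by
      have h := congrFun hind 1
      rw [indFun_one, show (inertia G1 (θ : G1 → ℂ)).index = p from ht,
        apply_one_eq_charDegree (isCharacter_of_isIrr hφ),
        apply_one_eq_charDegree (isCharacter_of_isIrr χ.2), ← hpdef] at h
      have h' : p * charDegree φ = p := by exact_mod_cast h
      rw [apply_one_eq_charDegree (isCharacter_of_isIrr hφ),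
        Nat.eq_of_mul_eq_mul_left hp.pos (h'.trans (mul_one p).symm), Nat.cast_one]
    obtain ⟨l, hl⟩ := exists_hom_of_degree_one (isCharacter_of_isIrr hφ) hφ1
    refine ⟨p, I, hIn, hp, ht, l, fun htop => ?_⟩
    refine hp.ne_one (ht.symm.trans (Subgroup.index_eq_one.2 (eq_top_iff.2 fun g _ => ?_)))
    rw [hI, mem_inertia]
    funext q
    have hg : cj I g l = l := (mem_St I).1 (htop ▸ Subgroup.mem_top g)
    have h1 := congrArg (fun f : I →* ℂˣ => (f ⟨q, hG1I q.2⟩ : ℂ)) hg
    have h1 := (congrArg Units.val (cj_apply I g l ⟨q, hG1I q.2⟩).symm).trans h1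
    rw [← hl, ← hl] at h1
    have h2 := (hres ⟨g * q * g⁻¹, (inferInstance : G1.Normal).conj_mem q q.2 g⟩).symm.trans
      (h1.trans (hres q))
    refine mul_left_cancel₀ ?_ h2
    intro h0
    have h := hres 1
    rw [h0, zero_mul] at h
    exact one_ne_zero (hφ1.symm.trans h)
  -- `G'` acts by scalars: the image of `G` is nilpotent
  · have hθtop := Subgroup.index_eq_one.1 ht
    rw [ht, mul_one] at hdeg
    have hr := hinvres hθtop
    set R := charKer (χ : G → ℂ) with hR
    have hχc := isCharacter_of_isIrr χ.2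
    haveI : R.Normal := charKer_normal hχc
    obtain ⟨ρ', hρ', hρe'⟩ := exists_irr_deflation χ.2 R fun n hn => (mem_charKer hχc).1 hn
    have hcenG1 : ∀ a ∈ G1, ∀ g : G, (χ : G → ℂ) (g * a * g⁻¹ * a⁻¹) = (χ : G → ℂ) 1 := by
      intro a ha g
      have hmem : g * a * g⁻¹ * a⁻¹ ∈ G1 :=
        mul_mem ((inferInstance : G1.Normal).conj_mem a ha g) (inv_mem ha)
      have h1 : g ∈ inertia G1 (θ : G1 → ℂ) := by rw [hθtop]; trivial
      have h2 := congrFun ((mem_inertia G1).1 h1) ⟨a, ha⟩
      rw [conjChar_apply, hl₀, hl₀] at h2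
      have e1 := hr ⟨_, hmem⟩
      have e2 := hr 1
      rw [OneMemClass.coe_one] at e2
      rw [e1, e2]
      congr 1
      rw [hl₀, hl₀, map_one,
        show (⟨g * a * g⁻¹ * a⁻¹, hmem⟩ : G1) =
          ⟨g * a * g⁻¹, (inferInstance : G1.Normal).conj_mem a ha g⟩ * ⟨a, ha⟩⁻¹ from rfl,
        map_mul, map_inv, Units.ext h2, mul_inv_cancel]
    haveI : Group.IsNilpotent (G ⧸ R) := by
      haveI : IsMulCommutative (G ⧸ G1) := ⟨⟨fun x y => by
        induction x using QuotientGroup.induction_on with | H x =>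
        induction y using QuotientGroup.induction_on with | H y =>
        rw [← QuotientGroup.mk_mul, ← QuotientGroup.mk_mul, QuotientGroup.eq, hG1, derivedSeries_one]
        have := Subgroup.commutator_mem_commutator (Subgroup.mem_top y⁻¹) (Subgroup.mem_top x⁻¹)
        rw [commutatorElement_def] at this
        simpa [mul_assoc, commutator_def] using this⟩⟩
      set W := G1.map (QuotientGroup.mk' R) with hW
      haveI : W.Normal := Subgroup.Normal.map inferInstance _ (QuotientGroup.mk'_surjective R)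
      have hWc : (QuotientGroup.mk' W).ker ≤ Subgroup.center (G ⧸ R) := by
        rw [QuotientGroup.ker_mk', hW]
        rintro _ ⟨a, ha, rfl⟩
        refine Subgroup.mem_center_iff.2 fun q => ?_
        obtain ⟨g, rfl⟩ := QuotientGroup.mk_surjective q
        have : ((g * a * g⁻¹ * a⁻¹ : G) : G ⧸ R) = 1 :=
          (QuotientGroup.eq_one_iff _).2 ((mem_charKer hχc).2 (hcenG1 a ha g))
        simp only [QuotientGroup.mk_mul, QuotientGroup.mk_inv] at this
        exact mul_inv_eq_iff_eq_mul.1 (mul_inv_eq_one.1 this)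
      haveI : IsMulCommutative ((G ⧸ R) ⧸ W) := ⟨⟨fun x y => by
        obtain ⟨x', rfl⟩ := QuotientGroup.mk_surjective x
        obtain ⟨y', rfl⟩ := QuotientGroup.mk_surjective y
        obtain ⟨g, rfl⟩ := QuotientGroup.mk_surjective x'
        obtain ⟨h, rfl⟩ := QuotientGroup.mk_surjective y'
        refine (QuotientGroup.eq (s := W) (a := (g : G ⧸ R) * h) (b := (h : G ⧸ R) * g)).2 ?_
        rw [hW]
        refine ⟨(g * h)⁻¹ * (h * g), ?_, rfl⟩
        rw [SetLike.mem_coe, ← QuotientGroup.eq]
        simp only [QuotientGroup.mk_mul]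
        exact IsMulCommutative.is_comm.comm _ _⟩⟩
      letI : CommGroup ((G ⧸ R) ⧸ W) :=
        { (inferInstance : Group ((G ⧸ R) ⧸ W)) with mul_comm := IsMulCommutative.is_comm.comm }
      haveI : Group.IsNilpotent ((G ⧸ R) ⧸ W) := CommGroup.isNilpotent
      exact Subgroup.isNilpotent_of_ker_le_center _ hWc
    obtain ⟨H, lam, hlam⟩ := Cfsg.Agent.S0176.result ρ' hρ'
    have hρ1 : ρ' 1 = (p : ℂ) := by
      rw [← QuotientGroup.mk_one, hρe', apply_one_eq_charDegree hχc, hpdef]
    have hidx : H.index = p := by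
      have h := congrFun hlam 1
      rw [hρ1, indFun_one, map_one, Units.val_one, mul_one] at h
      exact_mod_cast h.symm
    haveI hHn := normal_of_index_prime H (hidx ▸ hp)
    have hmoved : St H lam ≠ ⊤ := fun htop => by
      have h := classInner_indFun_self H (θ := lf lam) (isIrrCharacter_linear lam)
      rw [show indFun H (lf lam) = ρ' from hlam.symm, classInner_irr_self hρ',
        show inertia H (lf lam) = ⊤ from htop, Subgroup.card_top, ← H.card_mul_index, hidx,
        Nat.cast_mul, ← mul_assoc, inv_mul_cancel₀ (card_ne_zero_complex H), one_mul] at h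
      exact hp.ne_one (by exact_mod_cast h.symm)
    let π := QuotientGroup.mk' R
    refine ⟨p, H.comap π, inferInstance, hp, ?_, lam.comp (π.subgroupComap H), fun htop => hmoved ?_⟩
    · rw [Subgroup.index_comap_of_surjective _ (QuotientGroup.mk'_surjective R), hidx]
    refine eq_top_iff.2 fun q _ => (mem_St H).2 (MonoidHom.ext fun b => ?_)
    obtain ⟨g, rfl⟩ := QuotientGroup.mk_surjective q
    obtain ⟨b, hb⟩ := b
    obtain ⟨a, rfl⟩ := QuotientGroup.mk_surjective b
    have hg : cj (H.comap π) g (lam.comp (π.subgroupComap H)) = lam.comp (π.subgroupComap H) :=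
      (mem_St _).1 (htop ▸ Subgroup.mem_top g)
    have h1 := DFunLike.congr_fun hg ⟨a, hb⟩
    rw [cj_apply] at h1
    rw [cj_apply]
    refine Eq.trans ?_ h1
    exact congrArg lam (Subtype.ext rfl)

/-- The nonlinear degrees of a subgroup as above are a single prime. -/
theorem nonlinear_eq (hd : Pr G) {p : ℕ} (hp : p.Prime) (A : Subgroup G) [A.Normal]
    (hA : A.index = p) (l : A →* ℂˣ) (hl : St A l ≠ ⊤) :
    ∃ s : ℕ, ∀ ψ : IrrCharacter A, charDegree (ψ : A → ℂ) ≠ 1 → charDegree (ψ : A → ℂ) = s := by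
  classical
  haveI := Fintype.ofFinite G
  let D0 : Subgroup A := ⨅ g : G, (cj A g l / l).ker
  have hmemD : ∀ a : A, a ∈ D0 ↔ ∀ g, cj A g l a = l a := fun a => by
    simp only [D0, Subgroup.mem_iInf, MonoidHom.mem_ker, MonoidHom.div_apply, div_eq_one]
  haveI hDn : D0.Normal := ⟨fun x hx a => by
    rw [hmemD] at hx ⊢
    intro g
    simp only [map_mul, map_inv, hx g]
    rw [mul_right_comm, mul_inv_cancel, one_mul, mul_right_comm (l a), mul_inv_cancel, one_mul]⟩
  refine ⟨D0.index.minFac, fun ψ hψ1 => ?_⟩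
  have hψc := isCharacter_of_isIrr ψ.2
  have hinv : ∀ φ : IrrCharacter A, charDegree (φ : A → ℂ) ≠ 1 →
      (charDegree (φ : A → ℂ)).Prime ∧ inertia A (φ : A → ℂ) = ⊤ := by
    intro φ hφ
    obtain ⟨χ, e, he⟩ := TwoDegPrime.exists_mult A φ.2
    rcases hd χ with h | h
    · exact absurd (Nat.dvd_one.1 (h ▸ Dvd.intro_left _ he.symm)) hφ
    · rcases (Nat.dvd_prime h).1 (Dvd.intro_left _ he.symm) with h2 | h2
      · exact absurd h2 hφ
      · refine ⟨h2 ▸ h, Subgroup.index_eq_one.1 ?_⟩
        rw [← h2] at he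
        have h3 := Nat.eq_of_mul_eq_mul_right (charDegree_pos φ.2)
          ((one_mul (charDegree (φ : A → ℂ))).trans he)
        exact Nat.eq_one_of_mul_eq_one_left h3.symm
  obtain ⟨hs, hψinv⟩ := hinv ψ hψ1
  set s := charDegree (ψ : A → ℂ) with hsdef
  have hprod : inertia A (fun a => (l a : ℂ) * (ψ : A → ℂ) a) = ⊤ :=
    (hinv ⟨_, isIrrCharacter_linear_mul ψ.2 l⟩ (by
      rw [charDegree_eq_of_apply_one (χ := fun a => (l a : ℂ) * (ψ : A → ℂ) a) (n := s) (by
        show (l 1 : ℂ) * (ψ : A → ℂ) 1 = s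
        rw [map_one, Units.val_one, one_mul, apply_one_eq_charDegree hψc])]
      exact hs.ne_one)).2
  have hvan : ∀ a : A, a ∉ D0 → (ψ : A → ℂ) a = 0 := by
    intro a ha
    rw [hmemD] at ha
    push Not at ha
    obtain ⟨g, hg⟩ := ha
    have h1 : g ∈ inertia A (fun a => (l a : ℂ) * (ψ : A → ℂ) a) := by rw [hprod]; trivial
    have h2 : g ∈ inertia A (ψ : A → ℂ) := by rw [hψinv]; trivial
    rw [mem_inertia] at h1 h2
    have h3 := congrFun h1 a
    simp only [conjChar_apply] at h3
    rw [show (ψ : A → ℂ) ⟨g * a * g⁻¹, (inferInstance : A.Normal).conj_mem a a.2 g⟩ =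
      (ψ : A → ℂ) a from congrFun h2 a, ← cj_apply A g l a] at h3
    by_contra hne0
    exact hg (Units.ext (mul_right_cancel₀ hne0 h3))
  have hD1 : D0.index ≠ 1 := by
    intro h
    rw [Subgroup.index_eq_one] at h
    exact hl (eq_top_iff.2 fun g _ => (mem_St A).2 (MonoidHom.ext fun a =>
      (hmemD a).1 (h ▸ Subgroup.mem_top a) g))
  -- the norm on `D0`
  have hnorm : classInner (fun n : D0 => (ψ : A → ℂ) n) (fun n : D0 => (ψ : A → ℂ) n) =
      (D0.index : ℂ) := by
    have h := classInner_irr_self ψ.2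
    rw [classInner, ← Finset.sum_subset (Finset.subset_univ (Finset.univ.filter (· ∈ D0)))
      (fun a _ ha => by rw [hvan a (by simpa using ha), zero_mul]),
      Finset.sum_subtype (p := (· ∈ D0)) _ (fun a => by simp) _] at h
    have hc : (Nat.card A : ℂ) = Nat.card D0 * D0.index := by
      rw [← Nat.cast_mul, D0.card_mul_index]
    rw [hc] at h
    rw [classInner]
    have hi : (D0.index : ℂ) ≠ 0 := Nat.cast_ne_zero.2 Subgroup.index_ne_zero_of_finite
    have hd' := card_ne_zero_complex D0
    field_simp at h ⊢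
    linear_combination h
  obtain ⟨θ, e, hdeg, -, hcl, he0⟩ := exists_over D0 ψ
  have hne : classInner (fun n : D0 => (ψ : A → ℂ) n) (θ : D0 → ℂ) ≠ 0 := by
    rw [hcl]; exact Nat.cast_ne_zero.2 he0
  have hres := clifford D0 ψ.2 θ.2 hne
  rw [hcl] at hres
  have ht : (D0.index : ℂ) = (e : ℂ) * e * ((inertia D0 (θ : D0 → ℂ)).index : ℕ) := by
    rw [← hnorm]
    conv_lhs => arg 2; rw [hres]
    rw [classInner_conj_symm, classInner_smul_left, classInner_sum_left,
      Finset.sum_congr rfl (g := fun _ => (e : ℂ)) fun φ hφ => ?_, Finset.sum_const,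
      card_orbit D0 _ (irr_degree_ne_zero θ.2), nsmul_eq_mul]
    · simp only [map_mul, map_natCast]
      ring
    · obtain ⟨a, rfl⟩ := (mem_orbit D0).1 hφ
      rw [classInner_conj_symm,
        ← conjChar_restrict D0 (isClassFunction_of_isIrr ψ.2) a, classInner_conjChar, hcl,
        map_natCast]
  have ht' : D0.index = e * e * (inertia D0 (θ : D0 → ℂ)).index := by exact_mod_cast ht
  -- the index is `s` or `s ^ 2`
  have key : D0.index = s ∨ D0.index = s ^ 2 := by
    rcases (Nat.dvd_prime hs).1 (Dvd.intro_left _ hdeg.symm) with h | h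
    · rw [h, mul_one] at hdeg
      rcases (Nat.dvd_prime hs).1 (Dvd.intro _ hdeg.symm) with h2 | h2
      · rw [h2, one_mul] at hdeg
        exact Or.inl (by rw [ht', h2, one_mul, one_mul]; exact hdeg.symm)
      · rw [h2] at hdeg
        have h3 : (inertia D0 (θ : D0 → ℂ)).index = 1 :=
          Nat.eq_of_mul_eq_mul_left hs.pos (hdeg.symm.trans (mul_one s).symm)
        exact Or.inr (by rw [ht', h2, h3, mul_one, sq])
    · exfalso
      rw [h] at hdeg
      have h3 := Nat.eq_of_mul_eq_mul_right hs.pos ((one_mul s).trans hdeg)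
      rw [Nat.eq_one_of_mul_eq_one_right h3.symm, Nat.eq_one_of_mul_eq_one_left h3.symm] at ht'
      exact hD1 ht'
  rcases key with h | h
  · rw [h, hs.minFac_eq]
  · rw [h, Nat.pow_minFac two_ne_zero, hs.minFac_eq]

theorem card_le_three [Group.IsSolvable G] (hd : Pr G) : Nat.card ↥(charDegrees G) ≤ 3 := by
  classical
  haveI := Fintype.ofFinite G
  suffices ∃ p s : ℕ, charDegrees G ⊆ ({1, p, s} : Finset ℕ) by
    obtain ⟨p, s, h⟩ := this
    refine le_trans (Nat.card_mono (Finset.finite_toSet _) h) ?_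
    rw [Nat.card_coe_set_eq, Set.ncard_coe_finset]
    exact Finset.card_le_three
  by_cases hc : ∀ a b : G, a * b = b * a
  · refine ⟨1, 1, ?_⟩
    rintro d ⟨χ, rfl⟩
    have := (Cfsg.Agent.S0187.result (G := G)).1 hc χ
    rw [apply_one_eq_charDegree (isCharacter_of_isIrr χ.2)] at this
    have h1 : charDegree (χ : G → ℂ) = 1 := by exact_mod_cast this
    simp [h1]
  obtain ⟨p, A, hAn, hp, hA, l, hl⟩ := exists_moved hd hc
  haveI := hAn
  obtain ⟨s, hs⟩ := nonlinear_eq hd hp A hA l hl
  refine ⟨p, s, ?_⟩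
  rintro d ⟨χ, rfl⟩
  rcases hd χ with h | h
  · simp [h]
  obtain ⟨θ, e, hdeg, hinv, -, -⟩ := exists_over A χ
  rcases (Nat.dvd_prime h).1 (Dvd.intro_left _ hdeg.symm) with h1 | h1
  · -- over a linear character
    have hI : (inertia A (θ : A → ℂ)).index ∣ p := hA ▸ Subgroup.index_dvd_of_le
      (le_inertia A (isClassFunction_of_isIrr θ.2))
    rw [h1, mul_one] at hdeg
    have hfin : charDegree (χ : G → ℂ) = p := by
      rcases (Nat.dvd_prime hp).1 hI with hi | hi
      · rw [hi, mul_one] at hdeg
        have he : e ∣ p := hA ▸ CharClifford.ramification_dvd_index A χ.2 θ.2 e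
          (hinv (Subgroup.index_eq_one.1 hi))
        rcases (Nat.dvd_prime hp).1 he with h2 | h2
        · exact absurd (hdeg.trans h2) h.ne_one
        · rw [hdeg, h2]
      · rw [hi] at hdeg
        exact ((Nat.prime_dvd_prime_iff_eq hp h).1 (Dvd.intro_left _ hdeg.symm)).symm
    simp [hfin]
  · have h2 := hs θ (h1 ▸ h.ne_one)
    rw [← h1, h2]
    simp

end Cfsg.Agent.Lib.Char.PrimeDegreesCount
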