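import Cfsg.Agent.Lib.Char.Orthogonality
import Mathlib.RingTheory.Valuation.LocalSubring
import Mathlib.RingTheory.Nakayama
import Mathlib.GroupTheory.Sylow
import Mathlib.GroupTheory.FiniteAbelian.Basic

/-!
# Fixed points of an over-group of a TI Sylow normalizer in a small representation

If a Sylow `p`-subgroup `P` is a TI set and `N(P) ≤ H`, then in a complex representation of degree
less than `|P|` every vector fixed by `H` is fixed by the whole group.  The proof reduces a lattice
over a valuation ring lying over `p`: the sum over `P` is zero modulo the maximal ideal.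
-/

set_option autoImplicit false

open Module
open scoped Pointwise

namespace Cfsg.Agent.Lib.Char.TIFixedPoints

universe u v

/-- A valuation subring of `ℂ` in which `p` is not invertible. -/
theorem exists_valuationSubring {p : ℕ} (hp : p.Prime) :
    ∃ V : ValuationSubring ℂ, ((p : ℕ) : V) ∈ IsLocalRing.maximalIdeal V := by
  let f : ℤ →+* ℂ := Int.castRingHom ℂ
  let q : f.range := ⟨(p : ℂ), (p : ℤ), by simp [f]⟩
  have hne : (Ideal.span {q} : Ideal f.range) ≠ ⊤ := by
    intro h
    rw [Ideal.span_singleton_eq_top, isUnit_iff_exists_inv] at h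
    obtain ⟨⟨b, m, rfl⟩, hb⟩ := h
    have hb' : (p : ℂ) * (m : ℂ) = 1 := congrArg Subtype.val hb
    have hz : (p : ℤ) * m = 1 := by exact_mod_cast hb'
    have := Int.eq_one_of_mul_eq_one_right (Int.natCast_nonneg p) hz
    exact hp.ne_one (by exact_mod_cast this)
  obtain ⟨V, -, hV⟩ := Ideal.image_subset_nonunits_valuationSubring _ hne
  have h2 := hV ⟨q, Ideal.mem_span_singleton_self q, rfl⟩
  rw [← V.image_maximalIdeal] at h2
  obtain ⟨x, hx, hxq⟩ := h2
  refine ⟨V, ?_⟩
  convert hx
  exact Subtype.ext (by simpa [q] using hxq.symm)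

variable {G : Type u} [Group G] [Finite G] {p : ℕ}

/-- Over a valuation ring with residue characteristic `p`, the sum over a `p`-group of translates
of a vector lying in an invariant lattice of small rank is divisible by the maximal ideal. -/
theorem sum_mem_smul [Fact p.Prime] (V : ValuationSubring ℂ)
    (hV : ((p : ℕ) : V) ∈ IsLocalRing.maximalIdeal V)
    {W : Type v} [AddCommGroup W] [Module ℂ W]
    (ρ : Representation ℂ G W) (P : Subgroup G) [Fintype P] (hP : IsPGroup p P)
    (L : Submodule V W) (hL : ∀ g : G, ∀ w ∈ L, ρ g w ∈ L) {w : W} (hw : w ∈ L)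
    (hdep : ¬ LinearIndependent ℂ (fun u : P => ρ (u : G) w)) :
    ∑ u : P, ρ (u : G) w ∈ IsLocalRing.maximalIdeal V • L := by
  classical
  set m := IsLocalRing.maximalIdeal V with hm
  let k := IsLocalRing.ResidueField V
  let π : V →+* k := IsLocalRing.residue V
  -- the residues of the relations modulo `m • L`
  let S : Submodule k (P → k) :=
    { carrier := {F | ∃ f : P → V, (fun u => π (f u)) = F ∧ ∑ u : P, f u • ρ (u : G) w ∈ m • L}
      zero_mem' := ⟨0, by funext u; simp, by simp⟩
      add_mem' := by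
        rintro _ _ ⟨f, rfl, hf⟩ ⟨f', rfl, hf'⟩
        refine ⟨f + f', by funext u; simp, ?_⟩
        simp only [Pi.add_apply, add_smul, Finset.sum_add_distrib]
        exact add_mem hf hf'
      smul_mem' := by
        rintro c _ ⟨f, rfl, hf⟩
        obtain ⟨a, rfl⟩ := IsLocalRing.residue_surjective (R := V) c
        refine ⟨a • f, by funext u; simp [π], ?_⟩
        simp only [Pi.smul_apply, smul_eq_mul, mul_smul, ← Finset.smul_sum]
        exact Submodule.smul_mem _ a hf }
  have htrans : ∀ F ∈ S, ∀ a : P, (fun u => F (a⁻¹ * u)) ∈ S := by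
    rintro _ ⟨f, rfl, hf⟩ a
    refine ⟨fun u => f (a⁻¹ * u), rfl, ?_⟩
    have he : ∑ u : P, f (a⁻¹ * u) • ρ (u : G) w = ρ (a : G) (∑ u : P, f u • ρ (u : G) w) := by
      rw [map_sum]
      refine (Fintype.sum_equiv (Equiv.mulLeft a) _ _ fun u => ?_).symm
      rw [Equiv.coe_mulLeft, inv_mul_cancel_left, Subgroup.coe_mul, map_mul,
        Module.End.mul_apply]
      exact (ρ (a : G)).map_smul_of_tower (f u) _
    rw [he]
    refine Submodule.smul_induction_on hf (fun r hr x hx => ?_) fun x y hx hy => ?_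
    · rw [(ρ (a : G)).map_smul_of_tower]
      exact Submodule.smul_mem_smul hr (hL _ x hx)
    · rw [map_add]
      exact add_mem hx hy
  -- a relation with a unit coefficient
  obtain ⟨g, hg, u₁, hu₁⟩ := Fintype.not_linearIndependent_iff.1 hdep
  obtain ⟨u₀, -, hmax⟩ := Finset.exists_max_image Finset.univ (fun u : P => V.valuation (g u))
    ⟨u₁, Finset.mem_univ _⟩
  have hg0 : g u₀ ≠ 0 := by
    intro h0
    have := hmax u₁ (Finset.mem_univ _)
    rw [h0, map_zero, le_zero_iff, map_eq_zero] at this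
    exact hu₁ this
  have hmem : ∀ u : P, g u / g u₀ ∈ V := by
    intro u
    rw [← V.valuation_le_one_iff, map_div₀]
    exact div_le_one_of_le₀ (hmax u (Finset.mem_univ _)) zero_le'
  let f : P → V := fun u => ⟨g u / g u₀, hmem u⟩
  have hf : ∑ u : P, f u • ρ (u : G) w = 0 := by
    rw [← smul_zero (g u₀)⁻¹, ← hg, Finset.smul_sum]
    refine Finset.sum_congr rfl fun u _ => ?_
    rw [smul_smul, inv_mul_eq_div]
    rfl
  let F : P → k := fun u => π (f u)
  have hFS : F ∈ S := ⟨f, rfl, by rw [hf]; exact zero_mem _⟩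
  have hF0 : F ≠ 0 := by
    intro h0
    have h1 : f u₀ = 1 := Subtype.ext (div_self hg0)
    have := congrFun h0 u₀
    simp [F, h1] at this
  -- a nonzero fixed point in the finite group generated by the translates
  let A : AddSubgroup (P → k) := AddSubgroup.closure (Set.range fun a : P => fun u => F (a⁻¹ * u))
  have hpk : (p : k) = 0 := by
    rw [← map_natCast π]
    exact (IsLocalRing.residue_eq_zero_iff _).2 hV
  have htors : ∀ x : P → k, p • x = 0 := fun x => by
    funext u
    rw [Pi.smul_apply, nsmul_eq_mul, hpk, zero_mul, Pi.zero_apply]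
  haveI : AddGroup.FG A := by
    rw [AddGroup.fg_iff_addSubgroup_fg]
    exact ⟨(Set.finite_range _).toFinset, by rw [Set.Finite.coe_toFinset]⟩
  haveI : Finite A := by
    refine AddCommGroup.finite_of_fg_isAddTorsion A fun x => ?_
    exact isOfFinAddOrder_iff_nsmul_eq_zero.2
      ⟨p, (Fact.out : p.Prime).pos, Subtype.ext (htors x.1)⟩
  have hAinv : ∀ x ∈ A, ∀ a : P, (fun u => x (a⁻¹ * u)) ∈ A := by
    intro x hx a
    induction hx using AddSubgroup.closure_induction with
    | mem y hy =>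
      obtain ⟨b, rfl⟩ := hy
      refine AddSubgroup.subset_closure ⟨a * b, funext fun u => ?_⟩
      simp [mul_assoc]
    | zero => exact zero_mem A
    | add y z _ _ hy hz => exact add_mem hy hz
    | neg y _ hy => exact neg_mem hy
  letI : MulAction P A :=
    { smul := fun a x => ⟨fun u => x.1 (a⁻¹ * u), hAinv x.1 x.2 a⟩
      one_smul := fun x => Subtype.ext (funext fun u => by
        show x.1 (1⁻¹ * u) = x.1 u
        rw [inv_one, one_mul])
      mul_smul := fun a b x => Subtype.ext (funext fun u => by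
        show x.1 ((a * b)⁻¹ * u) = x.1 (b⁻¹ * (a⁻¹ * u))
        rw [mul_inv_rev, mul_assoc]) }
  have hdvd : p ∣ Nat.card A := by
    have hmem : F ∈ A := AddSubgroup.subset_closure ⟨1, funext fun u => by simp⟩
    have hord : addOrderOf (⟨F, hmem⟩ : A) = p :=
      addOrderOf_eq_prime (Subtype.ext (htors F)) fun h => hF0 (congrArg Subtype.val h)
    exact hord ▸ addOrderOf_dvd_natCard _
  obtain ⟨b, hb, hb0⟩ := hP.exists_fixed_point_of_prime_dvd_card_of_fixed_point A hdvd
    (a := 0) (fun a => Subtype.ext (funext fun u => rfl))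
  have hconst : ∀ u : P, b.1 u = b.1 1 := fun u => by
    have := congrFun (congrArg Subtype.val (hb u)) u
    rw [← this]
    show b.1 (u⁻¹ * u) = b.1 1
    rw [inv_mul_cancel]
  have hbS : b.1 ∈ S := by
    have hle : A ≤ S.toAddSubgroup := by
      rw [AddSubgroup.closure_le]
      rintro _ ⟨a, rfl⟩
      exact htrans F hFS a
    exact hle b.2
  have hc : b.1 1 ≠ 0 := fun h0 =>
    hb0 (Subtype.ext (funext fun u => ((hconst u).trans h0).symm))
  obtain ⟨f', hf'1, hf'2⟩ := S.smul_mem (b.1 1)⁻¹ hbS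
  have hone : ∀ u : P, π (f' u) = 1 := fun u => by
    have := congrFun hf'1 u
    simp only [Pi.smul_apply, smul_eq_mul, hconst u, inv_mul_cancel₀ hc] at this
    exact this
  have hsplit : ∑ u : P, ρ (u : G) w =
      ∑ u : P, f' u • ρ (u : G) w + ∑ u : P, (1 - f' u) • ρ (u : G) w := by
    rw [← Finset.sum_add_distrib]
    refine Finset.sum_congr rfl fun u _ => ?_
    rw [← add_smul, add_sub_cancel, one_smul]
  rw [hsplit]
  refine add_mem hf'2 (sum_mem fun u _ => Submodule.smul_mem_smul ?_ (hL _ w hw))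
  rw [← IsLocalRing.residue_eq_zero_iff]
  show π (1 - f' u) = 0
  rw [map_sub, map_one, hone u, sub_self]

/-- An element of `P` fixing a coset of `H` other than `H` is trivial. -/
theorem eq_one_of_conj_mem [Fact p.Prime] (P : Sylow p G)
    (hTI : ∀ g : G, g ∉ Subgroup.normalizer ((P : Subgroup G) : Set G) →
      (P : Subgroup G) ⊓ (MulAut.conj g • (P : Subgroup G)) = ⊥)
    (H : Subgroup G) (hH : Subgroup.normalizer ((P : Subgroup G) : Set G) ≤ H)
    {u g : G} (hu : u ∈ (P : Subgroup G)) (hg : g ∉ H) (hug : g⁻¹ * u * g ∈ H) : u = 1 := by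
  have hPH : (P : Subgroup G) ≤ H := Subgroup.le_normalizer.trans hH
  obtain ⟨j, hj⟩ := P.2 ⟨u, hu⟩
  have hQ : IsPGroup p (Subgroup.zpowers (⟨g⁻¹ * u * g, hug⟩ : H)) := by
    refine IsPGroup.iff_card.2 ?_
    have hpow : (⟨g⁻¹ * u * g, hug⟩ : H) ^ p ^ j = 1 := by
      refine Subtype.ext ?_
      have hu' : u ^ p ^ j = 1 := by simpa using congrArg Subtype.val hj
      have := map_pow (MulAut.conj g⁻¹) u (p ^ j)
      simp only [MulAut.conj_apply, inv_inv, hu', mul_one, inv_mul_cancel] at this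
      simpa using this.symm
    obtain ⟨i, -, hi⟩ := (Nat.dvd_prime_pow (Fact.out : p.Prime)).1 (orderOf_dvd_of_pow_eq_one hpow)
    exact ⟨i, by rw [Nat.card_zpowers, hi]⟩
  obtain ⟨Q, hQle⟩ := hQ.exists_le_sylow
  obtain ⟨h, hh⟩ := MulAction.exists_smul_eq H (P.subtype hPH) Q
  have hmemQ : (⟨g⁻¹ * u * g, hug⟩ : H) ∈ (Q : Subgroup H) := hQle (Subgroup.mem_zpowers _)
  rw [← hh, Sylow.coe_subgroup_smul, Subgroup.mem_pointwise_smul_iff_inv_smul_mem,
    Sylow.coe_subtype, Subgroup.mem_subgroupOf] at hmemQ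
  have hmem : (g * (h : G))⁻¹ * u * (g * (h : G)) ∈ (P : Subgroup G) := by
    simpa [mul_assoc] using hmemQ
  by_contra hu1
  apply hg
  have hgh : g * (h : G) ∈ Subgroup.normalizer ((P : Subgroup G) : Set G) := by
    by_contra hc
    have h1 : u ∈ (P : Subgroup G) ⊓ (MulAut.conj (g * (h : G)) • (P : Subgroup G)) := by
      refine ⟨hu, Subgroup.mem_pointwise_smul_iff_inv_smul_mem.2 ?_⟩
      simpa [mul_assoc] using hmem
    rw [hTI _ hc, Subgroup.mem_bot] at h1
    exact hu1 h1
  have := H.mul_mem (hH hgh) (H.inv_mem h.2)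
  simpa using this

/-- In a representation of degree less than `|P|`, `P` a TI Sylow subgroup, the fixed vectors
of an over-group of `N(P)` are fixed by the whole group. -/
theorem fixed_of_fixed [Fact p.Prime] (P : Sylow p G)
    (hTI : ∀ g : G, g ∉ Subgroup.normalizer ((P : Subgroup G) : Set G) →
      (P : Subgroup G) ⊓ (MulAut.conj g • (P : Subgroup G)) = ⊥)
    (H : Subgroup G) (hH : Subgroup.normalizer ((P : Subgroup G) : Set G) ≤ H)
    {W : Type v} [AddCommGroup W] [Module ℂ W] [FiniteDimensional ℂ W]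
    (ρ : Representation ℂ G W) (U : Submodule ℂ W) (hU : ∀ g : G, ∀ w ∈ U, ρ g w ∈ U)
    (hdim : finrank ℂ U < Nat.card (P : Subgroup G)) {v : W} (hvU : v ∈ U)
    (hv : ∀ h ∈ H, ρ h v = v) : ∀ g : G, ρ g v = v := by
  classical
  haveI : Fintype G := Fintype.ofFinite G
  haveI : Fintype (G ⧸ H) := Fintype.ofFinite _
  -- the value of a vector fixed by `H` on a coset
  have hwd : ∀ x : W, (∀ h ∈ H, ρ h x = x) → ∀ a b : G, (a : G ⧸ H) = b → ρ a x = ρ b x := by
    intro x hx a b hab
    rw [QuotientGroup.eq] at hab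
    conv_lhs => rw [← hx _ hab]
    rw [← Module.End.mul_apply, ← map_mul, mul_inv_cancel_left]
  let S : W := ∑ x : G ⧸ H, ρ x.out v
  have hS : ∀ g : G, ρ g S = S := by
    intro g
    simp only [S, map_sum, ← Module.End.mul_apply, ← map_mul]
    refine Fintype.sum_equiv (MulAction.toPerm g) _ _ fun x => hwd v hv _ _ ?_
    rw [MulAction.toPerm_apply, QuotientGroup.out_eq']
    conv_rhs => rw [← QuotientGroup.out_eq' x]
    rfl
  have hn : (Fintype.card (G ⧸ H) : ℂ) ≠ 0 := Nat.cast_ne_zero.2 Fintype.card_ne_zero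
  let c : ℂ := (Fintype.card (G ⧸ H) : ℂ)⁻¹
  let v' : W := v - c • S
  have hv'U : v' ∈ U := sub_mem hvU (U.smul_mem _ (sum_mem fun x _ => hU _ _ hvU))
  have hv' : ∀ h ∈ H, ρ h v' = v' := fun h hh => by
    rw [map_sub, map_smul, hv h hh, hS]
  have hsum : ∑ x : G ⧸ H, ρ x.out v' = 0 := by
    simp only [v', map_sub, map_smul, hS, Finset.sum_sub_distrib, Finset.sum_const,
      Finset.card_univ]
    rw [← Nat.cast_smul_eq_nsmul ℂ, smul_smul, mul_inv_cancel₀ hn, one_smul]
    exact sub_self S
  suffices h0 : v' = 0 by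
    intro g
    have hvS : v = c • S := sub_eq_zero.1 h0
    rw [hvS, map_smul, hS]
  obtain ⟨V, hV⟩ := exists_valuationSubring (Fact.out : p.Prime)
  let L : Submodule V W := Submodule.span V (Set.range fun g : G => ρ g v')
  have hLinv : ∀ g : G, ∀ w ∈ L, ρ g w ∈ L := by
    intro g w hw
    induction hw using Submodule.span_induction with
    | mem y hy =>
      obtain ⟨a, rfl⟩ := hy
      exact Submodule.subset_span ⟨g * a, by show ρ (g * a) v' = _; rw [map_mul]; rfl⟩
    | zero => rw [map_zero]; exact zero_mem L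
    | add y z _ _ hy hz => rw [map_add]; exact add_mem hy hz
    | smul a y _ hy => rw [(ρ g).map_smul_of_tower]; exact L.smul_mem a hy
  haveI : Fintype (P : Subgroup G) := Fintype.ofFinite _
  have hT : ∀ g : G, ∑ u : (P : Subgroup G), ρ (u : G) (ρ g v') ∈
      IsLocalRing.maximalIdeal V • L := by
    intro g
    refine sum_mem_smul V hV ρ (P : Subgroup G) P.2 L hLinv
      (Submodule.subset_span ⟨g, rfl⟩) fun hli => ?_
    have hli' : LinearIndependent ℂ (fun u : (P : Subgroup G) =>
        (⟨ρ (u : G) (ρ g v'), hU _ _ (hU _ _ hv'U)⟩ : U)) :=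
      LinearIndependent.of_comp U.subtype hli
    have := hli'.fintype_card_le_finrank
    rw [← Nat.card_eq_fintype_card] at this
    omega
  -- the free orbits
  let X := {x : G ⧸ H // x ≠ ((1 : G) : G ⧸ H)}
  have hout : ∀ x : X, x.1.out ∉ H := fun x hx => x.2 (by
    rw [← QuotientGroup.out_eq' x.1, QuotientGroup.eq]
    simpa using H.inv_mem hx)
  have hPH : (P : Subgroup G) ≤ H := Subgroup.le_normalizer.trans hH
  letI : MulAction ↥(P : Subgroup G) X :=
    { smul := fun u x => ⟨(u : G) • x.1, fun h => x.2 (by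
        have h2 : x.1 = (u : G)⁻¹ • ((1 : G) : G ⧸ H) := eq_inv_smul_iff.2 h
        rw [h2, MulAction.Quotient.smul_coe, smul_eq_mul, mul_one, QuotientGroup.eq, inv_inv,
          mul_one]
        exact hPH u.2)⟩
      one_smul := fun x => Subtype.ext (one_smul G x.1)
      mul_smul := fun a b x => Subtype.ext (mul_smul (a : G) (b : G) x.1) }
  have hcoe : ∀ (u : ↥(P : Subgroup G)) (x : X), ((u • x : X) : G ⧸ H) = (u : G) • x.1 :=
    fun u x => rfl
  have hfree : ∀ (u : ↥(P : Subgroup G)) (x : X), u • x = x → u = 1 := by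
    intro u x hux
    refine Subtype.ext (eq_one_of_conj_mem P hTI H hH u.2 (hout x) ?_)
    have h2 : (((u : G) * x.1.out : G) : G ⧸ H) = ((x.1.out : G) : G ⧸ H) := by
      rw [← smul_eq_mul, ← MulAction.Quotient.smul_coe, QuotientGroup.out_eq', ← hcoe, hux]
    have h3 := QuotientGroup.eq.1 h2.symm
    simpa [mul_assoc] using h3
  have hX : ∑ x : X, ρ x.1.out v' ∈ IsLocalRing.maximalIdeal V • L := by
    let O := Quotient (MulAction.orbitRel (P : Subgroup G) X)
    let Φ : ↥(P : Subgroup G) × O → X := fun q => q.1 • q.2.out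
    have hΦ : Function.Bijective Φ := by
      constructor
      · rintro ⟨a, o⟩ ⟨b, o'⟩ (h : a • o.out = b • o'.out)
        have ho : o = o' := by
          rw [← Quotient.out_eq o, ← Quotient.out_eq o']
          refine Quotient.sound (MulAction.orbitRel_apply.2 ⟨a⁻¹ * b, ?_⟩)
          show (a⁻¹ * b) • o'.out = o.out
          rw [mul_smul, ← h, inv_smul_smul]
        subst ho
        have h1 := hfree (b⁻¹ * a) o.out (by rw [mul_smul, h, inv_smul_smul])
        rw [inv_mul_eq_one] at h1
        rw [h1]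
      · intro x
        have h := MulAction.orbitRel_apply.1
          (Quotient.mk_out (s := MulAction.orbitRel (P : Subgroup G) X) x)
        obtain ⟨u, hu⟩ := h
        exact ⟨⟨u⁻¹, Quotient.mk _ x⟩, inv_smul_eq_iff.2 hu.symm⟩
    haveI : Fintype O := Fintype.ofFinite _
    rw [← (Equiv.ofBijective Φ hΦ).sum_comp, Fintype.sum_prod_type, Finset.sum_comm]
    refine sum_mem fun o _ => ?_
    refine (congrArg (· ∈ IsLocalRing.maximalIdeal V • L)
      (Finset.sum_congr rfl fun u _ => ?_)).mpr (hT o.out.1.out)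
    rw [← Module.End.mul_apply, ← map_mul]
    refine hwd v' hv' _ _ ?_
    rw [QuotientGroup.out_eq', ← smul_eq_mul, ← MulAction.Quotient.smul_coe,
      QuotientGroup.out_eq']
    exact hcoe u o.out
  have hv'm : v' ∈ IsLocalRing.maximalIdeal V • L := by
    have h1 : ρ ((1 : G) : G ⧸ H).out v' = v' := by
      rw [hwd v' hv' _ 1 (QuotientGroup.out_eq' _), map_one]
      rfl
    have hsplit : ∑ x : G ⧸ H, ρ x.out v' =
        ρ ((1 : G) : G ⧸ H).out v' + ∑ x : X, ρ x.1.out v' := by
      rw [← Finset.add_sum_erase Finset.univ _ (Finset.mem_univ ((1 : G) : G ⧸ H))]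
      congr 1
      exact Finset.sum_subtype _ (by simp) _
    rw [hsum, h1] at hsplit
    rw [eq_neg_of_add_eq_zero_left hsplit.symm]
    exact neg_mem hX
  have hLle : L ≤ IsLocalRing.maximalIdeal V • L := by
    rw [Submodule.span_le]
    rintro _ ⟨g, rfl⟩
    show ρ g v' ∈ IsLocalRing.maximalIdeal V • L
    refine Submodule.smul_induction_on hv'm (fun r hr x hx => ?_) fun x y hx hy => ?_
    · rw [(ρ g).map_smul_of_tower]
      exact Submodule.smul_mem_smul hr (hLinv g x hx)
    · rw [map_add]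
      exact add_mem hx hy
  have hbot := Submodule.eq_bot_of_le_smul_of_le_jacobson_bot _ L
    (Submodule.fg_span (Set.finite_range _)) hLle
    (IsLocalRing.maximalIdeal_le_jacobson _)
  have hv'L : v' ∈ L := Submodule.subset_span ⟨1, by simp⟩
  rw [hbot] at hv'L
  exact (Submodule.mem_bot V).1 hv'L

/-- An endomorphism commuting with the action of `H` commutes with the action of `G`. -/
theorem commute_of_commute [Fact p.Prime] (P : Sylow p G)
    (hTI : ∀ g : G, g ∉ Subgroup.normalizer ((P : Subgroup G) : Set G) →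
      (P : Subgroup G) ⊓ (MulAut.conj g • (P : Subgroup G)) = ⊥)
    (H : Subgroup G) (hH : Subgroup.normalizer ((P : Subgroup G) : Set G) ≤ H)
    {n : ℕ} (ρ : Representation ℂ G (Fin n → ℂ))
    (hn : n ^ 2 ≤ Nat.card (P : Subgroup G)) (f : Module.End ℂ (Fin n → ℂ))
    (hf : ∀ h ∈ H, ρ h * f = f * ρ h) : ∀ g : G, ρ g * f = f * ρ g := by
  classical
  rcases Nat.eq_zero_or_pos n with rfl | hn0
  · intro g
    exact Subsingleton.elim _ _
  let t : Module.End ℂ (Fin n → ℂ) →ₗ[ℂ] ℂ := LinearMap.trace ℂ _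
  have ht1 : t 1 = (n : ℂ) := by
    show LinearMap.trace ℂ _ 1 = _
    rw [LinearMap.trace_one, Module.finrank_fin_fun]
  have hn' : (n : ℂ) ≠ 0 := Nat.cast_ne_zero.2 hn0.ne'
  let σ : Representation ℂ G (Module.End ℂ (Fin n → ℂ)) := Representation.linHom ρ ρ
  have hσ : ∀ g x, σ g x = ρ g * x * ρ g⁻¹ := fun g x => by
    show ρ g ∘ₗ x ∘ₗ ρ g⁻¹ = _
    rw [mul_assoc]
    rfl
  have hinv1 : ∀ g : G, ρ g * ρ g⁻¹ = 1 := fun g => by rw [← map_mul, mul_inv_cancel, map_one]
  have hinv2 : ∀ g : G, ρ g⁻¹ * ρ g = 1 := fun g => by rw [← map_mul, inv_mul_cancel, map_one]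
  have hU : ∀ g : G, ∀ x ∈ LinearMap.ker t, σ g x ∈ LinearMap.ker t := fun g x hx => by
    rw [LinearMap.mem_ker] at hx ⊢
    show LinearMap.trace ℂ _ (σ g x) = 0
    rw [hσ, LinearMap.trace_mul_comm, ← mul_assoc, hinv2, one_mul]
    exact hx
  have hdim : finrank ℂ (LinearMap.ker t) < Nat.card (P : Subgroup G) := by
    refine lt_of_lt_of_le (Submodule.finrank_lt fun h => hn' ?_) (le_of_eq_of_le ?_ hn)
    · rw [← ht1]
      exact LinearMap.mem_ker.1 (h ▸ Submodule.mem_top)
    · rw [Module.finrank_linearMap, Module.finrank_fin_fun, sq]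
  let f₀ : Module.End ℂ (Fin n → ℂ) := f - (t f / n) • 1
  have hf₀ : f₀ ∈ LinearMap.ker t := by
    rw [LinearMap.mem_ker, map_sub, map_smul, ht1, smul_eq_mul, div_mul_cancel₀ _ hn', sub_self]
  have hfix : ∀ h ∈ H, σ h f₀ = f₀ := fun h hh => by
    rw [hσ, mul_sub, sub_mul, hf h hh, mul_assoc f, hinv1, mul_one, mul_smul_comm, mul_one,
      smul_mul_assoc, hinv1]
  have h := fixed_of_fixed P hTI H hH σ (LinearMap.ker t) hU hdim hf₀ hfix
  intro g
  have h2 := congrArg (· * ρ g) (h g)
  simp only [hσ] at h2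
  rw [mul_assoc, hinv2, mul_one, mul_sub, sub_mul, mul_smul_comm, mul_one, smul_mul_assoc,
    one_mul, sub_left_inj] at h2
  exact h2

end Cfsg.Agent.Lib.Char.TIFixedPoints
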